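import Cfsg.Agent.H35.S4Defs

/-! Type I: the conjugates of `t` in `C(t)`. -/

set_option autoImplicit false

namespace Cfsg.Agent.H67.S4Dc

open Cfsg Cfsg.Agent.H63 Cfsg.Agent.H63.SL Cfsg.Agent.H35.S4 Subgroup

universe u v

variable {F : Type v} [Field F] {G : Type u} [Group G] {L : Subgroup G} {x : ZMod 8 → F → G} {t : G}

theorem mem_cj {g a : G} {H : Subgroup G} : a ∈ cj g H ↔ g⁻¹ * a * g ∈ H :=
  ⟨by rintro ⟨b, hb, rfl⟩; simpa [mul_assoc] using hb, fun h => ⟨_, h, by simp [mul_assoc]⟩⟩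

theorem card_cj (g : G) (H : Subgroup G) : Nat.card (cj g H) = Nat.card H :=
  card_map_of_injective (MulAut.conj g).injective

theorem D_conj {d : G} (g : G) (h : d ∈ Dt t) : g * d * g⁻¹ ∈ Dt t := by
  obtain ⟨k, rfl⟩ := h
  exact ⟨g * k, by group⟩

theorem Sh_conj {l r : G} (hl : l ∈ L) (h : r ∈ Sh x L) : l * r * l⁻¹ ∈ Sh x L := by
  obtain ⟨k, hk, z, hz, n, rfl⟩ := h
  exact ⟨l * k, mul_mem hl hk, z, hz, n, by group⟩

variable (hC : Ctx L x t)
include hC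

theorem x0 (i : ZMod 8) : x i 0 = 1 := by
  have := hC.mod.pin.add i 0 0
  rw [add_zero] at this
  exact left_eq_mul.1 this

theorem tt : t * t = 1 := by rw [← pow_two, ← hC.tc.t2, pow_orderOf_eq_one]

theorem D_sq {d : G} (h : d ∈ Dt t) : d * d = 1 := by
  obtain ⟨k, rfl⟩ := h
  rw [conj_mul, tt hC, mul_one, mul_inv_cancel]

theorem Sh_le {r : G} (h : r ∈ Sh x L) : r ∈ L := by
  obtain ⟨k, hk, z, hz, -, rfl⟩ := h
  obtain ⟨a, rfl⟩ := (hC.kp.memX 1 z).1 hz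
  exact mul_mem (mul_mem hk (hC.kb.xL 1 a)) (inv_mem hk)

theorem tD {l r : G} (hl : l ∈ L) (h : t * r ∈ Dt t) : t * (l * r * l⁻¹) ∈ Dt t := by
  have := D_conj l h
  rwa [← mul_assoc, ← (hC.kb.tL l hl).eq, mul_assoc t, mul_assoc t] at this

theorem inner {e : G} (he : e ∈ L ⊔ C[L]) (c : Commute e t) (s : e * e = 1) :
    ∃ j ∈ L, j * j = 1 ∧ (e = j ∨ e = t * j) := by
  rw [← SetLike.mem_coe, coe_mul_of_right_le_normalizer_left _ _ (centralizer_le_normalizer _)] at he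
  obtain ⟨j, hj, k, hk, rfl⟩ := he
  have jk : Commute j k := hk j hj
  have kt : Commute k t := by
    simpa using (hC.kb.tL j hj).symm.inv_left.mul_left c
  have e1 : j * j = (k * k)⁻¹ := by
    rw [eq_inv_iff_mul_eq_one, ← pow_two, ← pow_two, ← jk.mul_pow, pow_two]; exact s
  have e2 : j * j = 1 := mem_bot.1 (hC.mod.zL ▸ mem_inf.2 ⟨mul_mem hj hj, e1 ▸ inv_mem (mul_mem hk hk)⟩)
  refine ⟨j, hj, e2, (hC.tc.one k hk kt (by rwa [e2, eq_comm, inv_eq_one] at e1)).imp ?_ ?_⟩ <;>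
    rintro rfl
  exacts [mul_one j, jk.eq]

theorem cardX [Finite F] : Nat.card (XR x 1) ≤ Nat.card F :=
  Nat.card_le_card_of_surjective (fun a => ⟨x 1 a, (hC.kp.memX 1 _).2 ⟨a, rfl⟩⟩) fun z => by
    obtain ⟨a, e⟩ := (hC.kp.memX 1 _).1 z.2
    exact ⟨a, Subtype.ext e.symm⟩

theorem bnd [Finite F] [Finite G] {B : Subgroup G} (h : ∀ e ∈ B, e = 1 ∨ e ∈ Sh x L) :
    Nat.card B ≤ Nat.card F ∧ ∃ l ∈ L, cj l B ≤ XR x 1 := by
  obtain ⟨l, hl, e⟩ := hC.kn.shB B (fun e he => (h e he).elim (fun k => k ▸ one_mem _) (Sh_le hC))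
    fun e he n => (h e he).resolve_left n
  exact ⟨(card_cj l B ▸ card_le_of_le e).trans (cardX hC), l, hl, e⟩

omit hC in
theorem dc : DcStmt.{u, v} := by
  intro F _ _ G _ _ L x t hC h3 h2
  have shD : ∀ r ∈ Sh x L, t * r ∈ Dt t := by
    rintro _ ⟨l, hl, z, hz, -, rfl⟩
    obtain ⟨a, rfl⟩ := (hC.kp.memX 1 z).1 hz
    exact tD hC hl (hC.kp.nn 4 3 a ▸ tD hC (hC.kb.nL 4) (h3 a) :)
  have nsw : NoSw L x t := fun g hg r hr => by
    refine (hC.kn.rt g (hC.tc.cN hg) r (.inl hr)).resolve_right ?_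
    rintro ⟨l, hl, z, hz, n, e⟩
    obtain ⟨b, rfl⟩ := (hC.kp.memX 2 z).1 hz
    have k := D_conj g (shD r hr)
    rw [← mul_assoc, mem_centralizer_singleton_iff.1 hg, mul_assoc t, mul_assoc t, e] at k
    refine h2 b 0 (by rintro rfl; exact n (x0 hC 2)) ?_
    simpa [mul_assoc, x0 hC] using tD hC (inv_mem hl) k
  have dci : ∀ d ∈ Dt t, Commute d t → d ∈ L ⊔ C[L] → d = t ∨ t * d ∈ Sh x L := fun d hd c m => by
    obtain ⟨j, hj, s, rfl | rfl⟩ := inner hC m c (D_sq hC hd)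
    · exact absurd hj (hC.noL _ hd)
    obtain ⟨l, hl, e⟩ := hC.kn.cls j hj s
    obtain ⟨b, c, e⟩ := (hC.kp.memZ _).1 e
    obtain rfl : b = 0 := by_contra fun n => h2 b c n (e ▸ tD hC hl hd)
    rw [x0 hC, one_mul] at e
    by_cases c0 : c = 0
    · rw [c0, x0 hC, conj_eq_one_iff] at e
      exact .inl (by rw [e, mul_one])
    · have k : l * j * l⁻¹ ∈ Sh x L := ⟨_, hC.kb.nL 4, x 1 c, (hC.kp.memX 1 _).2 ⟨c, rfl⟩,
        fun n => c0 (hC.mod.pin.inj 1 c n), e.trans (hC.kp.nn 4 1 c).symm⟩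
      refine .inr ?_
      simpa [← mul_assoc, tt hC] using Sh_conj (inv_mem hl) k
  have el : ∀ e, Commute e t → (t * e = t ∨ t * (t * e) ∈ Sh x L) → e = 1 ∨ e ∈ Sh x L :=
    fun e _ k => k.imp mul_eq_left.1 fun k => by rwa [← mul_assoc, tt hC, one_mul] at k
  have dc : ∀ d ∈ Dt t, Commute d t → d = t ∨ t * d ∈ Sh x L := fun d hd c => by
    refine dci d hd c (by_contra fun n => ?_)
    have cd := mem_centralizer_singleton_iff.2 c
    obtain ⟨B, b1, b2, b3, -, b4⟩ := hC.kn.out d (hC.tc.cN cd) (D_sq hC hd) n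
    replace b4 := b4 (nsw d cd)
    obtain ⟨g, rfl⟩ := id hd
    have m : ∀ e ∈ cj g⁻¹ B, g * e * g⁻¹ ∈ B := fun e he => by simpa using mem_cj.1 he
    have c1 : ∀ e ∈ cj g⁻¹ B, Commute e t := fun e he => by
      have := mem_centralizer_singleton_iff.1 (b1 (m e he)).2
      rwa [conj_mul, conj_mul, mul_left_inj, mul_right_inj] at this
    have c2 : ∀ e ∈ cj g⁻¹ B, e * e = 1 := fun e he => by
      have := b2 _ (m e he)
      rwa [conj_mul, conj_eq_one_iff] at this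
    have c3 : ∀ e ∈ cj g⁻¹ B, t * e ∈ Dt t := fun e he => by
      obtain ⟨l, -, k⟩ := b3 _ (m e he)
      have := D_conj g⁻¹ (k ▸ D_conj l hd)
      simpa [mul_assoc] using this
    have cN : cj g⁻¹ B ≤ N[L] := fun e he => hC.tc.cN (mem_centralizer_singleton_iff.2 (c1 e he))
    have i2 := hC.kn.idx2 _ cN c2
    obtain ⟨k1, l, hl, k2⟩ := bnd hC (B := cj g⁻¹ B ⊓ (L ⊔ C[L])) fun e he => el e (c1 e he.1)
      (dci _ (c3 e he.1) ((Commute.refl t).mul_left (c1 e he.1))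
        (mul_mem (mem_sup_right hC.tc.tc) he.2))
    have four := hC.mod.four
    rw [card_cj] at i2
    have q4 : Nat.card F = 4 := by
      by_contra q
      have : Nat.card B ^ 2 ≤ (2 * Nat.card F) ^ 2 := Nat.pow_le_pow_left (by omega) 2
      nlinarith [show 5 ≤ Nat.card F by omega]
    have b8 : 8 ≤ Nat.card B := by
      rw [q4] at b4
      nlinarith
    have k3 : cj l (cj g⁻¹ B ⊓ (L ⊔ C[L])) = XR x 1 :=
      eq_of_le_of_card_ge k2 (by rw [card_cj]; have := cardX hC; omega)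
    have k4 : cj g⁻¹ B ≤ L ⊔ C[L] := fun e he => by
      have lN : l ∈ N[L] := le_normalizer hl
      have := hC.kn.cX 1 (mem_inf.2 ⟨mul_mem (mul_mem lN (cN he)) (inv_mem lN), fun z hz => by
        rw [← k3] at hz
        have hz' := (mem_cj.1 hz).1
        have k := c2 _ (mul_mem hz' he)
        rw [mul_eq_one_iff_eq_inv, mul_inv_rev, inv_eq_of_mul_eq_one_left (c2 _ hz'),
          inv_eq_of_mul_eq_one_left (c2 _ he)] at k
        rw [← mul_right_inj l⁻¹, ← mul_left_inj l]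
        simpa [mul_assoc] using k⟩)
      have lm : l ∈ L ⊔ C[L] := mem_sup_left hl
      exact (mul_mem_cancel_left lm).1 ((mul_mem_cancel_right (inv_mem lm)).1 this)
    rw [inf_eq_left.2 k4, card_cj] at k1
    omega
  exact ⟨nsw, dc, fun B hB h => (bnd hC fun e he => by
    have c : Commute e t := mem_centralizer_singleton_iff.1 (hB he)
    exact el e c (dc _ (h e he) ((Commute.refl t).mul_left c))).1⟩

end Cfsg.Agent.H67.S4Dc
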