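import Mathlib
import Cfsg.Agent.H42.FvDefs

/-! The normal form of an element of the Borel subalgebra. -/

set_option autoImplicit false

namespace Cfsg.Agent.H67.FvNf

open Equiv Cfsg.Lie H37 H40 H34 H29 Module H50.E83 Cfsg.Agent.H42.Fv
open scoped Matrix

theorem al_act (stab : StabStmt) {y : V} (hy : Supp Pos y) {u : GK} (hu : u ∈ P8.Up) :
    Supp Pos (act u y) ∧ ∀ r, al r (act u y) = al r y := by
  obtain ⟨h1, h2⟩ := stab K Pos subset_rfl clo_pos y hy u hu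
  rw [act_eq_ac]
  exact ⟨h1, fun r => by rw [← al_cp, h2, al_cp]⟩

theorem kill (ent : EntStmt) {z : V} (hz : Supp Pos z) {r : Rt} (hr : r ∈ Pos) (t : K) (s : Rt)
    (hs : C8.R.ht s ≤ C8.R.ht r) : act (C8.xg K r t) z (Sum.inr s) =
      z (Sum.inr s) - if s = r then al r z * t else 0 := by
  obtain ⟨cf, h1, h2⟩ := ent
  have e : act (C8.xg K r t) z = xR K r t *ᵥ z := by rw [act_eq_ac, ac, xg_eq]
  have h3 : z (Sum.inr (C8.R.neg r)) = 0 := by
    by_contra h
    exact (C8.R.not_pos_neg_iff r).2 hr (hz _ h)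
  have h4 : ∑ s', (cf r s' s : K) * t * z (Sum.inr s') = 0 := by
    refine Finset.sum_eq_zero fun s' _ => ?_
    by_cases c : cf r s' s = 0
    · rw [c, Int.cast_zero, zero_mul, zero_mul]
    by_cases d : z (Sum.inr s') = 0
    · rw [d, mul_zero]
    have h5 := (h1 r s' s c).ht
    have h6 := (C8.R.ht_pos_iff s').2 (hz _ d)
    omega
  rw [e, (h2 K r t z).2 s, h3, h4]
  split_ifs <;> ring

theorem step (ent : EntStmt) (stab : StabStmt) {y : V} (hy : Supp Pos y) (k : ℤ) {u₀ : GK}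
    (hu₀ : u₀ ∈ P8.Up)
    (h₀ : ∀ r ∈ Pos, al r y ≠ 0 → C8.R.ht r < k → act u₀ y (Sum.inr r) = 0) (T : Finset Rt) :
    ∃ u ∈ P8.Up, ∀ r ∈ Pos, al r y ≠ 0 → (C8.R.ht r < k ∨ C8.R.ht r = k ∧ r ∈ T) →
      act u y (Sum.inr r) = 0 := by
  induction T using Finset.induction_on with
  | empty =>
    refine ⟨u₀, hu₀, fun r hr ha h => h₀ r hr ha (h.resolve_right fun h' => ?_)⟩
    exact Finset.notMem_empty r h'.2
  | insert a T _ ih =>
    obtain ⟨u, hu, h⟩ := ih
    by_cases c : a ∈ Pos ∧ al a y ≠ 0 ∧ C8.R.ht a = k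
    · obtain ⟨c1, c2, c3⟩ := c
      obtain ⟨s1, s2⟩ := al_act stab hy hu
      refine ⟨C8.xg K a (act u y (Sum.inr a) / al a y) * u,
        mul_mem (Split.mem_U (A := Pos) c1 (Cert.xg_mem_X a _)) hu, fun r hr ha hk => ?_⟩
      rw [act_mul, kill ent s1 c1 _ r (by omega), s2]
      split_ifs with e
      · rw [e, mul_div_cancel₀ _ c2, sub_self]
      · rw [sub_zero]
        refine h r hr ha (hk.imp_right fun h' => ⟨h'.1, ?_⟩)
        exact (Finset.mem_insert.1 h'.2).resolve_left e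
    · refine ⟨u, hu, fun r hr ha hk => h r hr ha (hk.imp_right fun h' => ⟨h'.1, ?_⟩)⟩
      refine (Finset.mem_insert.1 h'.2).resolve_left fun e => c ?_
      rw [← e]
      exact ⟨hr, ha, h'.1⟩

theorem nf (ent : EntStmt) (stab : StabStmt) : NfStmt := by
  intro y hy
  have key : ∀ k : ℕ, ∃ u ∈ P8.Up, ∀ r ∈ Pos, al r y ≠ 0 → C8.R.ht r < k →
      act u y (Sum.inr r) = 0 := by
    intro k
    induction k with
    | zero =>
      refine ⟨1, one_mem _, fun r hr _ h => ?_⟩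
      have := (C8.R.ht_pos_iff r).2 hr
      omega
    | succ k ih =>
      obtain ⟨u₀, hu₀, h₀⟩ := ih
      obtain ⟨u, hu, h⟩ := step ent stab hy k hu₀ h₀ Finset.univ
      refine ⟨u, hu, fun r hr ha hk => h r hr ha ?_⟩
      by_cases e : C8.R.ht r = k
      · exact .inr ⟨e, Finset.mem_univ r⟩
      · left
        omega
  obtain ⟨m, hm⟩ := (Set.toFinite (Set.range fun r : Rt => (C8.R.ht r).toNat)).bddAbove
  obtain ⟨u, hu, h⟩ := key (m + 1)
  obtain ⟨s1, s2⟩ := al_act stab hy hu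
  refine ⟨u, hu, fun r hr => ⟨s1 r hr, ?_⟩⟩
  show al r (act u y) = 0
  rw [s2]
  by_contra ha
  have h1 : (C8.R.ht r).toNat ≤ m := hm ⟨r, rfl⟩
  exact hr (h r (s1 r hr) ha (by omega))

end Cfsg.Agent.H67.FvNf
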