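import Cfsg.Agent.H53.UwDefs

/-! A non-degenerate Hermitian trace form on an extension field with few isometries. -/

set_option autoImplicit false

namespace Cfsg.Agent.H67.UwFob

open Module Cfsg.Agent.H31 Cfsg.Agent.H53.Uw

universe u

theorem fob : FobStmt.{u} := by
  intro E K _ _ _ _ _ σ q hE hσ hm
  have iv := isInvol_of_pow hE hσ
  obtain ⟨k, -, hp, hk⟩ := exists_pow_char hE
  haveI : Fact (ringChar E).Prime := ⟨hp⟩
  haveI : CharP K (ringChar E) := charP_of_injective_algebraMap (algebraMap E K).injective _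
  obtain ⟨τ, hτ⟩ : ∃ τ : K ≃+* K, ∀ x, τ x = x ^ q :=
    ⟨iterateFrobeniusEquiv K (ringChar E) k, fun x => by rw [hk]; rfl⟩
  have t1 : ∀ e, τ (algebraMap E K e) = algebraMap E K (σ e) := fun e => by rw [hτ, hσ, map_pow]
  have t2 : ∀ e, τ.symm (algebraMap E K e) = algebraMap E K (σ e) := fun e => by
    rw [RingEquiv.symm_apply_eq, t1, iv.invol]
  have r1 : ∀ w, σ (Algebra.trace E K w) = Algebra.trace E K (τ w) := fun w => by
    rw [Algebra.trace_eq_of_equiv_equiv (RingEquiv.ofBijective σ ⟨σ.injective, iv.surjective⟩) τ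
      (RingHom.ext fun e => (t1 e).symm) w]
    exact (RingEquiv.ofBijective σ ⟨σ.injective, iv.surjective⟩).apply_symm_apply _
  have r2 : ∀ w, σ (Algebra.trace E K w) = Algebra.trace E K (τ.symm w) := fun w => by
    rw [← iv.invol (Algebra.trace E K (τ.symm w)), r1 (τ.symm w), τ.apply_symm_apply]
  have tt : ∀ x, τ (τ x) = FiniteField.frobeniusAlgEquivOfAlgebraic E K x := fun x => by
    rw [hτ, hτ, ← pow_mul, ← sq, ← hE]; rfl
  obtain ⟨c, c0, hc⟩ : ∃ c : K, c ≠ 0 ∧ ∀ x, c * τ x + τ.symm (c * x) = 0 → x = 0 := by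
    by_contra! n
    obtain ⟨ζ, hζ⟩ := iv.ne_id
    obtain ⟨c, rfl⟩ := FiniteField.norm_surjective E K ζ
    obtain ⟨x, hx, x0⟩ := n 1 one_ne_zero
    obtain ⟨y, hy, y0⟩ := n c (by rintro rfl; simp at hζ)
    replace hx := congrArg τ hx
    replace hy := congrArg τ hy
    rw [map_add, map_mul, τ.apply_symm_apply, map_zero, tt] at hx hy
    have := congrArg (Algebra.norm E) (show c ^ q * FiniteField.frobeniusAlgEquivOfAlgebraic E K y * x =
      c * y * FiniteField.frobeniusAlgEquivOfAlgebraic E K x by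
        rw [← hτ]; rw [map_one] at hx; linear_combination x * hy - c * y * hx)
    simp only [map_mul, map_pow, Algebra.norm_eq_of_algEquiv, ← hσ] at this
    exact hζ (mul_right_cancel₀ (Algebra.norm_ne_zero_iff.2 y0)
      (mul_right_cancel₀ (Algebra.norm_ne_zero_iff.2 x0) this))
  have nd : ∀ w : K, (∀ y, Algebra.trace E K (w * y) = 0) → w = 0 :=
    (traceForm_nondegenerate E K).1
  refine ⟨LinearMap.mk₂'ₛₗ σ (RingHom.id E)
    (fun x y => Algebra.trace E K ((c * τ x + τ.symm (c * x)) * y)) (fun x x' y => ?_)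
    (fun e x y => ?_) (fun x y y' => ?_) (fun e x y => ?_), ⟨⟨iv, fun x y => ?_⟩, fun x h => ?_⟩,
    fun a h => ?_⟩
  · rw [← map_add]; congr 1; simp only [mul_add, map_add]; ring
  · rw [← map_smul]; congr 1; simp only [Algebra.smul_def, map_mul, t1, t2]; ring
  · rw [mul_add, map_add]
  · rw [RingHom.id_apply, ← map_smul, mul_smul_comm]
  · simp only [LinearMap.mk₂'ₛₗ_apply, add_mul, map_add]
    rw [r2, r1 (_ * y), add_comm]
    simp only [map_mul, τ.apply_symm_apply, τ.symm_apply_apply]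
    congr 2 <;> ring
  · exact hc x (nd _ h)
  · simp only [LinearMap.mk₂'ₛₗ_apply] at h
    have e : ∀ x, (c * τ (a * x) + τ.symm (c * (a * x))) * a - (c * τ x + τ.symm (c * x)) = 0 :=
      fun x => nd _ fun y => by rw [sub_mul, map_sub, mul_assoc, h, sub_self]
    obtain ⟨x, hx⟩ : ∃ x, τ x ≠ τ.symm x := by
      by_contra! n
      have : FiniteField.frobeniusAlgEquivOfAlgebraic E K = 1 := AlgEquiv.ext fun x => by
        rw [← tt, n, τ.symm_apply_apply]; rfl
      rw [← FiniteField.orderOf_frobeniusAlgEquivOfAlgebraic, this, orderOf_one] at hm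
      omega
    have e1 := e 1
    have e2 := e x
    simp only [map_mul, map_one] at e1 e2
    have e3 : τ a * a = 1 := mul_left_cancel₀ c0 (mul_right_cancel₀ (sub_ne_zero.2 hx)
      (by linear_combination e2 - τ.symm x * e1))
    have e4 := congrArg τ e3
    rw [map_mul, map_one, tt] at e4
    have e5 : FiniteField.frobeniusAlgEquivOfAlgebraic E K a = a := by
      linear_combination a * e4 - FiniteField.frobeniusAlgEquivOfAlgebraic E K a * e3
    obtain ⟨b, hb⟩ := (IsGalois.mem_range_algebraMap_iff_fixed (F := E) a).2 fun f => by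
      obtain ⟨n, rfl⟩ := (FiniteField.bijective_frobeniusAlgEquivOfAlgebraic_pow E K).2 f
      rw [AlgEquiv.coe_pow]
      exact Function.iterate_fixed e5 n
    exact ⟨b, hb.symm⟩

end Cfsg.Agent.H67.UwFob
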