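import Cfsg.Agent.H53.AhDefs

/-! Rational solvable groups have normal Sylow `p`-subgroups for `p ≥ 5`. -/

set_option autoImplicit false

namespace Cfsg.Agent.H67.AhT2

open Subgroup Cfsg.Agent.H12.RO Cfsg.Agent.H53.MW Cfsg.Agent.H53.AH

universe u

theorem mem_pow {G : Type*} [Group G] [Finite G] {a : G} {r s : ℕ} (ha : a ^ r = 1)
    (h : s.Coprime r) : a ∈ zpowers (a ^ s) :=
  mem_zpowers_pow_iff.2 (h.coprime_dvd_right (orderOf_dvd_of_pow_eq_one ha))

theorem rat_map {G H : Type*} [Group G] [Finite G] [Group H] (h : H53.AH.Rat G) (f : G →* H)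
    (hf : Function.Surjective f) : H53.AH.Rat H := by
  intro x y e
  haveI : Finite H := .of_surjective f hf
  obtain ⟨x, rfl⟩ := hf x
  obtain ⟨k, rfl⟩ := mem_powers_iff_mem_zpowers.2 (e ▸ mem_zpowers y)
  have hk : k.Coprime (orderOf (f x)) := mem_zpowers_pow_iff.1 (e ▸ mem_zpowers _)
  haveI : NeZero (orderOf x) := ⟨(orderOf_pos x).ne'⟩
  obtain ⟨v, hv⟩ := ZMod.unitsMap_surjective (orderOf_map_dvd f x) (ZMod.unitOfCoprime k hk)
  have e1 : f x ^ (v : ZMod (orderOf x)).val = f x ^ k := by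
    rw [pow_eq_pow_iff_modEq, ← ZMod.natCast_eq_natCast_iff]
    simpa [ZMod.unitsMap_def] using congrArg Units.val hv
  have := h x (x ^ (v : ZMod (orderOf x)).val) (le_antisymm (zpowers_le.2
    (mem_zpowers_pow_iff.2 (ZMod.val_coe_unit_coprime v))) (zpowers_le.2 (npow_mem_zpowers x _)))
  simpa [e1] using f.map_isConj this

theorem mem_mul {G : Type*} [Group G] [Finite G] {a b : G} {r s : ℕ} (c : Commute a b)
    (ha : a ^ r = 1) (hb : b ^ s = 1) (h : s.Coprime r) :
    a ∈ zpowers (a * b) ∧ b ∈ zpowers (a * b) := by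
  have h1 : a ∈ zpowers (a * b) := by
    refine (zpowers_le.2 ?_ : zpowers (a ^ s) ≤ _) (mem_pow ha h)
    simpa [c.mul_pow, hb] using npow_mem_zpowers (a * b) s
  exact ⟨h1, by simpa using mul_mem (inv_mem h1) (mem_zpowers (a * b))⟩

/-- An element fixing `a` and raising `b` to the power `k`. -/
theorem exists_fix {G : Type*} [Group G] [Finite G] (hG : H53.AH.Rat G) {a b : G} {r s k : ℕ}
    (c : Commute a b) (ha : a ^ r = 1) (hb : b ^ s = 1) (h : s.Coprime r) (hk : k.Coprime s) :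
    ∃ g, g * a * g⁻¹ = a ∧ g * b * g⁻¹ = b ^ k := by
  have hb' : (b ^ k) ^ s = 1 := by rw [← pow_mul, mul_comm, pow_mul, hb, one_pow]
  have h1 := mem_mul c ha hb h
  have h2 := mem_mul (c.pow_right k) ha hb' h
  obtain ⟨g, hg⟩ := isConj_iff.1 (hG (a * b) (a * b ^ k) (le_antisymm (zpowers_le.2 (mul_mem h2.1
    ((zpowers_le.2 h2.2 : zpowers (b ^ k) ≤ _) (mem_pow hb hk))))
      (zpowers_le.2 (mul_mem h1.1 (pow_mem h1.2 k)))))
  have e1 : g * a ^ s * g⁻¹ = a ^ s := by
    have := congrArg (· ^ s) hg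
    simpa only [conj_pow, c.mul_pow, (c.pow_right k).mul_pow, hb, hb', mul_one] using this
  have e2 : g * a * g⁻¹ = a := by
    obtain ⟨m, hm⟩ := mem_pow ha h
    have hm' : (a ^ s) ^ m = a := hm
    rw [← hm', ← conj_zpow, e1]
  refine ⟨g, e2, mul_left_cancel (a := a) ?_⟩
  rw [← hg, ← conj_mul, e2]

theorem t2 (sd : SdStmt.{u}) (core : CoreStmt.{u}) : T2Stmt.{u} := by
  suffices H : ∀ (n : ℕ) (G : Type u) [Group G] [Finite G] [Group.IsSolvable G], Nat.card G = n →
      H53.AH.Rat G → ∀ (p : ℕ) [Fact p.Prime], 5 ≤ p → ∀ P : Sylow p G, (P : Subgroup G).Normal from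
    fun G _ _ _ => H _ G rfl
  intro n
  induction n using Nat.strong_induction_on with
  | _ n ih => ?_
  intro G _ _ _ hn hG p hp h5 P
  rcases subsingleton_or_nontrivial G with h0 | h0
  · exact ⟨fun a ha g => Subsingleton.elim a (g * a * g⁻¹) ▸ ha⟩
  obtain ⟨N, hN, N0, -, Nmin⟩ := exists_chief_above (bot_lt_top (α := Subgroup G))
  obtain ⟨Nc, r, hr, Nr, -⟩ := chief_elem N0 Nmin
  have hPN : ((P : Subgroup G) ⊔ N).Normal := by
    have lt : Nat.card (G ⧸ N) < n := by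
      rw [← hn, card_eq_card_quotient_mul_card_subgroup N]
      exact lt_mul_of_one_lt_right Nat.card_pos (one_lt_card_iff_ne_bot N |>.2 N0.ne')
    have := (ih _ lt (G ⧸ N) rfl (rat_map hG _ (QuotientGroup.mk'_surjective N)) p h5
      (P.mapSurjective (QuotientGroup.mk'_surjective N))).comap (QuotientGroup.mk' N)
    rwa [Sylow.coe_mapSurjective, comap_map_eq, QuotientGroup.ker_mk'] at this
  by_cases hrp : r = p
  · have : IsPGroup p N := fun a => ⟨1, Subtype.ext (by simpa [hrp] using Nr a a.2)⟩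
    rwa [sup_eq_left.2 (this.le_sylow_of_normal P)] at hPN
  set K := centralizer (N : Set G) with hK
  by_cases hPK : (P : Subgroup G) ≤ K
  · have h1 : N ≤ normalizer (P : Set G) :=
      (le_centralizer_iff.1 hPK).trans (centralizer_le_normalizer _)
    have h2 := Sylow.normalizer_sup_eq_top' P (le_sup_left : _ ≤ (P : Subgroup G) ⊔ N)
    exact normalizer_eq_top_iff.1 ((sup_eq_left.2 (sup_le le_normalizer h1)).symm.trans h2)
  exfalso
  have hNK : N ≤ K := fun a ha => mem_centralizer_iff.2 fun b hb =>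
    commutatorElement_eq_one_iff_mul_comm.1 (mem_bot.1 (Nc (commutator_mem_commutator hb ha)))
  have hPK' : ((P : Subgroup G) ⊔ K).Normal := by
    rw [← sup_eq_right.2 hNK, ← sup_assoc]; infer_instance
  obtain ⟨M, hM, KM, MP, Mmin⟩ := exists_chief_above (right_lt_sup.2 hPK)
  obtain ⟨Mc, q, hq, Mq, -⟩ := chief_elem KM Mmin
  have Mp : ∀ t ∈ M, t ^ p ∈ K := by
    by_cases e : q = p
    · exact e ▸ Mq
    refine absurd (fun t ht => ?_) KM.not_ge
    have h1 : QuotientGroup.mk' K t ∈ (P : Subgroup G).map (QuotientGroup.mk' K) := by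
      rw [← mem_comap, comap_map_eq, QuotientGroup.ker_mk']; exact MP ht
    obtain ⟨j, hj⟩ := (P.2.map (QuotientGroup.mk' K)) ⟨_, h1⟩
    have h2 : QuotientGroup.mk' K t ^ p ^ j = 1 := congrArg Subtype.val hj
    have h3 : QuotientGroup.mk' K t ^ q = 1 := by
      rw [← map_pow]; exact (QuotientGroup.eq_one_iff _).2 (Mq t ht)
    have h4 := pow_gcd_eq_one.2 ⟨h3, h2⟩
    rw [((Nat.coprime_primes hq hp.out).2 e).pow_right j, pow_one] at h4
    exact (QuotientGroup.eq_one_iff _).1 h4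
  obtain ⟨X, _, _, ξ, hX⟩ := exists_sec ⊥ N Nc
  obtain ⟨W, _, _, π, hW⟩ := exists_sec K M Mc
  haveI := hX.finite
  haveI := hW.finite
  have real : ∀ g : G, IsConj g g⁻¹ := fun g => hG _ _ zpowers_inv.symm
  have Wp : ∀ w : W, p • w = 0 := fun w => by
    obtain ⟨t, ht, rfl⟩ := hW.surj w
    rw [← hW.pow ht, hW.ker _ (pow_mem ht p)]; exact Mp t ht
  obtain ⟨βW, hβW⟩ := sd G W p hp.out Wp (hW.irr KM.le Mmin) real
  obtain ⟨βX, hβX⟩ := sd G X r hr (fun w => by
    obtain ⟨t, ht, rfl⟩ := hX.surj w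
    rw [← hX.pow ht, hX.ker _ (pow_mem ht r)]; exact Nr t ht) (hX.irr bot_le Nmin) real
  have fx : ∀ g : G, ∀ a ∈ N, g • ξ a = ξ a ↔ g * a * g⁻¹ = a := fun g a ha => by
    rw [← hX.conj g a ha, hX.eq_iff (hN.conj_mem a ha g) ha, mem_bot, inv_mul_eq_one]
  have tr : Triv K X := fun g hg w => by
    obtain ⟨a, ha, rfl⟩ := hX.surj w
    rw [fx g a ha, ← mem_centralizer_iff.1 hg a ha, mul_inv_cancel_right]
  haveI : Nontrivial X := by
    obtain ⟨a, ha, a0⟩ := SetLike.exists_of_lt N0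
    exact ⟨ξ a, 0, fun e => a0 ((hX.ker a ha).1 e)⟩
  have key : ∀ x : X, ∀ t ∈ M, t • x = x → ∀ k : ℕ, ¬ p ∣ k →
      ∃ g : G, g • x = x ∧ g • π t = k • π t := fun w t ht htw k hk => by
    obtain ⟨a, ha, rfl⟩ := hX.surj w
    obtain ⟨j, m, hm, hjm⟩ := Nat.exists_eq_pow_mul_and_not_dvd (orderOf_pos t).ne' p hp.out.ne_one
    have h1 : m ^ p.totient ≡ 1 [MOD p] :=
      Nat.ModEq.pow_totient ((Nat.Prime.coprime_iff_not_dvd hp.out).2 hm).symm
    have h2 : m ∣ m ^ p.totient := dvd_pow_self m (Nat.totient_pos.2 hp.out.pos).ne'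
    generalize m ^ p.totient = c at h1 h2
    have x1 : (t ^ c) ^ p ^ j = 1 := by
      rw [← pow_mul, ← orderOf_dvd_iff_pow_eq_one, hjm, mul_comm c]
      exact mul_dvd_mul_left _ h2
    have x2 : π (t ^ c) = π t := by
      rw [hW.pow ht, ← Nat.mod_add_div c p, add_nsmul, mul_nsmul, Wp, h1,
        Nat.mod_eq_of_lt hp.out.one_lt, nsmul_zero, add_zero, one_nsmul]
    have x3 : Commute a (t ^ c) :=
      (Commute.pow_left (mul_inv_eq_iff_eq_mul.1 ((fx t a ha).1 htw)) c).symm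
    obtain ⟨g, g1, g2⟩ := exists_fix hG (k := k) x3 (mem_bot.1 (Nr a ha)) x1
      (((Nat.coprime_primes hp.out hr).2 (Ne.symm hrp)).pow_left j)
      (((Nat.Prime.coprime_iff_not_dvd hp.out).2 hk).symm.pow_right j)
    exact ⟨g, (fx g a ha).2 g1, by rw [← x2, ← hW.conj g _ (pow_mem ht c), g2,
      hW.pow (pow_mem ht c)]⟩
  refine core G W X K M π p r βW βX hp.out h5 hr hrp hM hW tr (fun w hw => ?_) hβW (fun w => ?_)
    hβX key
  · let U : AddSubgroup X :=
      { carrier := {x | ∀ t ∈ M, t • x = x}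
        zero_mem' := fun t _ => smul_zero t
        add_mem' := fun ha hb t ht => by rw [smul_add, ha t ht, hb t ht]
        neg_mem' := fun ha t ht => by rw [smul_neg, ha t ht] }
    rcases hX.irr bot_le Nmin U (fun g v hv t ht => by
      have := hv _ (hM.conj_mem t ht g⁻¹)
      rw [inv_inv, mul_smul, mul_smul, inv_smul_eq_iff] at this
      exact this) with e | e
    · exact AddSubgroup.mem_bot.1 (e ▸ (hw : w ∈ U))
    · refine absurd (fun t ht => mem_centralizer_iff.2 fun a ha => ?_) KM.not_ge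
      have : ξ a ∈ U := e ▸ AddSubgroup.mem_top _
      exact (mul_inv_eq_iff_eq_mul.1 ((fx t a ha).1 (this t ht))).symm
  · obtain ⟨t, ht, rfl⟩ := hW.surj w
    obtain ⟨g, -, hg⟩ := key 0 t ht (smul_zero t) 2 fun e => by
      have := Nat.le_of_dvd two_pos e; omega
    have h1 := hβW.inv g (π t) (π t)
    rw [hg, two_nsmul] at h1
    simp only [map_add, AddMonoidHom.add_apply] at h1
    have h3 : ((3 : ℕ) : ZMod p) ≠ 0 := fun e => by
      have := Nat.le_of_dvd (by norm_num) ((ZMod.natCast_eq_zero_iff 3 p).1 e); omega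
    exact (mul_eq_zero.1 (show ((3 : ℕ) : ZMod p) * βW (π t) (π t) = 0 by
      push_cast; linear_combination h1)).resolve_left h3

end Cfsg.Agent.H67.AhT2
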