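import Cfsg.Agent.H45.GdDefs
import Cfsg.Agent.H71.CyGb

/-! Project CY, chapter IV GOOD, piece GC: the centre lies in the derived group. -/

set_option autoImplicit false

namespace Cfsg.Agent.H67.CyGc

open Subgroup MulAction Cfsg.Agent.H11.Cy Cfsg.Agent.H45.Iv Cfsg.Agent.H45.Gd
open scoped commutatorElement

theorem gc : GcStmt := by
  intro G _ _ Ω _ _ p A mx mk Ψ hΨ k hk
  obtain ⟨st, -, sk, ls, -, -⟩ := mx
  obtain ⟨d, hd⟩ := mk.ne Ψ hΨ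
  obtain ⟨-, gb, ga⟩ := mk.gd Ψ hΨ
  have ga := ga d hd
  have sub := hΨ.1
  have cm : ∀ c ∈ Cs A Ψ, ∀ m ∈ Ms A Ψ, m * c = c * m := fun c hc m hm =>
    mem_centralizer_iff.mp hc m hm
  have TM : Ts A Ψ ≤ Ms A Ψ := commutator_le.mpr fun x hx y hy =>
    mul_mem (mul_mem (mul_mem hx hy) (inv_mem hx)) (inv_mem hy)
  obtain ⟨a, ha, ha1⟩ : ∃ a ∈ A d, a ≠ 1 := by
    by_contra h
    push Not at h
    have : A d = ⊥ := eq_bot_iff.mpr fun a ha => mem_bot.mpr (h a ha)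
    have h2 := st.card d
    rw [this, card_bot] at h2
    exact st.pp.one_lt.ne h2
  have aM : a ∈ Ms A Ψ := (sk.fle Ψ d hd d hd).1 (mem_sup_left ha)
  have ap : a ^ p = 1 := by
    have := pow_card_eq_one' (x := (⟨a, ha⟩ : A d))
    rw [st.card d] at this
    exact congrArg Subtype.val this
  have TC : ⁅Ts A Ψ, Ts A Ψ⁆ ≤ Cs A Ψ := commutator_le.mpr ga.com
  let E : Subgroup (Ms A Ψ) := ⁅Ts A Ψ, Ts A Ψ⁆.subgroupOf (Ms A Ψ)
  haveI : E.Normal := ⟨fun e he g => by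
    have : g * e * g⁻¹ = e := Subtype.ext (by
      rw [coe_mul, coe_mul, coe_inv, cm e (TC he) g g.2, mul_inv_cancel_right])
    rwa [this]⟩
  let π := QuotientGroup.mk' E
  have πk : ∀ x : Ms A Ψ, π x = 1 ↔ (x : G) ∈ ⁅Ts A Ψ, Ts A Ψ⁆ := fun x =>
    QuotientGroup.eq_one_iff x
  obtain ⟨S, hS⟩ := H71.CyGb.core (((Ts A Ψ).subgroupOf (Ms A Ψ)).map π) (π ⟨a, aM⟩) p
    (by rw [← map_pow, show (⟨a, aM⟩ : Ms A Ψ) ^ p = 1 from Subtype.ext ap, map_one])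
    (by
      rintro _ ⟨t, ht, rfl⟩ _ ⟨s, hs, rfl⟩
      rw [← commutatorElement_eq_one_iff_mul_comm, ← map_commutatorElement, πk]
      exact commutator_mem_commutator ht hs)
    (by
      rintro _ ⟨t, ht, rfl⟩
      refine ⟨⟨a, aM⟩ * t * (⟨a, aM⟩ : Ms A Ψ)⁻¹, ?_, by simp⟩
      refine (sk.nrm Ψ a fun w => ⟨fun h => ?_, sk.inv Ψ sub a aM w⟩).2.1 _ ht
      simpa using sk.inv Ψ sub a⁻¹ (inv_mem aM) _ h)
  have hT : Ts A Ψ ≤ (S.comap π).map (Ms A Ψ).subtype := by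
    rw [ga.teq]
    refine iSup₂_le fun y hy r hr => ?_
    have hdy : d ≠ y := fun e => hy.2 e.symm
    obtain ⟨la, lb, lc, -⟩ := ls d y hdy
    have RT := (sk.fle Ψ d hd y hy.1).2
    have hZ : ∀ x : Ms A Ψ, (x : G) ∈ Zl A d y → π x = 1 := fun x hx =>
      (πk x).mpr (commutator_mono RT RT (lc.zd hx))
    obtain ⟨s, hs, h1⟩ := lc.surj a ha ha1 r hr
    refine ⟨⟨r, TM (RT hr)⟩, ?_, rfl⟩
    have e := hZ ((⟨r, TM (RT hr)⟩ : Ms A Ψ)⁻¹ * ⁅(⟨a, aM⟩ : Ms A Ψ), ⟨s, TM (RT hs)⟩⁆) h1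
    rw [map_mul, map_inv, inv_mul_eq_one, map_commutatorElement] at e
    have e2 := hZ ((⟨r, TM (RT hr)⟩ : Ms A Ψ) * ⟨r, TM (RT hr)⟩) (lb.sq r hr)
    rw [map_mul] at e2
    show π _ ∈ S
    rw [hS]
    refine ⟨⟨_, RT hr, rfl⟩, ?_, e2⟩
    rw [← inv_eq_of_mul_eq_one_right e2, e, commutatorElement_inv, commutatorElement_def,
      inv_mul_cancel_right, conj_pow, ← map_pow,
      show (⟨a, aM⟩ : Ms A Ψ) ^ p = 1 from Subtype.ext ap, map_one, mul_one, mul_inv_cancel]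
  obtain ⟨x, hx, rfl⟩ := hT hk.1
  obtain ⟨-, h1, -⟩ := (hS _).mp hx
  rw [← map_mul, ← map_pow, πk] at h1
  have h3 : (((x * ⟨a, aM⟩) ^ p : Ms A Ψ) : G) = (x : G) ^ p := by
    have c : Commute (x : G) a := (cm _ hk.2 a aM).symm
    show ((x : G) * a) ^ p = _
    rw [c.mul_pow, ap, mul_one]
  obtain ⟨m, hm⟩ := st.pp.odd_of_ne_two st.p2
  have h4 : (x : G) * x = 1 := gb _ hk
  rw [h3, hm, pow_succ, pow_mul, sq, h4, one_pow, one_mul] at h1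
  exact h1

end Cfsg.Agent.H67.CyGc
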