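import Mathlib
import Cfsg.Agent.H50.E72Defs

/-! Schur's lemma for the module of dimension 56. -/

set_option autoImplicit false
set_option maxRecDepth 100000

namespace Cfsg.Agent.H67.E72Sch

open Cfsg.Agent.H50.E72 H29
open scoped Matrix

section
variable {F : Type} [Field F] {n : ℕ}

theorem row_eq (L : List (Tm0 n)) (v : Fin n → F) (a : Fin n) :
    (evT0 F L *ᵥ v) a =
      ((L.filter fun e => e.1 = a).map fun e => ((e.2.2 : ℤ) : F) * v e.2.1).sum := by
  induction L with
  | nil => simp
  | cons e L ih =>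
    rw [evT0_cons, Matrix.add_mulVec, Pi.add_apply, ih, Matrix.single_mulVec]
    by_cases h : e.1 = a
    · rw [List.filter_cons_of_pos (by simpa using h), List.map_cons, List.sum_cons]
      subst h
      simp
    · rw [List.filter_cons_of_neg (by simpa using h)]
      simp [Function.update_of_ne (Ne.symm h)]

theorem col_eq (L : List (Tm0 n)) (b : Fin n) :
    evT0 F L *ᵥ Pi.single b 1 =
      ((L.filter fun e => e.2.1 = b).map fun e =>
        (((e.2.2 : ℤ) : F) • Pi.single e.1 1 : Fin n → F)).sum := by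
  induction L with
  | nil => rw [evT0_nil, Matrix.zero_mulVec]; rfl
  | cons e L ih =>
    rw [evT0_cons, Matrix.add_mulVec, ih, Matrix.single_mulVec]
    by_cases h : e.2.1 = b
    · rw [List.filter_cons_of_pos (by simpa using h), List.map_cons, List.sum_cons]
      congr 1
      subst h
      ext i
      by_cases hi : i = e.1
      · subst hi; simp
      · simp [Function.update_of_ne hi, Pi.single_eq_of_ne hi]
    · rw [List.filter_cons_of_neg (by simpa using h)]
      rw [Pi.single_eq_of_ne h]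
      simp

theorem cast_one [CharP F 2] {c : ℤ} (h : c = 1 ∨ c = -1) : (c : F) = 1 := by
  rcases h with rfl | rfl
  · simp
  · simp [CharTwo.neg_eq]

end

theorem t1 : ∀ b : Fin 56, b ≠ 0 → ∃ r ∈ sr14.take 7, ∃ e ∈ E56 r, e.2.1 = b ∧
    (e.2.2 = 1 ∨ e.2.2 = -1) ∧ ((E56 r).filter fun e' => e'.1 = e.1) = [e] := by
  decide +kernel

theorem t0 : ∃ r ∈ sr14, ∃ e ∈ E56 r, e.2.1 = 0 ∧
    (e.2.2 = 1 ∨ e.2.2 = -1) ∧ ((E56 r).filter fun e' => e'.1 = e.1) = [e] := by
  decide +kernel

theorem t2 : ∀ r ∈ sr14.take 7, ((E56 r).filter fun e' => e'.2.1 = 0) = [] := by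
  decide +kernel

theorem t3 : ∀ a : Fin 56, a ≠ 0 → ∃ r ∈ sr14, ∃ e ∈ E56 r, e.1 = a ∧ e.2.1 < a ∧
    (e.2.2 = 1 ∨ e.2.2 = -1) ∧ ((E56 r).filter fun e' => e'.2.1 = e.2.1) = [e] := by
  decide +kernel

theorem kill {F : Type} [Field F] [CharP F 2] {v : Fin 56 → F} {r : ℕ} {e : Tm0 56}
    (hv : evT0 F (E56 r) *ᵥ v = 0) (h1 : e.2.2 = 1 ∨ e.2.2 = -1)
    (hf : ((E56 r).filter fun e' => e'.1 = e.1) = [e]) : v e.2.1 = 0 := by
  have h := row_eq (E56 r) v e.1
  rw [hv, hf, List.map_cons, List.map_nil, List.sum_cons, List.sum_nil, cast_one h1] at h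
  simpa using h.symm

theorem sch : SchStmt := by
  intro F _ _
  constructor
  · intro A hA hJ
    have h0 : ∀ b : Fin 56, b ≠ 0 → (A *ᵥ Pi.single 0 1) b = 0 := by
      intro b hb
      obtain ⟨r, hr, e, -, rfl, h1, hf⟩ := t1 b hb
      refine kill (r := r) ?_ h1 hf
      rw [Matrix.mulVec_mulVec, ← hA r (List.mem_of_mem_take hr), ← Matrix.mulVec_mulVec, col_eq,
        t2 r hr]
      simp
    obtain ⟨c, hc⟩ : ∃ c : F, A *ᵥ Pi.single 0 1 = c • (Pi.single 0 1 : Fin 56 → F) := by
      refine ⟨(A *ᵥ Pi.single 0 1) 0, funext fun b => ?_⟩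
      by_cases hb : b = 0
      · subst hb
        rw [Pi.smul_apply, Pi.single_eq_same, smul_eq_mul, mul_one]
      · rw [h0 b hb, Pi.smul_apply, Pi.single_eq_of_ne hb, smul_zero]
    have hall : ∀ k : ℕ, ∀ a : Fin 56, a.val = k →
        A *ᵥ Pi.single a 1 = c • (Pi.single a 1 : Fin 56 → F) := by
      intro k
      induction k using Nat.strong_induction_on with
      | _ k ih =>
        intro a ha
        by_cases h : a = 0
        · rw [h]; exact hc
        obtain ⟨r, hr, e, -, rfl, hlt, h1, hf⟩ := t3 a h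
        have hcol : evT0 F (E56 r) *ᵥ Pi.single e.2.1 1 = (Pi.single e.1 1 : Fin 56 → F) := by
          rw [col_eq, hf, List.map_cons, List.map_nil, List.sum_cons, List.sum_nil, cast_one h1,
            one_smul, add_zero]
        rw [← hcol, Matrix.mulVec_mulVec, hA r hr, ← Matrix.mulVec_mulVec,
          ih e.2.1.val (ha ▸ hlt) e.2.1 rfl, Matrix.mulVec_smul]
    have hA' : A = c • (1 : M56 F) := by
      ext i j
      have := congrFun (hall j.val j rfl) i
      rw [Matrix.mulVec_single_one] at this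
      rw [Matrix.smul_apply, Matrix.one_apply]
      refine this.trans ?_
      by_cases hij : i = j
      · subst hij; simp
      · simp [Pi.single_eq_of_ne hij, hij]
    have hcc : c * c = 1 := by
      rw [hA'] at hJ
      have := congrFun (congrFun hJ 0) (Fin.rev 0)
      simpa [J56] using this
    have hc1 : c = 1 := by
      rcases mul_self_eq_one_iff.1 hcc with h | h
      · exact h
      · rw [h, CharTwo.neg_eq]
    rw [hA', hc1, one_smul]
  · intro v hv
    funext b
    by_cases hb : b = 0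
    · obtain ⟨r, hr, e, -, he, h1, hf⟩ := t0
      rw [hb, ← he]
      exact kill (hv r hr) h1 hf
    · obtain ⟨r, hr, e, -, rfl, h1, hf⟩ := t1 b hb
      exact kill (hv r (List.mem_of_mem_take hr)) h1 hf

end Cfsg.Agent.H67.E72Sch
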