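import Mathlib
import Cfsg.Agent.H50.E83Defs

/-! Project E83, piece TR4: traces of the elements of order dividing four. -/

set_option autoImplicit false
set_option maxRecDepth 100000

namespace Cfsg.Agent.H67.E83Tr4

open Equiv Cfsg.Lie Cfsg.Agent.H37 Cfsg.Agent.H40 Cfsg.Agent.H34 Cfsg.Agent.H29 Module
open Cfsg.Agent.H50.E83

/-- The points of the alcove. -/
def pts : List (List ℕ) :=
  [[0, 0, 0, 0, 0, 0, 0, 0], [1, 0, 0, 0, 0, 0, 0, 0], [2, 0, 0, 0, 0, 0, 0, 0],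
    [0, 1, 0, 0, 0, 0, 0, 0], [0, 0, 1, 0, 0, 0, 0, 0], [0, 0, 0, 0, 0, 1, 0, 0],
    [0, 0, 0, 0, 0, 0, 1, 0], [0, 0, 0, 0, 0, 0, 0, 1], [0, 0, 0, 0, 0, 0, 0, 2],
    [1, 0, 0, 0, 0, 0, 0, 1]]

theorem alc4 : allAlc [2, 3, 4, 6, 5, 4, 3, 2] 4 (fun a => decide (a ∈ pts)) = true := by
  decide +kernel

/-- The trace of a label modulo four. -/
def tr4 (f : Rt → ℤ) : ℤ := ((8 + z0 4 fun r => f r - 0 : ℕ) : ℤ) - (z0 4 fun r => f r - 2 : ℕ)

/-- The label of a point. -/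
def lab (a : List ℕ) (r : Rt) : ℤ := ∑ j : Fin 8, gt rcE8 r j * (a.getD j 0 : ℕ)

/-- The table. -/
def Ok (a : List ℕ) (s t : ℤ) : Prop :=
  (t = 248 → a = [0, 0, 0, 0, 0, 0, 0, 0] ∨ s = -8 ∨ s = 24) ∧ (t = -8 → s = 0 ∨ s = 8 ∨ s = 64) ∧
    (t = 24 → s = -4 ∨ s = 4 ∨ s = 28 ∨ s = 132)

instance (a : List ℕ) (s t : ℤ) : Decidable (Ok a s t) := by unfold Ok; infer_instance

theorem tab : ∀ a ∈ pts, Ok a (tr4 (lab a)) (tr4 fun r => (2 : ℕ) * lab a r) := by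
  intro a ha
  simp only [pts, List.mem_cons, List.not_mem_nil, or_false] at ha
  rcases ha with rfl | rfl | rfl | rfl | rfl | rfl | rfl | rfl | rfl | rfl <;> decide +kernel

theorem tr4_congr {f g : Rt → ℤ} (w : Perm Rt) (h : ∀ r, (f (w r) : ZMod 4) = g r) :
    tr4 f = tr4 g := by
  rw [tr4, tr4, z0_congr (s := 4) (f := fun r => f r - 0) (g := fun r => g r - 0) w
    fun r => by simp [h], z0_congr (s := 4) (f := fun r => f r - 2) (g := fun r => g r - 2) w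
    fun r => by simp [h]]

theorem tau_eq (mu : MuStmt) {ζ : Kˣ} (hζ : IsPrimitiveRoot ζ 4) {h : GK} {f : Rt → ℤ}
    (hl : Lab C8 ζ h f) : tau h = tr4 f := by
  have h0 := mu.2.2.1 ζ 4 h f hζ hl 0
  have h2 := mu.2.2.1 ζ 4 h f hζ hl 2
  have e : ((ζ ^ (2 : ℤ) : Kˣ) : K) = -1 := by
    have := ((IsPrimitiveRoot.coe_units_iff.2 hζ).pow (by decide : 0 < 4)
      (by decide : 4 = 2 * 2)).eq_neg_one_of_two_right
    rw [← this, zpow_ofNat, Units.val_pow_eq_pow_val]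
  rw [e, if_neg (by decide), zero_add] at h2
  rw [zpow_zero, Units.val_one, if_pos (by decide)] at h0
  rw [tau, h0, h2, tr4]

theorem tau_conj (mu : MuStmt) {g g' : GK} (h : IsConj g g') : tau g = tau g' := by
  rw [tau, tau, mu.1 g g' _ h, mu.1 g g' _ h]

/-- **TR4** -/
theorem tr4Stmt (mu : MuStmt) (ss : SsStmt) : Tr4Stmt := by
  intro g hg
  obtain ⟨ζ, hζ, -⟩ := exists_prim_unit K (N := 4) (by
    rw [Ne, CharP.cast_eq_zero_iff K 3]; norm_num)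
  obtain ⟨h, f, hl, hc, -⟩ := ss g 4 ζ (by decide) hζ hg
  obtain ⟨u, hu, a, ha, -, hr⟩ := hl.1.alc tabOKE8 (s := 4) (by decide) (by decide) _ thE8 alc4
  have e : ∀ r, (f (u r) : ZMod 4) = lab a r := fun r => by
    rw [← hr.vN_eq (hl.1.comp hu) r]
    simp only [vN, rc_eq C8 tabOKE8]
    rfl
  have t := tab a (of_decide_eq_true ha)
  rw [← tr4_congr u e, ← tr4_congr (f := fun r => (2 : ℕ) * f r)
    (g := fun r => (2 : ℕ) * lab a r) u fun r => by simp [e],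
    ← tau_eq mu hζ hl, ← tau_eq mu hζ (hl.pow 2), tau_conj mu hc, tau_conj mu (hc.pow 2),
    ← map_pow] at t
  refine ⟨fun h2 h1 => (t.1 (by rw [h2, map_one, mu.2.2.2.2.2])).resolve_left ?_, t.2⟩
  rintro rfl
  have : h = 1 := (hl.eq_one_iff hζ).2 fun r => by
    have := e (u.symm r)
    rw [Equiv.apply_symm_apply] at this
    rw [this, lab]
    simp [Fin.sum_univ_eight]
  rw [this, isConj_one_right] at hc
  exact h1 (ι_injective (hc.trans (map_one _).symm))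

end Cfsg.Agent.H67.E83Tr4
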