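import Cfsg.Agent.H98.GbL
import Cfsg.Agent.H11.Inner

/-! Project GB (S4536), piece BLKS: different semisimple parts are orthogonal on the regular classes. -/

set_option autoImplicit false
open Cfsg Finset Cfsg.Agent.H98.GB

namespace Cfsg.Agent.H67.GbBlks

universe u

section alg
variable {A : Type*} [CommRing A] [Algebra ℂ A] {Φ : Type} [Fintype Φ]

/-- a multiple of a monomial with prescribed degrees -/
def Q (dg : Φ → ℕ) (In : Φ → Prop) (y : Φ → ℕ → A) (w : Φ → ℕ) (x : A) : Prop :=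
  ∃ (c : ℂ) (μ : Φ → Multiset ℕ), MonOn In μ ∧ (∀ Γ, dg Γ * (μ Γ).sum = w Γ) ∧ x = c • mon y μ

variable {dg : Φ → ℕ} {In : Φ → Prop} {y : Φ → ℕ → A}

theorem Q.one {w : Φ → ℕ} (hw : ∀ Γ, w Γ = 0) : Q dg In y w 1 :=
  ⟨1, 0, fun _ => ⟨by simp, fun _ => rfl⟩, fun Γ => by simp [hw], by simp [mon]⟩

theorem Q.mul {w₁ w₂ w : Φ → ℕ} {x₁ x₂ : A} (h₁ : Q dg In y w₁ x₁) (h₂ : Q dg In y w₂ x₂)
    (hw : ∀ Γ, w Γ = w₁ Γ + w₂ Γ) : Q dg In y w (x₁ * x₂) := by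
  obtain ⟨c₁, μ₁, a₁, b₁, rfl⟩ := h₁
  obtain ⟨c₂, μ₂, a₂, b₂, rfl⟩ := h₂
  refine ⟨c₁ * c₂, μ₁ + μ₂, fun φ => ⟨fun r hr => ?_, fun h => ?_⟩, fun Γ => ?_, ?_⟩
  · rcases Multiset.mem_add.1 hr with h | h
    exacts [(a₁ φ).1 r h, (a₂ φ).1 r h]
  · rw [Pi.add_apply, (a₁ φ).2 h, (a₂ φ).2 h, add_zero]
  · rw [Pi.add_apply, Multiset.sum_add, mul_add, b₁, b₂, hw]
  · rw [smul_mul_smul_comm]
    congr 1
    simp only [mon, Pi.add_apply, Multiset.map_add, Multiset.prod_add, prod_mul_distrib]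

theorem Q.gen [DecidableEq Φ] {Γ : Φ} (hΓ : In Γ) {k : ℕ} (hk : 0 < k) (c : ℂ) {w : Φ → ℕ}
    (hw : ∀ Δ, w Δ = if Γ = Δ then dg Γ * k else 0) : Q dg In y w (c • y Γ k) := by
  refine ⟨c, fun Δ => if Γ = Δ then {k} else 0, fun φ => ⟨fun r hr => ?_, fun h => ?_⟩, fun Δ => ?_, ?_⟩
  · dsimp only at hr
    split_ifs at hr
    · rw [Multiset.mem_singleton.1 hr]; exact hk
    · simp at hr
  · exact if_neg fun (e : Γ = φ) => h (e ▸ hΓ)
  · rw [hw]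
    dsimp only
    split_ifs with e
    · rw [e, Multiset.sum_singleton]
    · simp
  · congr 1
    rw [mon, prod_eq_single Γ (fun Δ _ h => by simp [h.symm]) (by simp)]
    simp

end alg

theorem blks (hF : FOCKStmt.{u}) (_hN : NWEHStmt.{u}) (hM : MONStmt.{u}) (hO : MORTHStmt.{u})
    (hP : PIMStmt.{u}) (hQ : PIPStmt.{u}) (hL : LABStmt.{u}) (hS : SYSStmt.{u}) : BLKSStmt.{u} := by
  intro F _ _ _ C n hn Λ Λ' hΛ hΛ' Γ hΓ
  obtain ⟨T, hT, hev, -, hpr, hid, hip⟩ := hP F 1 C.H C.p C.hp C.hpF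
  obtain ⟨q1, -, q3⟩ := hQ F C
  have L := hL F C
  have fk := hF F 1 C.H
  let y : C.Φ → ℕ → C.H.A := fun φ k => C.H.pi C.p (C.pp φ k)
  have sys : C.H.Sys C.dg C.Reg n y 0 1 :=
    ⟨L.dg_pos, fun φ k _ hk _ => hpr _ _ ((hS F C).1 φ k hk), fk.hg_one,
      fun φ k _ hk _ => fk.D_lt _ fk.hg_one (Nat.mul_pos (L.dg_pos φ) hk)⟩
  have k1 : ∀ φ (m : Multiset ℕ), (∀ r ∈ m, 0 < r) → Q C.dg C.Reg y
      (fun Δ => if C.lp φ = Δ then C.dg φ * m.sum else 0) (T (m.map (C.pp φ)).prod) := fun φ m => by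
    induction m using Multiset.induction_on with
    | empty => intro _; rw [Multiset.map_zero, Multiset.prod_zero, map_one]; exact Q.one fun _ => by simp
    | cons k m ih =>
      intro h
      have hk := h k (Multiset.mem_cons_self k m)
      obtain ⟨d, hd⟩ := L.dg_lp φ
      have e : C.dg φ * k = C.dg (C.lp φ) * (d * k) := by rw [hd, mul_assoc]
      have hdk : 0 < d * k := Nat.pos_of_mul_pos_left (e ▸ Nat.mul_pos (L.dg_pos φ) hk)
      rw [Multiset.map_cons, Multiset.prod_cons, map_mul, hT, q1 φ k (d * k) hk e]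
      refine (Q.gen (L.reg_lp φ) hdk _ fun _ => rfl).mul
        (ih fun r hr => h r (Multiset.mem_cons_of_mem hr)) fun Δ => ?_
      split_ifs
      · rw [Multiset.sum_cons, mul_add, e]
      · rfl
  have k2 : ∀ (μ : C.Φ → Multiset ℕ), (∀ φ, ∀ r ∈ μ φ, 0 < r) → ∀ s : Finset C.Φ, Q C.dg C.Reg y
      (fun Δ => ∑ φ ∈ s, if C.lp φ = Δ then C.dg φ * (μ φ).sum else 0)
      (T (∏ φ ∈ s, ((μ φ).map (C.pp φ)).prod)) := fun μ h s => by
    induction s using Finset.induction_on with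
    | empty => rw [prod_empty, map_one]; exact Q.one fun _ => sum_empty
    | insert a s ha ih =>
      rw [prod_insert ha, map_mul]
      exact (k1 a _ (h a)).mul ih fun Δ => sum_insert ha
  have k3 : ∀ Λ : C.Lb, ∀ μ ∈ Fintype.piFinset fun φ => H19.Par (H19.wtS (Λ φ)),
      Q C.dg C.Reg y (C.sm Λ) (T (mon C.pp μ)) := fun Λ μ hμ => by
    have h := fun φ => H19.mem_Par.1 (Fintype.mem_piFinset.1 hμ φ)
    obtain ⟨c, ν, a, b, e⟩ := k2 μ (fun φ => (h φ).2) univ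
    refine ⟨c, ν, a, fun Δ => ?_, e⟩
    rw [b, Ctx.sm, sum_filter]
    exact sum_congr rfl fun φ _ => by rw [(h φ).1]
  have k4 : ∀ x x', Q C.dg C.Reg y (C.sm Λ) x → Q C.dg C.Reg y (C.sm Λ') x' → C.H.ip n x x' = 0 := by
    rintro _ _ ⟨c, ν, a, b, rfl⟩ ⟨c', ν', a', b', rfl⟩
    have w1 : wm C.dg ν = n := by rw [wm, sum_congr rfl fun Δ _ => b Δ, L.sum_sm, hΛ.2]
    have w2 : wm C.dg ν' = n := by rw [wm, sum_congr rfl fun Δ _ => b' Δ, L.sum_sm, hΛ'.2]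
    have h := (hO F 1 C.H C.Φ C.dg C.Reg n y 0 1 0 1 _ sys sys (q3 n) ν ν' a a' w1.le w2.le).2
    rw [if_neg (fun e => hΓ (by rw [← b, ← b', e])), one_mul, one_mul, zero_add, w1] at h
    unfold Hall.ip at h ⊢
    rw [map_smul, map_smul, Pi.smul_apply, Pi.smul_apply, H11.classInner_smul_left,
      H11.classInner_smul_right, h, mul_zero, mul_zero]
  have e : classInner (pRegularPart C.p (C.sC Λ n)) (C.sC Λ' n) =
      C.H.ip n (T (sL C.N C.pp Λ)) (T (sL C.N C.pp Λ')) := by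
    rw [hT, hT, ← hip, hid, Hall.ip, hev]
    rfl
  rw [e, (hM _ _ C.N C.pp).1 Λ, (hM _ _ C.N C.pp).1 Λ', map_sum, map_sum, Hall.ip, map_sum, map_sum,
    Finset.sum_apply, Finset.sum_apply, H11.classInner_sum_left]
  refine sum_eq_zero fun μ hμ => ?_
  rw [H11.classInner_sum_right]
  refine sum_eq_zero fun μ' hμ' => ?_
  have h := k4 _ _ (k3 Λ μ hμ) (k3 Λ' μ' hμ')
  unfold Hall.ip at h
  rw [map_smul, map_smul, map_smul, map_smul, Pi.smul_apply, Pi.smul_apply, H11.classInner_smul_left,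
    H11.classInner_smul_right, h, mul_zero, mul_zero]

end Cfsg.Agent.H67.GbBlks
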