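import Cfsg.Agent.H67.HnE1
import Cfsg.Agent.H67.Conj
import Cfsg.Agent.H8.SylowIn
import Cfsg.Agent.H83.Base

/-! The extraspecial group of order `512` in the `3`-local recognition of `HN`. -/

set_option autoImplicit false
set_option maxRecDepth 100000
set_option synthInstance.maxSize 4000

namespace Cfsg.Agent.H67.HnE

open Subgroup Equiv Cfsg.Agent.H99.HN
open scoped Pointwise

attribute [local instance 10000] List.decidableBAll List.decidableBEx

universe u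

variable {G : Type u} [Group G] (U : HB G)

/-- the conjugate embedding -/
def θ : A12 →* G := (MulAut.conj U.d).toMonoidHom.comp U.ψ

variable {U}

theorem θ_ap (x : A12) : θ U x = U.d * U.ψ x * U.d⁻¹ := rfl

theorem θ_inj : Function.Injective (θ U) := (MulAut.conj U.d).injective.comp U.inj

theorem smul_map (X : Subgroup A12) : MulAut.conj U.d • X.map U.ψ = X.map (θ U) := by
  rw [← H8.map_conj_eq_smul, map_map, θ]

theorem Em_eq : U.Em = Ep0.map (θ U) := smul_map _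

theorem dd2 : U.d * U.d = U.ψ u0 := by
  rw [HB.d, ← map_mul, T3.slF_sq, U.ιu]

theorem θ_u : θ U u0 = U.ψ u0 := by rw [θ_ap, ← dd2]; group

theorem θ_z : θ U (c1 * c2 * c4) = U.ψ (c1 * c2 * c4) := by
  rw [θ_ap, HB.d, U.ιz, mul_inv_cancel_right]

theorem θ_z' : θ U (c1 * c2 * c4⁻¹) = U.ψ (c1 * c2 * c4⁻¹)⁻¹ := by
  rw [θ_ap, map_inv, ← U.ιX, HB.d, ← map_inv, ← map_mul, ← map_mul, T3.slF_X, map_inv]

theorem θ_am : θ U (c1 * c2) = U.ψ c4 := by
  have h : θ U ((c1 * c2 * c4 * (c1 * c2 * c4⁻¹)) ^ 2) =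
      U.ψ ((c1 * c2 * c4 * (c1 * c2 * c4⁻¹)⁻¹) ^ 2) := by
    rw [map_pow, map_pow, map_mul _ (c1 * c2 * c4), map_mul _ (c1 * c2 * c4), θ_z, θ_z']
  rwa [show (c1 * c2 * c4 * (c1 * c2 * c4⁻¹)) ^ 2 = c1 * c2 by decide +kernel,
    show (c1 * c2 * c4 * (c1 * c2 * c4⁻¹)⁻¹) ^ 2 = c4 by decide +kernel] at h

theorem θ_swap {x y : A12} (h : θ U x = U.ψ y) : θ U y = U.ψ (u0 * x * u0⁻¹) := by
  rw [θ_ap, ← h, θ_ap, map_mul, map_mul, map_inv, ← dd2]; group

theorem θ_swap' {x y : A12} (h : θ U x = U.ψ y) (hx : x * u0 = u0 * x) : θ U y = U.ψ x := by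
  rw [θ_swap h, ← hx, mul_inv_cancel_right]

theorem θ_ap' : θ U c4 = U.ψ (c1 * c2) := θ_swap' θ_am (by decide +kernel)

theorem cm_iff {a b a' b' : A12} (ha : θ U a = U.ψ a') (hb : θ U b = U.ψ b') :
    a * b = b * a ↔ a' * b' = b' * a' := by
  rw [← (θ_inj (U := U)).eq_iff, ← U.inj.eq_iff, map_mul, map_mul, map_mul, map_mul, ha, hb]

theorem one_iff {a a' : A12} (ha : θ U a = U.ψ a') : a = 1 ↔ a' = 1 := by
  rw [← (θ_inj (U := U)).eq_iff, ← U.inj.eq_iff, map_one, map_one, ha]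

theorem k5' : ∃ γ, θ U c3 = U.ψ γ ∧ γ * t0 = t0 * γ ∧ γ * s0 = s0 * γ := by
  obtain ⟨γ, h⟩ := U.cA (θ U c3) (by
    rw [← θ_am, ← map_mul, ← map_mul, show c3 * (c1 * c2) = c1 * c2 * c3 by decide +kernel])
  replace h := h.symm
  have n : u0 * c3 * u0⁻¹ ≠ c3 := by decide +kernel
  rcases k5 ((cm_iff h θ_am).1 (by decide +kernel)) ((cm_iff h θ_ap').1 (by decide +kernel))
    ((one_iff (U := U) (a := c3 * c3 * c3) (by simp only [map_mul, h])).1 (by decide +kernel))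
    ((one_iff (U := U) (a := u0 * c3 * u0 * c3) (by simp only [map_mul, h, θ_u])).1 (by decide +kernel))
    with a | rfl | rfl | a
  · exact ⟨γ, h, a⟩
  · exact absurd (U.inj ((θ_swap h).symm.trans h)) n
  · have h1 := θ_swap h
    rw [map_inv, h, ← map_inv, inv_inv] at h1
    exact absurd (U.inj h1).symm n
  · refine absurd ?_ U.nc
    have h1 : IsConj c4 c3 := isConj_iff.2 ⟨dd 6 8 7 9 * dd 11 10 0 1, by decide +kernel⟩
    exact ((U.ψ.map_isConj h1).trans (isConj_iff.2 ⟨U.d, h⟩)).trans (U.ψ.map_isConj a)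

theorem pre {y : A12} (hy : y ∈ [t0, s0]) : ∃ x ∈ [1, v1, v2, v1 * v2], θ U x = U.ψ y := by
  obtain ⟨γ, h3, h4⟩ := k5' (U := U)
  have h1 : y * (c1 * c2) = c1 * c2 * y ∧ y * u0 = u0 * y ∧ y * y = 1 ∧
      y * c4 * y * c4 * y * c4 = 1 := by revert y; decide +kernel
  have h2 : y * γ = γ * y := by
    simp only [List.mem_cons, List.not_mem_nil, or_false] at hy
    rcases hy with rfl | rfl
    exacts [h4.1.symm, h4.2.symm]
  obtain ⟨x', h⟩ := U.cA (θ U y) (by rw [← θ_am, ← map_mul, ← map_mul, h1.1])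
  obtain ⟨x, h⟩ : ∃ x, θ U x = U.ψ y := ⟨x', θ_swap' h.symm h1.2.1⟩
  exact ⟨x, f2 ((cm_iff h θ_ap').2 h1.1) ((cm_iff h h3).2 h2) ((cm_iff h θ_u).2 h1.2.1)
    ((one_iff (U := U) (a' := y * y) (by simp only [map_mul, h])).2 h1.2.2.1)
    ((one_iff (U := U) (a' := y * c4 * y * c4 * y * c4) (by
      simp only [map_mul _ _ (c1 * c2), map_mul _ _ x, h, θ_am, map_mul _ _ c4, map_mul _ _ y])).2
      h1.2.2.2), h⟩

theorem map_eq {s s' : Set A12} (h : ∀ x ∈ s, ∃ y ∈ closure s', θ U x = U.ψ y)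
    (h' : ∀ y ∈ s', ∃ x ∈ closure s, θ U x = U.ψ y) :
    (closure s).map (θ U) = (closure s').map U.ψ :=
  le_antisymm (map_le_iff_le_comap.2 ((closure_le _).2 fun x hx =>
      let ⟨y, hy, e⟩ := h x hx; ⟨y, hy, e.symm⟩))
    (map_le_iff_le_comap.2 ((closure_le _).2 fun y hy => h' y hy))

theorem dV : Vp0.map (θ U) = V30.map U.ψ := by
  obtain ⟨τ, h1, e1⟩ := pre (U := U) (y := t0) (by simp)
  obtain ⟨ς, h2, e2⟩ := pre (U := U) (y := s0) (by simp)
  have m1 : v1 ∈ Vp0 := subset_closure (by simp)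
  have m2 : v2 ∈ Vp0 := subset_closure (by simp)
  have m3 : t0 ∈ V30 := subset_closure (by simp)
  have m4 : s0 ∈ V30 := subset_closure (by simp)
  have m : ∀ x ∈ [1, v1, v2, v1 * v2], x ∈ Vp0 := by
    simp only [List.forall_mem_cons]
    exact ⟨one_mem _, m1, m2, mul_mem m1 m2, by simp⟩
  have k := (by decide +kernel : ∀ τ ∈ [1, v1, v2, v1 * v2], ∀ ς ∈ [1, v1, v2, v1 * v2],
    τ ≠ 1 → ς ≠ 1 → τ ≠ ς → ∀ x ∈ [v1, v2], x = τ ∨ x = ς ∨ x = τ * ς) τ h1 ς h2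
    (mt (one_iff e1).1 (by decide +kernel)) (mt (one_iff e2).1 (by decide +kernel))
    fun e => absurd (U.inj (e1.symm.trans (e ▸ e2))) (by decide +kernel)
  refine map_eq (fun x hx => ?_) ?_
  · rcases k x (by simpa using hx) with rfl | rfl | rfl
    exacts [⟨_, m3, e1⟩, ⟨_, m4, e2⟩, ⟨_, mul_mem m3 m4, by rw [map_mul, map_mul, e1, e2]⟩]
  · rintro _ (rfl | rfl)
    exacts [⟨_, m _ h1, e1⟩, ⟨_, m _ h2, e2⟩]

theorem dU : Up0.map (θ U) = Um0.map U.ψ := by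
  have e : ∀ a b : A12, closure {u0, a, b} = zpowers u0 ⊔ closure {a, b} := fun a b => by
    rw [Set.insert_eq, Subgroup.closure_union, zpowers_eq_closure]
  rw [Up0, Um0, e, e, Subgroup.map_sup, Subgroup.map_sup, MonoidHom.map_zpowers,
    MonoidHom.map_zpowers, θ_u]
  exact congrArg _ dV

theorem Up0_le : Up0 ≤ Ep0 := (closure_le _).2 (by
  rintro _ (rfl | rfl | rfl)
  exacts [u0_mem, gen_mem _ (by simp), gen_mem _ (by simp)])

theorem back {X : Subgroup A12} (h : u0 ∈ X) : MulAut.conj U.d • X.map (θ U) = X.map U.ψ := by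
  rw [← smul_map, H8.conj_smul_conj_smul, dd2]
  exact H8.mem_normalizer_iff_conj_smul_eq.1 (le_normalizer (mem_map_of_mem _ h))

theorem uEp : U.u ∈ U.Ep := mem_map_of_mem _ u0_mem

variable [Finite G]

theorem normEp (cv : U.CV) {n : G} (hn : n ∈ normalizer (Um0.map U.ψ : Set G))
    (hu : n * U.u = U.u * n) : n ∈ normalizer (U.Ep : Set G) := by
  have tr : ∀ a : A12, a * u0 = u0 * a ∧ a * t0 = t0 * a ∧ a * s0 = s0 * a ∧ a ^ 3 = 1 →
      ∃ b, U.ψ b = n * U.ψ a * n⁻¹ ∧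
        b * u0 = u0 * b ∧ b * t0 = t0 * b ∧ b * s0 = s0 * b ∧ b ^ 3 = 1 := fun a ha => by
    have h1 : U.ψ a ∈ centralizer (Um0.map U.ψ : Set G) := by
      rintro _ ⟨y, hy, rfl⟩
      have : Um0 ≤ centralizer {a} := (closure_le _).2 (by
        rintro _ (rfl | rfl | rfl) <;> refine mem_centralizer_singleton_iff.2 ?_
        exacts [ha.1.symm, ha.2.1.symm, ha.2.2.1.symm])
      rw [← map_mul, ← map_mul, mem_centralizer_singleton_iff.1 (this hy)]
    have h2 := (mem_normalizer_iff.1 (H83.normalizer_le_normalizer_centralizer _ hn) _).1 h1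
    have h3 : ∀ y ∈ ({u0, t0, s0} : Set A12), n * U.ψ a * n⁻¹ * U.ψ y = U.ψ y * (n * U.ψ a * n⁻¹) :=
      fun y hy => (h2 _ (mem_map_of_mem _ (subset_closure hy))).symm
    obtain ⟨b, e⟩ := cv _ (h3 t0 (by simp)) (h3 s0 (by simp))
    have h4 : ∀ y ∈ ({u0, t0, s0} : Set A12), b * y = y * b := fun y hy =>
      U.inj (by rw [map_mul, map_mul, e, h3 y hy])
    exact ⟨b, e, h4 _ (by simp), h4 _ (by simp), h4 _ (by simp), U.inj (by
      rw [map_pow, e, conj_pow, ← map_pow, ha.2.2.2, map_one, mul_one, mul_inv_cancel])⟩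
  have key : Ep0 ≤ U.Ep.comap ((MulAut.conj n).toMonoidHom.comp U.ψ) := by
    refine Ep0_le ?_ fun e he => ?_
    · change n * U.u * n⁻¹ ∈ U.Ep
      rw [hu, mul_inv_cancel_right]
      exact uEp
    · obtain ⟨k1, k2, k3, -, -, -, -, k4⟩ := ep_cm e he
      have c : ∀ y : A12, e * y = y * e → c1 * c2 * y = y * (c1 * c2) →
          e⁻¹ * (c1 * c2) * e * y = y * (e⁻¹ * (c1 * c2) * e) := fun y h1 h2 =>
        (((Commute.inv_left h1).mul_left h2).mul_left h1).eq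
      obtain ⟨a, e1, ha⟩ := tr (e⁻¹ * (c1 * c2) * e) ⟨c _ k1 (by decide +kernel),
        c _ k2 (by decide +kernel), c _ k3 (by decide +kernel), by
          rw [← inv_inv e, inv_inv e⁻¹, conj_pow, show (c1 * c2) ^ 3 = 1 by decide +kernel,
            mul_one, mul_inv_cancel]⟩
      obtain ⟨b, e2, hb⟩ := tr (c1 * c2)⁻¹ (by decide +kernel)
      have e3 : U.ψ (a * b) = n * U.ψ (e⁻¹ * (c1 * c2) * e * (c1 * c2)⁻¹) * n⁻¹ := by
        rw [map_mul, e1, e2, conj_mul, ← map_mul]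
      exact ⟨a * b, f3' ha hb (U.inj (by
        rw [map_pow, e3, conj_pow, ← map_pow, k4, map_one, mul_one, mul_inv_cancel])), e3⟩
  refine mem_normalizer_fintype ?_
  rintro _ ⟨e, he, rfl⟩
  exact key he

theorem normA (cv : U.CV) {γ : A12} (h : γ * u0 = u0 * γ) :
    U.ψ γ ∈ normalizer (U.Ep : Set G) ∧ U.ψ γ ∈ normalizer (U.Em : Set G) := by
  have hu : U.ψ γ * U.u = U.u * U.ψ γ := by rw [HB.u, ← map_mul, ← map_mul, h]
  refine ⟨normEp cv (le_normalizer_map _ (mem_map_of_mem _ (norm_Um0 h))) hu, ?_⟩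
  rw [HB.Em, H8.normalizer_conj_smul, H8.mem_conj_smul]
  refine normEp cv ?_ ?_
  · rw [← H8.mem_conj_smul, ← H8.normalizer_conj_smul, ← dU,
      back (X := Up0) (subset_closure (by simp))]
    exact le_normalizer_map _ (mem_map_of_mem _ (norm_Up0 h))
  · have h1 : Commute U.d U.u := by rw [HB.u, ← dd2]; exact (Commute.refl _).mul_right (.refl _)
    exact ((h1.inv_left.mul_left hu).mul_left h1).eq

theorem Ep_le (cv : U.CV) : U.Ep ≤ normalizer (U.Em : Set G) := by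
  rintro _ ⟨e, he, rfl⟩
  exact (normA cv (ep_cm e he).1).2

omit [Finite G] in
theorem dEm : MulAut.conj U.d • U.Em = U.Ep := by rw [Em_eq]; exact back u0_mem

theorem Em_le (cv : U.CV) : U.Em ≤ normalizer (U.Ep : Set G) := by
  nth_rewrite 1 [← dEm, H8.normalizer_conj_smul]
  exact pointwise_smul_le_pointwise_smul_iff.2 (Ep_le cv)

omit [Finite G] in
theorem mem_u {e : A12} (h : e = 1 ∨ e = u0) : U.ψ e ∈ zpowers U.u ∧ θ U e ∈ zpowers U.u := by
  rcases h with rfl | rfl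
  · simp only [map_one, one_mem, and_self]
  · exact ⟨mem_zpowers _, by rw [θ_u]; exact mem_zpowers _⟩

omit [Finite G] in
theorem inf {a : G} (h1 : a ∈ U.Ep) (h2 : a ∈ U.Em) : a ∈ zpowers U.u := by
  obtain ⟨e, he, rfl⟩ := h1
  obtain ⟨e', he', h⟩ := Em_eq (U := U) ▸ h2
  exact (mem_u ((ep_cm e he).2.2.2.2.2.1 ((cm_iff h θ_ap').1 (ep_cm e' he').2.2.2.1))).1

theorem cm (cv : U.CV) {a y : G} (ha : a ∈ U.Ep) (hy : y ∈ U.Em) : a * y = y * a := by
  obtain ⟨e', he', h⟩ := Em_eq (U := U) ▸ hy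
  have yc : y * U.ψ (c1 * c2) = U.ψ (c1 * c2) * y := by
    rw [← h, ← θ_ap', ← map_mul, ← map_mul, (ep_cm e' he').2.2.2.1]
  have key : Ep0 ≤ (centralizer {y}).comap U.ψ := by
    refine Ep0_le (mem_centralizer_singleton_iff.2 ?_) fun e he =>
      mem_centralizer_singleton_iff.2 ?_
    · rw [← h, ← θ_u, ← map_mul, ← map_mul, (ep_cm e' he').1]
    · have h1 : U.ψ e ∈ U.Ep := mem_map_of_mem _ he
      obtain ⟨k, hk⟩ := inf (a := y * U.ψ e * y⁻¹ * (U.ψ e)⁻¹)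
        (mul_mem ((mem_normalizer_iff.1 (Em_le cv hy) _).1 h1) (inv_mem h1)) (by
          rw [mul_assoc, mul_assoc, ← mul_assoc (U.ψ e)]
          exact mul_mem hy ((mem_normalizer_iff.1 (Ep_le cv h1) _).1 (inv_mem hy)))
      have h2 : Commute U.u (U.ψ (c1 * c2)) := by
        rw [commute_iff_eq, HB.u, ← map_mul, ← map_mul,
          show u0 * (c1 * c2) = c1 * c2 * u0 by decide +kernel]
      have h3 := (h2.zpow_left k).eq
      simp only at hk
      rw [hk] at h3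
      rw [map_mul, map_mul, map_mul, map_inv, map_inv]
      generalize U.ψ e = p at h3
      generalize U.ψ (c1 * c2) = c at h3 yc
      have h4 : y * c * y⁻¹ = c := by rw [yc, mul_inv_cancel_right]
      symm
      calc y * (p⁻¹ * c * p * c⁻¹) = p⁻¹ * ((y * p * y⁻¹ * p⁻¹)⁻¹ * (y * c * y⁻¹ *
            (y * p * y⁻¹ * p⁻¹))) * p * (y * c * y⁻¹)⁻¹ * y := by group
        _ = _ := by rw [h4, ← h3, inv_mul_cancel_left]
  obtain ⟨e, he, rfl⟩ := ha
  exact mem_centralizer_singleton_iff.1 (key he)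

theorem dec (cv : U.CV) {e : G} (h : e ∈ U.E) : ∃ a ∈ U.Ep, ∃ b ∈ U.Em, e = a * b :=
  let ⟨a, ha, b, hb, k⟩ := (H83.mem_sup_right_norm (Ep_le cv)).1 h
  ⟨a, ha, b, hb, k.symm⟩

omit [Finite G] in
theorem du : U.d * U.u = U.u * U.d := by rw [HB.u, ← dd2, mul_assoc]

omit [Finite G] in
theorem uE : U.E ≤ centralizer {U.u} := by
  refine sup_le ?_ (Em_eq (U := U) ▸ ?_) <;> rintro _ ⟨e, he, rfl⟩ <;>
    refine mem_centralizer_singleton_iff.2 ?_
  · rw [HB.u, ← map_mul, ← map_mul, (ep_cm e he).1]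
  · rw [HB.u, ← θ_u, ← map_mul, ← map_mul, (ep_cm e he).1]

theorem sqE (cv : U.CV) {e : G} (h : e ∈ U.E) : e * e ∈ zpowers U.u := by
  obtain ⟨a, ha, b, hb, rfl⟩ := dec cv h
  rw [mul_assoc, ← mul_assoc b, ← cm cv ha hb, mul_assoc, ← mul_assoc]
  obtain ⟨x, hx, rfl⟩ := ha
  obtain ⟨y, hy, rfl⟩ := Em_eq (U := U) ▸ hb
  rw [← map_mul, ← map_mul]
  exact mul_mem (mem_u (ep_cm x hx).2.2.2.2.1).1 (mem_u (ep_cm y hy).2.2.2.2.1).2

theorem cardE (cv : U.CV) : Nat.card U.E = 512 := by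
  have h1 := card_sup_mul_card_inf (Ep_le cv)
  have h2 : U.Ep ⊓ U.Em = zpowers U.u := le_antisymm (fun a ha => inf ha.1 ha.2)
    (zpowers_le.2 ⟨uEp, Em_eq (U := U) ▸ ⟨u0, u0_mem, θ_u⟩⟩)
  have h3 : Nat.card U.Ep = 32 := (card_map_of_injective U.inj).trans card_Ep0
  have h4 : orderOf U.u = 2 := by
    have : Fact (Nat.Prime 2) := ⟨Nat.prime_two⟩
    rw [HB.u, orderOf_injective _ U.inj]
    exact orderOf_eq_prime (by decide +kernel) (by decide +kernel)
  rw [h2, Nat.card_zpowers, h4, HB.Em, H8.card_conj_smul, h3] at h1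
  rw [HB.E, HB.Em]
  omega

omit [Finite G] in
theorem cE (cv : U.CV) {g : G} (h : ∀ e ∈ U.E, g * e = e * g) : g ∈ zpowers U.u := by
  have h1 : ∀ x ∈ Ep0, g * θ U x = θ U x * g := fun x hx =>
    h _ (mem_sup_right (Em_eq (U := U) ▸ mem_map_of_mem _ hx))
  have h2 : ∀ y ∈ Um0, g * U.ψ y = U.ψ y * g := fun y hy => by
    obtain ⟨x, hx, e⟩ := (dU (U := U)).ge (mem_map_of_mem _ hy)
    exact e ▸ h1 x (Up0_le hx)
  have h3 := h2 t0 (subset_closure (by simp))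
  have h4 := h2 s0 (subset_closure (by simp))
  obtain ⟨γ, rfl⟩ := cv g h3 h4
  obtain ⟨x, hx, e⟩ := (dU (U := U)).ge (mem_map_of_mem _ (f8 (γ := γ)
    (fun x hx => U.inj (by
      rw [map_mul, map_mul]; exact h _ (mem_sup_left (mem_map_of_mem _ hx))))
    (U.inj (by rwa [map_mul, map_mul])) (U.inj (by rwa [map_mul, map_mul]))))
  have h5 : ∀ y ∈ [v1, v2, v3, x2, x4], x * y = y * x := fun y hy =>
    θ_inj (U := U) (by rw [map_mul, map_mul, e]; exact h1 y (gen_mem y hy))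
  exact e ▸ (mem_u ((ep_cm x (Up0_le hx)).2.2.2.2.2.2.1 (h5 _ (by simp)) (h5 _ (by simp))
    (h5 _ (by simp)) (h5 _ (by simp)))).2

theorem eStmt : EStmt.{u} := fun _ _ _ U cv =>
  { cm := fun _ ha _ hb => cm cv ha hb
    inf := fun _ => inf
    dV := (smul_map _).trans dV
    nA := fun γ h => ⟨mem_centralizer_singleton_iff.2 (by rw [HB.u, ← map_mul, ← map_mul, h]),
      H83.le_norm_sup (zpowers_le.2 (normA cv h).1) (zpowers_le.2 (normA cv h).2) (mem_zpowers _)⟩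
    nd := ⟨mem_centralizer_singleton_iff.2 du, H8.mem_normalizer_iff_conj_smul_eq.2 (by
      rw [HB.E, Subgroup.smul_sup, dEm, sup_comm]; rfl)⟩
    card := cardE cv
    dec := fun _ => dec cv
    cE := fun _ => cE cv
    uE := mem_sup_left uEp
    EL := le_inf uE le_normalizer
    sq := fun _ => sqE cv
    com := fun a ha b hb => by
      have := mul_mem (mul_mem (sqE cv ha) (sqE cv (mul_mem (inv_mem ha) hb)))
        (sqE cv (inv_mem hb))
      rwa [show a * a * (a⁻¹ * b * (a⁻¹ * b)) * (b⁻¹ * b⁻¹) = a * b * a⁻¹ * b⁻¹ by group] at this }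

end Cfsg.Agent.H67.HnE
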