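import Cfsg.Agent.H99.HNDefs

/-! Finite checks in the alternating group of degree twelve. -/

set_option autoImplicit false
set_option maxRecDepth 100000
set_option synthInstance.maxSize 4000

namespace Cfsg.Agent.H67.HnE

open Subgroup Equiv Cfsg.Agent.H99.HN

attribute [local instance 10000] List.decidableBAll List.decidableBEx

/-- the points -/
abbrev Pt : Type := Fin 12

/-- a table -/
def tb (l : List Pt) (i : Pt) : Pt := l.getD i.val 0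

/-- `u0` -/
def fu : Pt → Pt := tb [1, 0, 3, 2, 5, 4, 7, 6, 8, 9, 10, 11]
/-- `t0` -/
def ft : Pt → Pt := tb [0, 1, 2, 3, 4, 5, 6, 7, 9, 8, 11, 10]
/-- `s0` -/
def fs : Pt → Pt := tb [0, 1, 2, 3, 4, 5, 6, 7, 10, 11, 8, 9]
/-- `c1 c2` -/
def fc : Pt → Pt := tb [2, 3, 4, 5, 0, 1, 6, 7, 8, 9, 10, 11]
/-- `c3` -/
def f3 : Pt → Pt := tb [0, 1, 2, 3, 4, 5, 7, 11, 8, 9, 10, 6]
/-- `c4` -/
def f4 : Pt → Pt := tb [0, 1, 2, 3, 4, 5, 6, 7, 9, 10, 8, 11]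
/-- `x2` -/
def g2 : Pt → Pt := tb [2, 3, 0, 1, 6, 7, 4, 5, 8, 9, 10, 11]
/-- `x4` -/
def g4 : Pt → Pt := tb [4, 5, 6, 7, 0, 1, 2, 3, 8, 9, 10, 11]

theorem u0_ap : ∀ i, u0.1 i = fu i := by decide +kernel
theorem t0_ap : ∀ i, t0.1 i = ft i := by decide +kernel
theorem s0_ap : ∀ i, s0.1 i = fs i := by decide +kernel
theorem cc_ap : ∀ i, (c1 * c2).1 i = fc i := by decide +kernel
theorem c3_ap : ∀ i, c3.1 i = f3 i := by decide +kernel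
theorem c4_ap : ∀ i, c4.1 i = f4 i := by decide +kernel
theorem x2_ap : ∀ i, x2.1 i = g2 i := by decide +kernel
theorem x4_ap : ∀ i, x4.1 i = g4 i := by decide +kernel

theorem ap_comm {γ x : A12} {f : Pt → Pt} (hf : ∀ i, x.1 i = f i) (h : γ * x = x * γ) (i : Pt) :
    γ.1 (f i) = f (γ.1 i) := by
  rw [← hf, ← hf]
  exact congrArg (fun y : A12 => y.1 i) h

theorem moved {γ x : A12} {f : Pt → Pt} (hf : ∀ i, x.1 i = f i) (h : γ * x = x * γ) {i : Pt}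
    (hi : f i ≠ i) : f (γ.1 i) ≠ γ.1 i := fun e => hi (γ.1.injective ((ap_comm hf h i).trans e))

theorem fixed {γ x : A12} {f : Pt → Pt} (hf : ∀ i, x.1 i = f i) (h : γ * x = x * γ) {i : Pt}
    (hi : f i = i) : f (γ.1 i) = γ.1 i := by rw [← ap_comm hf h i, hi]

theorem ext12 {γ δ : A12} (h : ∀ i, γ.1 i = δ.1 i) : γ = δ := Subtype.ext (Equiv.ext h)

theorem eq_tb {g : Pt → Pt} {l : List Pt}
    (h : l = [g 0, g 1, g 2, g 3, g 4, g 5, g 6, g 7, g 8, g 9, g 10, g 11]) : g = tb l := by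
  subst h
  funext i
  fin_cases i <;> rfl

/-- `(0 1)(2 3)` -/
abbrev v1 : A12 := dd 0 1 2 3
/-- `(2 3)(4 5)` -/
abbrev v2 : A12 := dd 2 3 4 5
/-- `(4 5)(6 7)` -/
abbrev v3 : A12 := dd 4 5 6 7

/-! ### The element `d c3 d⁻¹` -/

theorem k5a : ∀ h, f4 h ≠ h → ∀ a, fc a ≠ a → ∀ b, fc b ≠ b → ∀ e, fc e = e → f4 e = e →
    ∀ f, fc f = f → f4 f = f → e ≠ f → ∀ k, fc k = k → f4 k = k → e ≠ k → f ≠ k →
    ∀ g, g = tb [a, b, fc a, fc b, fc (fc a), fc (fc b), e, f, h, f4 h, f4 (f4 h), k] →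
      (∀ i, g (g (g i)) = i) → (∀ i, fu (g (fu (g i))) = i) →
      ((∀ i, g (ft i) = ft (g i)) ∧ ∀ i, g (fs i) = fs (g i)) ∨ (∀ i, g i = f3 i) ∨
        (∀ i, g (f3 i) = i) ∨ ∃ κ ∈ [dd 3 5 6 8 * dd 7 9 11 10, dd 3 5 6 8 * dd 11 9 7 10,
          dd 2 4 6 8 * dd 7 9 11 10, dd 2 4 6 8 * dd 11 9 7 10],
            ∀ i, (κ : A12).1 (g i) = (c1 * c2 * c4).1 (κ.1 i) := by
  simp only [forall_eq]
  decide +kernel

theorem k5 {γ : A12} (h4 : γ * c4 = c4 * γ) (hc : γ * (c1 * c2) = c1 * c2 * γ)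
    (h3 : γ * γ * γ = 1) (hu : u0 * γ * u0 * γ = 1) :
    (γ * t0 = t0 * γ ∧ γ * s0 = s0 * γ) ∨ γ = c3 ∨ γ = c3⁻¹ ∨ IsConj γ (c1 * c2 * c4) := by
  have a4 := ap_comm c4_ap h4
  have ac := ap_comm cc_ap hc
  rcases k5a _ (moved c4_ap h4 (i := 8) (by decide)) _ (moved cc_ap hc (i := 0) (by decide))
    _ (moved cc_ap hc (i := 1) (by decide)) _ (fixed cc_ap hc (i := 6) rfl)
    (fixed c4_ap h4 (i := 6) rfl) _ (fixed cc_ap hc (i := 7) rfl) (fixed c4_ap h4 (i := 7) rfl)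
    (γ.1.injective.ne (by decide)) _ (fixed cc_ap hc (i := 11) rfl) (fixed c4_ap h4 (i := 11) rfl)
    (γ.1.injective.ne (by decide)) (γ.1.injective.ne (by decide)) γ.1
    (eq_tb (by simp only [← ac, ← a4]; rfl)) (fun i => congrArg (fun y : A12 => y.1 i) h3)
    (fun i => by rw [← u0_ap, ← u0_ap]; exact congrArg (fun y : A12 => y.1 i) hu) with
    ⟨a, b⟩ | a | a | ⟨κ, -, a⟩
  · simp only [← t0_ap, ← s0_ap] at a b
    exact .inl ⟨ext12 a, ext12 b⟩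
  · exact .inr (.inl (ext12 fun i => (a i).trans (c3_ap i).symm))
  · simp only [← c3_ap] at a
    exact .inr (.inr (.inl (eq_inv_of_mul_eq_one_left (ext12 a))))
  · exact .inr (.inr (.inr (isConj_iff.2 ⟨κ, mul_inv_eq_iff_eq_mul.2 (ext12 a)⟩)))

/-! ### The four-group -/

theorem f2a : ∀ h, f4 h ≠ h → ∀ e, f3 e ≠ e → ∀ a, fu a ≠ a → ∀ b, fu b ≠ b → b ≠ a ∧ b ≠ fu a →
    ∀ c, fu c ≠ c → c ≠ a ∧ c ≠ fu a → c ≠ b ∧ c ≠ fu b →
    ∀ g, g = tb [a, fu a, b, fu b, c, fu c, e, f3 e, h, f4 h, f4 (f4 h), f3 (f3 e)] →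
      (∀ i, g (g i) = i) → (∀ i, g (fc (g (fc (g (fc i))))) = i) →
      ∃ y ∈ [1, v1, v2, v1 * v2], ∀ i, g i = (y : A12).1 i := by
  simp only [forall_eq]
  decide +kernel

theorem f2 {γ : A12} (h4 : γ * c4 = c4 * γ) (h3 : γ * c3 = c3 * γ) (hu : γ * u0 = u0 * γ)
    (h2 : γ * γ = 1) (hc : γ * (c1 * c2) * γ * (c1 * c2) * γ * (c1 * c2) = 1) :
    γ ∈ [1, v1, v2, v1 * v2] := by
  have a4 := ap_comm c4_ap h4
  have a3 := ap_comm c3_ap h3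
  have au := ap_comm u0_ap hu
  have n : ∀ i j, j ≠ i ∧ j ≠ fu i → γ.1 j ≠ γ.1 i ∧ γ.1 j ≠ fu (γ.1 i) := fun i j h =>
    ⟨γ.1.injective.ne h.1, au i ▸ γ.1.injective.ne h.2⟩
  obtain ⟨y, hy, e⟩ := f2a _ (moved c4_ap h4 (i := 8) (by decide))
    _ (moved c3_ap h3 (i := 6) (by decide)) _ (moved u0_ap hu (i := 0) (by decide))
    _ (moved u0_ap hu (i := 2) (by decide)) (n _ _ (by decide))
    _ (moved u0_ap hu (i := 4) (by decide)) (n _ _ (by decide)) (n _ _ (by decide)) γ.1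
    (eq_tb (by simp only [← au, ← a4, ← a3]; rfl)) (fun i => congrArg (fun y : A12 => y.1 i) h2)
    (fun i => by simp only [← cc_ap]; exact congrArg (fun y : A12 => y.1 i) hc)
  exact ext12 e ▸ hy

/-! ### The extraspecial group -/

/-- `g` or `1` -/
def ze (b : Bool) (g : A12) : A12 := bif b then g else 1

/-- the elements -/
def ep (i j k l m : Bool) : A12 := ze i v1 * ze j v2 * ze k v3 * ze l x2 * ze m x4

theorem ep_mul : ∀ i j k l m, ∀ g ∈ [v1, v2, v3, x2, x4], ∃ i' j' k' l' m',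
    ep i j k l m * g = ep i' j' k' l' m' := by decide +kernel

theorem gen_mem : ∀ g ∈ [v1, v2, v3, x2, x4], g ∈ Ep0 := fun g hg =>
  subset_closure (by simpa using hg)

theorem mem_Ep0 {γ : A12} : γ ∈ Ep0 ↔ ∃ i j k l m, γ = ep i j k l m := by
  refine ⟨fun h => ?_, ?_⟩
  · induction h using closure_induction_right with
    | one => exact ⟨false, false, false, false, false, by decide +kernel⟩
    | mul_right x _ y hy ih =>
      obtain ⟨i, j, k, l, m, rfl⟩ := ih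
      exact ep_mul i j k l m y (by simpa using hy)
    | mul_inv_cancel x _ y hy ih =>
      obtain ⟨i, j, k, l, m, rfl⟩ := ih
      have h1 : y ∈ [v1, v2, v3, x2, x4] := by simpa using hy
      rw [(by decide +kernel : ∀ y ∈ [v1, v2, v3, x2, x4], y⁻¹ = y) y h1]
      exact ep_mul i j k l m y h1
  · have h : ∀ b, ∀ g ∈ [v1, v2, v3, x2, x4], ze b g ∈ Ep0 := fun b g hg => by
      cases b
      exacts [one_mem _, gen_mem g hg]
    rintro ⟨i, j, k, l, m, rfl⟩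
    exact mul_mem (mul_mem (mul_mem (mul_mem (h _ _ (by simp)) (h _ _ (by simp)))
      (h _ _ (by simp))) (h _ _ (by simp))) (h _ _ (by simp))

theorem forall_Ep0 {p : A12 → Prop} (h : ∀ i j k l m, p (ep i j k l m)) : ∀ γ ∈ Ep0, p γ :=
  fun _ hγ => let ⟨i, j, k, l, m, e⟩ := mem_Ep0.1 hγ; e ▸ h i j k l m

theorem card_Ep0 : Nat.card Ep0 = 32 := by
  have : Function.Bijective fun b : Bool × Bool × Bool × Bool × Bool =>
      (⟨ep b.1 b.2.1 b.2.2.1 b.2.2.2.1 b.2.2.2.2, mem_Ep0.2 ⟨_, _, _, _, _, rfl⟩⟩ : Ep0) := by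
    refine ⟨fun a b e => ?_, fun ⟨_, h⟩ => ?_⟩
    · revert a b
      simp only [Subtype.mk.injEq]
      decide +kernel
    · obtain ⟨i, j, k, l, m, rfl⟩ := mem_Ep0.1 h
      exact ⟨(i, j, k, l, m), rfl⟩
  rw [← Nat.card_eq_of_bijective _ this]
  simp

theorem u0_mem : u0 ∈ Ep0 := mul_mem (gen_mem _ (by simp)) (gen_mem _ (by simp))

theorem ep_cm : ∀ γ ∈ Ep0, γ * u0 = u0 * γ ∧ γ * t0 = t0 * γ ∧ γ * s0 = s0 * γ ∧
    γ * c4 = c4 * γ ∧ (γ * γ = 1 ∨ γ * γ = u0) ∧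
    (γ * (c1 * c2) = c1 * c2 * γ → γ = 1 ∨ γ = u0) ∧
    (γ * x2 = x2 * γ → γ * x4 = x4 * γ → γ * v1 = v1 * γ → γ * v2 = v2 * γ → γ = 1 ∨ γ = u0) ∧
    (γ⁻¹ * (c1 * c2) * γ * (c1 * c2)⁻¹) ^ 4 = 1 := forall_Ep0 (by decide +kernel)

theorem cc_norm : ∀ γ ∈ Ep0, c1 * c2 * γ * (c1 * c2)⁻¹ ∈ Ep0 :=
  forall_Ep0 (by simp only [mem_Ep0]; decide +kernel)

theorem Ep0_le {K : Subgroup A12} (hu : u0 ∈ K)
    (h : ∀ e ∈ Ep0, e⁻¹ * (c1 * c2) * e * (c1 * c2)⁻¹ ∈ K) : Ep0 ≤ K := by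
  have k : ∀ e ∈ Ep0, ∀ y, e⁻¹ * (c1 * c2) * e * (c1 * c2)⁻¹ = y → y ∈ K := fun e he _ a =>
    a ▸ h e he
  have h1 : v1 ∈ K := k v2 (gen_mem _ (by simp)) _ (by decide +kernel)
  refine (closure_le _).2 ?_
  rintro _ (rfl | rfl | rfl | rfl | rfl)
  · exact h1
  · exact k (v2 * v3) (mul_mem (gen_mem _ (by simp)) (gen_mem _ (by simp))) _ (by decide +kernel)
  · exact (mul_mem_cancel_left h1).1 hu
  · exact k (x2 * x4) (mul_mem (gen_mem _ (by simp)) (gen_mem _ (by simp))) _ (by decide +kernel)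
  · exact k x2 (gen_mem _ (by simp)) _ (by decide +kernel)

/-! ### Elements of order three in `C(u0, t0, s0)` -/

/-- the table of an element -/
def mk0 (p : Pt × Pt × Pt × Pt) (f : Pt) : Pt → Pt :=
  tb [p.1, fu p.1, p.2.1, fu p.2.1, p.2.2.1, fu p.2.2.1, p.2.2.2, fu p.2.2.2, f, ft f, fs f,
    fs (ft f)]

/-- the solutions of `x ^ 3 = 1` -/
def T33 : List (Pt × Pt × Pt × Pt) := [(0, 2, 4, 6), (0, 4, 6, 2), (0, 4, 7, 3), (0, 5, 6, 3),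
  (0, 5, 7, 2), (0, 6, 2, 4), (0, 6, 3, 5), (0, 7, 2, 5), (0, 7, 3, 4), (2, 4, 0, 6), (2, 5, 1, 6),
  (2, 6, 4, 0), (2, 7, 4, 1), (3, 4, 1, 6), (3, 5, 0, 6), (3, 6, 4, 1), (3, 7, 4, 0), (4, 0, 2, 6),
  (4, 1, 3, 6), (4, 2, 6, 0), (4, 2, 7, 1), (5, 0, 3, 6), (5, 1, 2, 6), (5, 2, 6, 1), (5, 2, 7, 0),
  (6, 0, 4, 2), (6, 1, 4, 3), (6, 2, 0, 4), (6, 2, 1, 5), (7, 0, 4, 3), (7, 1, 4, 2), (7, 2, 0, 5),
  (7, 2, 1, 4)]

theorem f3a : ∀ f, ft f ≠ f → ∀ a, fu a ≠ a → ∀ b, fu b ≠ b → b ≠ a ∧ b ≠ fu a →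
    ∀ c, fu c ≠ c → c ≠ a ∧ c ≠ fu a → c ≠ b ∧ c ≠ fu b →
    ∀ e, fu e ≠ e → e ≠ a ∧ e ≠ fu a → e ≠ b ∧ e ≠ fu b → e ≠ c ∧ e ≠ fu c →
    ∀ g, g = mk0 (a, b, c, e) f → (∀ i, g (g (g i)) = i) → f = 8 ∧ (a, b, c, e) ∈ T33 := by
  simp only [forall_eq]
  decide +kernel

theorem f3b : ∀ p ∈ T33, ∀ q ∈ T33, ∀ g, g = mk0 p 8 → ∀ h, h = mk0 q 8 →
    (∀ x, g (h (g (h (g (h (g (h x))))))) = x) →
    ∃ i j k l m, ∀ x, g (h x) = (ep i j k l m).1 x := by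
  simp only [forall_eq]
  decide +kernel

theorem three {γ : A12} (hu : γ * u0 = u0 * γ) (ht : γ * t0 = t0 * γ) (hs : γ * s0 = s0 * γ)
    (h3 : γ ^ 3 = 1) : ∃ p ∈ T33, ⇑γ.1 = mk0 p 8 := by
  have au := ap_comm u0_ap hu
  have at' := ap_comm t0_ap ht
  have as := ap_comm s0_ap hs
  have e : ⇑γ.1 = mk0 (γ.1 0, γ.1 2, γ.1 4, γ.1 6) (γ.1 8) :=
    eq_tb (by simp only [← au, ← at', ← as]; rfl)
  have n : ∀ i j, j ≠ i ∧ j ≠ fu i → γ.1 j ≠ γ.1 i ∧ γ.1 j ≠ fu (γ.1 i) := fun i j h =>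
    ⟨γ.1.injective.ne h.1, au i ▸ γ.1.injective.ne h.2⟩
  obtain ⟨h1, h2⟩ := f3a _ (moved t0_ap ht (i := 8) (by decide))
    _ (moved u0_ap hu (i := 0) (by decide)) _ (moved u0_ap hu (i := 2) (by decide))
    (n _ _ (by decide)) _ (moved u0_ap hu (i := 4) (by decide)) (n _ _ (by decide))
    (n _ _ (by decide)) _ (moved u0_ap hu (i := 6) (by decide)) (n _ _ (by decide))
    (n _ _ (by decide)) (n _ _ (by decide)) γ.1 e
    fun i => congrArg (fun y : A12 => y.1 i) ((pow_three γ).symm.trans h3)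
  exact ⟨_, h2, h1 ▸ e⟩

theorem f3' {a b : A12} (ha : a * u0 = u0 * a ∧ a * t0 = t0 * a ∧ a * s0 = s0 * a ∧ a ^ 3 = 1)
    (hb : b * u0 = u0 * b ∧ b * t0 = t0 * b ∧ b * s0 = s0 * b ∧ b ^ 3 = 1)
    (h : (a * b) ^ 4 = 1) : a * b ∈ Ep0 := by
  obtain ⟨p, hp, e1⟩ := three ha.1 ha.2.1 ha.2.2.1 ha.2.2.2
  obtain ⟨q, hq, e2⟩ := three hb.1 hb.2.1 hb.2.2.1 hb.2.2.2
  have h' : a * b * (a * b * (a * b * (a * b))) = 1 := by
    rw [← h]; simp only [pow_succ, pow_zero, one_mul, mul_assoc]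
  obtain ⟨i, j, k, l, m, e⟩ := f3b p hp q hq _ e1 _ e2 fun x => congrArg (fun y : A12 => y.1 x) h'
  exact mem_Ep0.2 ⟨i, j, k, l, m, ext12 e⟩

/-! ### Two elementary groups of order eight -/

/-- `⟨u0⟩ × Vp0` -/
def Up0 : Subgroup A12 := closure {u0, v1, v2}
/-- `⟨u0⟩ × V30` -/
def Um0 : Subgroup A12 := closure {u0, t0, s0}

theorem mem3 {a b c y : A12} (h : y ∈ [1, a, b, c, a * b, a * c, b * c, a * b * c]) :
    y ∈ closure {a, b, c} := by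
  have ha : a ∈ closure {a, b, c} := subset_closure (by simp)
  have hb : b ∈ closure {a, b, c} := subset_closure (by simp)
  have hc : c ∈ closure {a, b, c} := subset_closure (by simp)
  simp only [List.mem_cons, List.not_mem_nil, or_false] at h
  rcases h with rfl | rfl | rfl | rfl | rfl | rfl | rfl | rfl
  exacts [one_mem _, ha, hb, hc, mul_mem ha hb, mul_mem ha hc, mul_mem hb hc,
    mul_mem (mul_mem ha hb) hc]

theorem conj_dd (γ : A12) {a b c e : Pt} (h1 : a ≠ b) (h2 : c ≠ e) (i : Pt) :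
    (γ * dd a b c e h1 h2 * γ⁻¹).1 i = swap (γ.1 a) (γ.1 b) (swap (γ.1 c) (γ.1 e) i) := by
  rw [Equiv.swap_apply_apply, Equiv.swap_apply_apply]
  simp [dd]

theorem n1a : ∀ a, fu a ≠ a → ∀ b, fu b ≠ b → a ≠ b → a ≠ fu b →
    ∃ y ∈ [1, u0, v1, v2, u0 * v1, u0 * v2, v1 * v2, u0 * v1 * v2],
      ∀ i, swap a (fu a) (swap b (fu b) i) = (y : A12).1 i := by decide +kernel

theorem n2a : ∀ a, fu a = a → ∀ b, fu b = b → a ≠ b → ∀ c, fu c = c → a ≠ c → b ≠ c →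
    ∀ e, fu e = e → a ≠ e → b ≠ e → c ≠ e →
    ∃ y ∈ [1, u0, t0, s0, u0 * t0, u0 * s0, t0 * s0, u0 * t0 * s0],
      ∀ i, swap a b (swap c e i) = (y : A12).1 i := by decide +kernel

theorem norm_of {γ : A12} {s : Set A12} (h : ∀ y ∈ s, γ * y * γ⁻¹ ∈ closure s) :
    γ ∈ normalizer (closure s : Set A12) :=
  mem_normalizer_fintype fun _ hn =>
    (closure_le ((closure s).comap (MulAut.conj γ).toMonoidHom)).2 h hn

theorem norm_Up0 {γ : A12} (hu : γ * u0 = u0 * γ) : γ ∈ normalizer (Up0 : Set A12) := by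
  have au := ap_comm u0_ap hu
  have key : ∀ (a c : Pt) (h1 : a ≠ fu a) (h2 : c ≠ fu c), a ≠ c → a ≠ fu c →
      γ * dd a (fu a) c (fu c) h1 h2 * γ⁻¹ ∈ Up0 := fun a c h1 h2 h3 h4 => by
    obtain ⟨y, hy, e⟩ := n1a _ (moved u0_ap hu h1.symm) _ (moved u0_ap hu h2.symm)
      (γ.1.injective.ne h3) (au c ▸ γ.1.injective.ne h4)
    have : γ * dd a (fu a) c (fu c) h1 h2 * γ⁻¹ = y := ext12 fun i => by rw [conj_dd, au, au, e]
    exact this ▸ mem3 hy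
  refine norm_of ?_
  rintro _ (rfl | rfl | rfl)
  · rw [hu, mul_inv_cancel_right]
    exact subset_closure (by simp)
  · exact key 0 2 (by decide) (by decide) (by decide) (by decide)
  · exact key 2 4 (by decide) (by decide) (by decide) (by decide)

theorem norm_Um0 {γ : A12} (hu : γ * u0 = u0 * γ) : γ ∈ normalizer (Um0 : Set A12) := by
  have key : ∀ (a b c e : Pt) (h1 : a ≠ b) (h2 : c ≠ e), fu a = a → fu b = b → fu c = c →
      fu e = e → a ≠ c → b ≠ c → a ≠ e → b ≠ e → γ * dd a b c e h1 h2 * γ⁻¹ ∈ Um0 :=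
    fun a b c e h1 h2 k1 k2 k3 k4 h3 h4 h5 h6 => by
    have n := @Function.Injective.ne _ _ _ γ.1.injective
    obtain ⟨y, hy, e'⟩ := n2a _ (fixed u0_ap hu k1) _ (fixed u0_ap hu k2) (n h1)
      _ (fixed u0_ap hu k3) (n h3) (n h4) _ (fixed u0_ap hu k4) (n h5) (n h6) (n h2)
    have : γ * dd a b c e h1 h2 * γ⁻¹ = y := ext12 fun i => by rw [conj_dd, e']
    exact this ▸ mem3 hy
  refine norm_of ?_
  rintro _ (rfl | rfl | rfl)
  · rw [hu, mul_inv_cancel_right]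
    exact subset_closure (by simp)
  · exact key 8 9 10 11 _ _ rfl rfl rfl rfl (by decide) (by decide) (by decide) (by decide)
  · exact key 8 10 9 11 _ _ rfl rfl rfl rfl (by decide) (by decide) (by decide) (by decide)

theorem f8a : ∀ f, ft f ≠ f → ∀ a, fu a ≠ a →
    ∀ g, g = tb [a, fu a, g2 a, fu (g2 a), g4 a, fu (g4 a), g2 (g4 a), fu (g2 (g4 a)), f, ft f,
      fs f, fs (ft f)] → (∀ i, g (v1.1 i) = v1.1 (g i)) → (∀ i, g (v2.1 i) = v2.1 (g i)) →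
      ∃ y ∈ [1, u0, t0, s0, u0 * t0, u0 * s0, t0 * s0, u0 * t0 * s0], ∀ i, g i = (y : A12).1 i := by
  simp only [forall_eq]
  decide +kernel

theorem f8 {γ : A12} (h : ∀ e ∈ Ep0, γ * e = e * γ) (ht : γ * t0 = t0 * γ)
    (hs : γ * s0 = s0 * γ) : γ ∈ Um0 := by
  have hu := h _ u0_mem
  have au := ap_comm u0_ap hu
  have at' := ap_comm t0_ap ht
  have as := ap_comm s0_ap hs
  have a2 := ap_comm x2_ap (h _ (gen_mem _ (by simp)))
  have a4 := ap_comm x4_ap (h _ (gen_mem _ (by simp)))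
  obtain ⟨y, hy, e⟩ := f8a _ (moved t0_ap ht (i := 8) (by decide))
    _ (moved u0_ap hu (i := 0) (by decide)) γ.1
    (eq_tb (by simp only [← au, ← at', ← as, ← a2, ← a4]; rfl))
    (ap_comm (fun _ => rfl) (h v1 (gen_mem _ (by simp))))
    (ap_comm (fun _ => rfl) (h v2 (gen_mem _ (by simp))))
  exact ext12 e ▸ mem3 hy

end Cfsg.Agent.H67.HnE
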