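import Cfsg.Agent.H26.K64Defs

/-! The exceptional configuration does not occur for two central involutions. -/

set_option autoImplicit false

namespace Cfsg.Agent.H67.K64Bad

open Subgroup Cfsg.Agent.H26.K64

universe u

variable {G : Type u} [Group G] {P Q Q₁ Q₂ : Subgroup G} {a y z z₁ z₂ : G}

theorem gen3 {H : Subgroup G} (h1 : a ∈ H) (h2 : y * a * y⁻¹ ∈ H) (h3 : y * y ∈ H) {x : G}
    (hx : x ∈ closure ({a, y} : Set G)) : x ∈ H ∨ y * x ∈ H := by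
  induction hx using closure_induction_left with
  | one => exact .inl (one_mem _)
  | mul_left s hs x _ ih =>
    rcases hs with rfl | rfl
    · exact ih.imp (mul_mem h1) fun k => by simpa [mul_assoc] using mul_mem h2 k
    · exact ih.symm.imp id fun k => by simpa [mul_assoc] using mul_mem h3 k
  | inv_mul_cancel s hs x _ ih =>
    rcases hs with rfl | rfl
    · exact ih.imp (mul_mem (inv_mem h1)) fun k => by simpa [mul_assoc] using mul_mem (inv_mem h2) k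
    · exact ih.symm.imp (fun k => by simpa [mul_assoc] using mul_mem (inv_mem h3) k)
        fun k => by simpa using k

theorem mem2 (B : Bad P Q z) {s t : G} (hs : s ∈ P) (ht : t ∈ P) : s * t ∈ Q ↔ (s ∈ Q ↔ t ∈ Q) :=
  mul_mem_iff_of_index_two (H := Q.subgroupOf P) B.idx (a := ⟨s, hs⟩) (b := ⟨t, ht⟩)

theorem conj_mem (B : Bad P Q z) {s t : G} (hs : s ∈ P) (ht : t ∈ Q) : s * t * s⁻¹ ∈ Q := by
  rw [mem2 B (mul_mem hs (B.le ht)) (inv_mem hs), mem2 B hs (B.le ht), inv_mem_iff]; tauto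

theorem z_ne (B : Bad P Q z) : z ≠ 1 := by
  rintro rfl
  obtain ⟨a, ha, b, hb, n⟩ := B.na
  simpa [n] using B.comm a ha b hb

theorem notab (hP : closure ({a, y} : Set G) = P) (B : Bad P Q z) (ha : a ∈ Q) (hy : y ∉ Q)
    (c1 : Commute a (y * a * y⁻¹)) (c2 : Commute a (y * y)) : False := by
  have yP : y ∈ P := hP ▸ subset_closure (by simp)
  have m2 := conj_mem B yP ha
  have m3 : y * y ∈ Q := (mem2 B yP yP).2 Iff.rfl
  have k : ∀ b, Commute b a → Commute b (y * a * y⁻¹) → Commute b (y * y) → ∀ x ∈ Q, Commute b x :=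
    fun b h1 h2 h3 x hx => by
      have m : ∀ {s}, Commute b s → s ∈ centralizer ({b} : Set G) := fun k =>
        mem_centralizer_singleton_iff.2 k.symm
      rcases gen3 (H := Q ⊓ centralizer {b}) ⟨ha, m h1⟩ ⟨m2, m h2⟩ ⟨m3, m h3⟩
        (hP ▸ B.le hx) with k | k
      · exact (mem_centralizer_singleton_iff.1 k.2).symm
      · exact absurd ((mul_mem_cancel_right hx).1 k.1) hy
  have c3 : Commute (y * a * y⁻¹) (y * y) := by simpa [mul_assoc] using c2.conj y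
  obtain ⟨s, hs, t, ht, n⟩ := B.na
  exact n (k s (k a rfl c1 c2 s hs).symm (k _ c1.symm rfl c3 s hs).symm
    (k _ c2.symm c3.symm rfl s hs).symm t ht)

theorem cj (B : Bad P Q z) (C : Cen P z) {s t : G} (hs : s ∈ Q) (ht : t ∈ Q) :
    s * t * s⁻¹ = t ∨ s * t * s⁻¹ = t * z :=
  (B.comm s hs t ht).imp (fun e => by rw [e, mul_inv_cancel_right]) fun e => by
    rw [e, mul_assoc t, C.2 s (B.le hs), ← mul_assoc, mul_inv_cancel_right]

theorem main (hP : closure ({a, y} : Set G) = P) (C₁ : Cen P z₁) (C₂ : Cen P z₂) (ne : z₁ ≠ z₂)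
    (sq : ∀ w, Cen P w → w * w = 1) (B₁ : Bad P Q₁ z₁) (B₂ : Bad P Q₂ z₂) (a1 : a ∈ Q₁) (a2 : a ∉ Q₂)
    (y1 : y ∉ Q₁) (y2 : y ∈ Q₂) : False := by
  have aP := B₁.le a1
  have yP := B₂.le y2
  have n1 := z_ne B₁
  have n2 := z_ne B₂
  have ab : ∀ s t, s ∈ Q₁ → s ∈ Q₂ → t ∈ Q₁ → t ∈ Q₂ → Commute s t := fun s t h1 h2 h3 h4 =>
    (B₁.comm s h1 t h3).elim id fun e => (B₂.comm s h2 t h4).elim id fun e' =>
      absurd (mul_left_cancel (e.symm.trans e')) ne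
  obtain ⟨u, hu⟩ : ∃ u, y * a * y⁻¹ = u * a := ⟨y * a * y⁻¹ * a⁻¹, by group⟩
  have hu' : a * y * a⁻¹ = u⁻¹ * y := by rw [eq_mul_inv_iff_mul_eq.2 hu.symm]; group
  have u1 : u ∈ Q₁ := (mul_mem_cancel_right a1).1 (hu ▸ conj_mem B₁ yP a1)
  have u2 : u ∈ Q₂ := inv_mem_iff.1 ((mul_mem_cancel_right y2).1 (hu' ▸ conj_mem B₂ aP y2))
  have s1 : y * y ∈ Q₁ := (mem2 B₁ yP yP).2 Iff.rfl
  have s2 : a * a ∈ Q₂ := (mem2 B₂ aP aP).2 Iff.rfl
  have uP := B₁.le u1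
  have e1 : y * (a * a) * y⁻¹ = u * (a * u * a⁻¹) * (a * a) := by
    rw [show y * (a * a) * y⁻¹ = y * a * y⁻¹ * (y * a * y⁻¹) by group, hu]; group
  have e2 : y * y * a * (y * y)⁻¹ = y * u * y⁻¹ * u * a := by
    rw [show y * y * a * (y * y)⁻¹ = y * (y * a * y⁻¹) * y⁻¹ by
      simp only [mul_assoc, mul_inv_rev], hu, mul_assoc _ u, ← hu]
    nth_rw 1 [hu]
    group
  have N1 : a * u * a⁻¹ = u → y * y * a * (y * y)⁻¹ = a → False := fun h1 h2 =>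
    notab hP B₁ a1 y1 (hu ▸ Commute.mul_right (mul_inv_eq_iff_eq_mul.1 h1) rfl)
      (mul_inv_eq_iff_eq_mul.1 h2).symm
  have N2 : y * u * y⁻¹ = u → y * (a * a) * y⁻¹ = a * a → False := fun h1 h2 =>
    notab ((Set.pair_comm y a).symm ▸ hP) B₂ y2 a2 (hu' ▸ Commute.mul_right
      (Commute.inv_right (mul_inv_eq_iff_eq_mul.1 h1)) rfl) (mul_inv_eq_iff_eq_mul.1 h2)
  have key : a * u * a⁻¹ = u * z₁ ∧ y * u * y⁻¹ = u * z₂ ∧ y * (a * a) * y⁻¹ = a * a * z₂ ∧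
      y * y * a * (y * y)⁻¹ = a * z₁ ∧ u * u = z₁ * z₂ := by
    have t1 := B₁.two
    have t2 := B₂.two
    have c12 := C₂.2 _ C₁.1
    have i1 : z₁⁻¹ = z₁ := inv_eq_of_mul_eq_one_left t1
    have i2 : z₂⁻¹ = z₂ := inv_eq_of_mul_eq_one_left t2
    have f1 : (u * u = 1 ∧ a * u * a⁻¹ = u ∧ y * (a * a) * y⁻¹ = a * a) ∨
        (u * u = z₂ ∧ a * u * a⁻¹ = u) ∨ (u * u = z₁ ∧ y * (a * a) * y⁻¹ = a * a) ∨
        (u * u = z₁ * z₂ ∧ a * u * a⁻¹ = u * z₁ ∧ y * (a * a) * y⁻¹ = a * a * z₂) := by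
      rcases cj B₁ C₁ a1 u1 with h1 | h1 <;> rcases cj B₂ C₂ y2 s2 with h3 | h3 <;> rw [h1, h3] at e1
      · exact .inl ⟨(right_eq_mul.1 e1), h1, h3⟩
      · rw [C₂.2 _ (mul_mem aP aP), mul_left_inj] at e1
        exact .inr (.inl ⟨e1.symm, h1⟩)
      · rw [right_eq_mul, ← mul_assoc, mul_eq_one_iff_eq_inv, i1] at e1
        exact .inr (.inr (.inl ⟨e1, h3⟩))
      · rw [C₂.2 _ (mul_mem aP aP), mul_left_inj, ← mul_assoc, ← mul_inv_eq_iff_eq_mul, i1, ← c12] at e1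
        exact .inr (.inr (.inr ⟨e1.symm, h1, h3⟩))
    have f2 : (u * u = 1 ∧ y * u * y⁻¹ = u ∧ y * y * a * (y * y)⁻¹ = a) ∨
        (u * u = z₁ ∧ y * u * y⁻¹ = u) ∨ (u * u = z₂ ∧ y * y * a * (y * y)⁻¹ = a) ∨
        (u * u = z₁ * z₂ ∧ y * u * y⁻¹ = u * z₂ ∧ y * y * a * (y * y)⁻¹ = a * z₁) := by
      rcases cj B₂ C₂ y2 u2 with h1 | h1 <;> rcases cj B₁ C₁ s1 a1 with h3 | h3 <;> rw [h1, h3] at e2
      · exact .inl ⟨(right_eq_mul.1 e2), h1, h3⟩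
      · rw [C₁.2 _ aP, mul_left_inj] at e2
        exact .inr (.inl ⟨e2.symm, h1⟩)
      · rw [right_eq_mul, mul_assoc, ← C₂.2 _ uP, ← mul_assoc, mul_eq_one_iff_eq_inv, i2] at e2
        exact .inr (.inr (.inl ⟨e2, h3⟩))
      · rw [C₁.2 _ aP, mul_left_inj, mul_assoc, ← C₂.2 _ uP, ← mul_assoc, ← mul_inv_eq_iff_eq_mul,
          i2] at e2
        exact .inr (.inr (.inr ⟨e2.symm, h1, h3⟩))
    have n3 : z₁ * z₂ ≠ 1 := fun e => ne (mul_right_cancel (e.trans t2.symm))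
    have n4 : z₁ * z₂ ≠ z₁ := fun e => n2 (mul_eq_left.1 e)
    have n5 : z₁ * z₂ ≠ z₂ := fun e => n1 (mul_eq_right.1 e)
    rcases f1 with ⟨k, k1, k2⟩ | ⟨k, k1⟩ | ⟨k, k1⟩ | ⟨k, k1, k2⟩ <;>
      rcases f2 with ⟨l, l1, l2⟩ | ⟨l, l1⟩ | ⟨l, l1⟩ | ⟨l, l1, l2⟩ <;>
      first
      | exact ⟨k1, l1, k2, l2, k⟩
      | exact (N1 k1 l2).elim
      | exact (N1 k1 l1).elim
      | exact (N2 l1 k1).elim
      | exact absurd (k.symm.trans l) (by first | assumption | (apply Ne.symm; assumption))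
  obtain ⟨h1, h2, h3, h4, h5⟩ := key
  have cw : ∀ x ∈ P, x * (u * (a * a) * (y * y)) = u * (a * a) * (y * y) * x := fun x hx => by
    rw [← hP] at hx
    refine (closure_le (centralizer {u * (a * a) * (y * y)})).2 ?_ hx _ rfl |>.symm
    rintro x (rfl | rfl) <;> refine mem_centralizer_singleton_iff.2 ?_
    · have e : x * (y * y) * x⁻¹ = z₁ * (y * y) := by
        rw [← mul_left_inj x, inv_mul_cancel_right, mul_assoc z₁, mul_inv_eq_iff_eq_mul.1 h4,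
          C₁.2 _ aP, ← mul_assoc z₁, ← mul_assoc z₁, B₁.two, one_mul]
      rw [← mul_inv_eq_iff_eq_mul, show x * (u * (x * x) * (y * y)) * x⁻¹ =
        x * u * x⁻¹ * (x * x) * (x * (y * y) * x⁻¹) by group, h1, e, mul_assoc u, ← C₁.2 _ (mul_mem aP aP),
        mul_assoc, mul_assoc _ z₁, ← mul_assoc z₁, B₁.two, one_mul, ← mul_assoc]
    · rw [← mul_inv_eq_iff_eq_mul, show x * (u * (a * a) * (x * x)) * x⁻¹ =
        x * u * x⁻¹ * (x * (a * a) * x⁻¹) * (x * x) by group, h2, h3, C₂.2 _ (mul_mem aP aP),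
        mul_assoc u, ← mul_assoc z₂, B₂.two, one_mul]
  have := sq _ ⟨mul_mem (mul_mem uP (mul_mem aP aP)) (mul_mem yP yP), cw⟩
  have c1 := ab _ _ u1 u2 (mul_mem a1 a1) s2
  have c2 := ab _ _ u1 u2 s1 (mul_mem y2 y2)
  have c3 := ab _ _ (mul_mem a1 a1) s2 s1 (mul_mem y2 y2)
  rw [← pow_two, (c2.mul_left c3).mul_pow, c1.mul_pow, ← pow_two a, ← pow_two y, ← pow_mul, ← pow_mul,
    B₁.exp a a1, B₂.exp y y2, mul_one, mul_one, pow_two, h5] at this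
  exact ne (mul_right_cancel (this.trans B₂.two.symm))

theorem bad2 : Bad2.{u} := by
  rintro G _ _ P Q₁ Q₂ z₁ z₂ ⟨p, hp, q, hq, hP⟩ C₁ C₂ ne sq B₁ B₂
  have all : ∀ {Q z}, Bad P Q z → p ∈ Q → q ∈ Q → False := fun {Q z} B h1 h2 => by
    have := relIndex_eq_one.2 (hP ▸ (closure_le Q).2 (by rintro _ (rfl | rfl) <;> assumption) : P ≤ Q)
    rw [B.idx] at this
    exact absurd this (by decide)
  have nn : ¬ ((p ∈ Q₁ ↔ p ∈ Q₂) ∧ (q ∈ Q₁ ↔ q ∈ Q₂)) := fun ⟨h1, h2⟩ => by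
    have k : ∀ x ∈ P, x ∈ Q₁ ↔ x ∈ Q₂ := fun x hx => by
      subst hP
      induction hx using closure_induction with
      | mem x k => rcases k with rfl | rfl <;> assumption
      | one => simp
      | mul s t hs ht i1 i2 => rw [mem2 B₁ hs ht, mem2 B₂ hs ht, i1, i2]
      | inv s hs i => rw [inv_mem_iff, inv_mem_iff, i]
    obtain ⟨s, hs, t, ht, n⟩ := B₁.na
    exact ne (mul_left_cancel (((B₁.comm s hs t ht).resolve_left n).symm.trans
      ((B₂.comm s ((k s (B₁.le hs)).1 hs) t ((k t (B₁.le ht)).1 ht)).resolve_left n)))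
  have g : ∀ s, s ∈ P → (∀ H : Subgroup G, s ∈ H → p * q ∈ H → p ∈ H ∧ q ∈ H) →
      closure ({s, p * q} : Set G) = P := fun s hs k => by
    refine le_antisymm ((closure_le _).2 ?_) (hP ▸ (closure_le _).2 ?_)
    · rintro _ (rfl | rfl)
      exacts [hs, mul_mem hp hq]
    · obtain ⟨k1, k2⟩ := k (closure {s, p * q}) (subset_closure (by simp)) (subset_closure (by simp))
      rintro _ (rfl | rfl) <;> assumption
  have g1 := g p hp fun H h1 h2 => ⟨h1, (mul_mem_cancel_left h1).1 h2⟩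
  have g2 := g q hq fun H h1 h2 => ⟨(mul_mem_cancel_right h1).1 h2, h1⟩
  have M := fun {a y} (h : closure ({a, y} : Set G) = P) => main h C₁ C₂ ne sq B₁ B₂
  have M' := fun {a y} (h : closure ({a, y} : Set G) = P) => M ((Set.pair_comm y a).symm ▸ h)
  have k1 := all B₁
  have k2 := all B₂
  have k3 := M hP
  have k4 := M' hP
  have k5 := M g1
  have k6 := M' g1
  have k7 := M g2
  have k8 := M' g2
  rw [mem2 B₁ hp hq, mem2 B₂ hp hq] at k5 k6 k7 k8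
  by_cases p ∈ Q₁ <;> by_cases p ∈ Q₂ <;> by_cases q ∈ Q₁ <;> by_cases q ∈ Q₂ <;> simp_all only
    [iff_true, iff_false, not_true, not_false_iff, forall_true_left, and_self, IsEmpty.forall_iff]

end Cfsg.Agent.H67.K64Bad
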