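import Mathlib
import Cfsg.Agent.H89.L27Defs
import Cfsg.Agent.H28.Transport
import Cfsg.Agent.H52.FStar

/-! The embedding of `L₂(7)` as generalized Fitting subgroup. -/

set_option autoImplicit false

namespace Cfsg.Agent.H67.L27Emb

open Cfsg Subgroup Cfsg.Agent.H89.L27
open scoped Matrix MatrixGroups

universe u

theorem sq7 : ∀ r : ZMod 7, r ^ 2 = 1 → r = 1 ∨ r = -1 := by decide

theorem mem_center7 (g : S7) : g ∈ center S7 ↔ g = 1 ∨ g = -1 := by
  constructor
  · intro h
    obtain ⟨r, hr, e⟩ := Matrix.SpecialLinearGroup.mem_center_iff.1 h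
    rw [Fintype.card_fin] at hr
    rcases sq7 r hr with rfl | rfl
    · left; apply Subtype.ext; rw [← e]; simp
    · right; apply Subtype.ext; rw [← e, map_neg, map_one]; rfl
  · rintro (rfl | rfl)
    · exact one_mem _
    · exact mem_center_iff.2 fun g => by simp

theorem fin7 : ∀ a b c d : ZMod 7, a * d - b * c = 1 →
    (!![a, b; c, d] * ex.1 = ex.1 * !![a, b; c, d] ∨
      !![a, b; c, d] * ex.1 = -(ex.1 * !![a, b; c, d])) →
    (!![a, b; c, d] * es.1 = es.1 * !![a, b; c, d] ∨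
      !![a, b; c, d] * es.1 = -(es.1 * !![a, b; c, d])) →
    !![a, b; c, d] = 1 ∨ !![a, b; c, d] = -1 := by decide +kernel

theorem cen7 (g : S7) (h1 : g * ex = ex * g ∨ g * ex = -(ex * g))
    (h2 : g * es = es * g ∨ g * es = -(es * g)) : g = 1 ∨ g = -1 := by
  have hd := g.det_coe
  rw [Matrix.det_fin_two] at hd
  have key := fin7 (g.1 0 0) (g.1 0 1) (g.1 1 0) (g.1 1 1) hd
  rw [← Matrix.eta_fin_two g.1] at key
  exact (key (h1.imp (congrArg Subtype.val) (congrArg Subtype.val))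
    (h2.imp (congrArg Subtype.val) (congrArg Subtype.val))).imp Subtype.ext Subtype.ext

theorem emb : EmbStmt.{u} := by
  rintro F _ _ hF H _ _ ⟨e⟩
  haveI := H52.fstar_normal (G := H)
  let e7 : PSL(2, ZMod 7) ≃* PSL(2, F) :=
    H28.pslEquiv (ZMod.ringEquivOfPrime F (by norm_num) hF) (Fin 2)
  let ψ : PSL(2, ZMod 7) ≃* generalizedFittingSubgroup H := e7.trans e.symm
  let φ : S7 →* H := ((generalizedFittingSubgroup H).subtype.comp ψ.toMonoidHom).comp
    (QuotientGroup.mk' (center S7))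
  have h1 : ∀ g, φ g = 1 ↔ g = 1 ∨ g = -1 := fun g => by
    rw [← mem_center7, ← QuotientGroup.eq_one_iff, ← map_eq_one_iff ψ ψ.injective]
    exact OneMemClass.coe_eq_one
  have h2 : φ.range = generalizedFittingSubgroup H := by
    refine le_antisymm ?_ fun x hx => ?_
    · rintro _ ⟨g, rfl⟩
      exact (ψ _).2
    · obtain ⟨y, hy⟩ := ψ.surjective ⟨x, hx⟩
      obtain ⟨g, rfl⟩ := QuotientGroup.mk'_surjective (center S7) y
      exact ⟨g, congrArg Subtype.val hy⟩
  refine ⟨φ, h1, h2 ▸ inferInstance, fun h hh => ?_⟩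
  have h3 : h ∈ centralizer ((generalizedFittingSubgroup H : Subgroup H) : Set H) := by
    rw [← h2]
    rintro _ ⟨g, rfl⟩
    exact (hh g).eq.symm
  obtain ⟨g, rfl⟩ : h ∈ φ.range := h2 ▸ H52.centralizer_fstar_le h3
  have key : ∀ a : S7, g * a = a * g ∨ g * a = -(a * g) := fun a => by
    have h4 : φ (g * a * (a * g)⁻¹) = 1 := by
      rw [map_mul, map_inv, map_mul, map_mul, (hh a).eq, mul_inv_cancel]
    refine ((h1 _).1 h4).imp (fun h => mul_inv_eq_one.1 h) fun h => ?_
    rw [mul_inv_eq_iff_eq_mul.1 h, neg_mul, one_mul]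
  exact (h1 g).2 (cen7 g (key ex) (key es))

end Cfsg.Agent.H67.L27Emb
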