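import Cfsg.Agent.H42.N7Defs
import Cfsg.Agent.H95.AutAlt

/-! The action of `N(A)` on `A / Z(A) ≅ A₇`, a Frobenius group of order `21`, and the case `S₉`. -/

set_option autoImplicit false

namespace Cfsg.Agent.H67.N7Rho

open Subgroup Equiv Cfsg.Agent.H42.N7
open scoped commutatorElement

universe u

variable {G : Type u} [Group G]

/-- The normalizer of a central extension of an alternating group acts through the symmetric
group. -/
theorem exists_hom {α : Type} [Fintype α] [DecidableEq α] (h4 : 4 ≤ Fintype.card α)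
    (h6 : Fintype.card α ≠ 6) (A : Subgroup G) (e : A ⧸ center A ≃* alternatingGroup α) :
    ∃ ρ : normalizer (A : Set G) →* Perm α,
      (∀ c a, (e (A.normalizerMonoidHom c a : A) : Perm α) = ρ c * e (a : A) * (ρ c)⁻¹) ∧
      ∀ a : A, ρ ⟨a, le_normalizer a.2⟩ = e a := by
  have ex : ∀ c : normalizer (A : Set G), ∃ r : Perm α, ∀ a : A,
      (e (A.normalizerMonoidHom c a : A) : Perm α) = r * e (a : A) * r⁻¹ := fun c => by
    have hc : (center A).map (A.normalizerMonoidHom c : A →* A) = center A :=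
      characteristic_iff_map_eq.1 inferInstance _
    obtain ⟨r, hr⟩ := H95.AutAlt.exists_conj h4 h6
      ((e.symm.trans (QuotientGroup.congr _ _ (A.normalizerMonoidHom c) hc)).trans e)
    exact ⟨r, fun a => by simpa [QuotientGroup.congr_mk] using hr (e a)⟩
  have uq : ∀ r r' : Perm α, (∀ a : A, r * e (a : A) * r⁻¹ = r' * e (a : A) * r'⁻¹) → r = r' :=
    fun r r' h => by
      refine (inv_mul_eq_one.1 (H95.AutAlt.eq_one_of_comm h4 fun g hg => ?_)).symm
      obtain ⟨q, hq⟩ := e.surjective ⟨g, hg⟩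
      obtain ⟨a, rfl⟩ := QuotientGroup.mk_surjective q
      have := h a
      rw [hq] at this
      calc r'⁻¹ * r * g * (r'⁻¹ * r)⁻¹ = r'⁻¹ * (r * g * r⁻¹) * r' := by group
        _ = g := by rw [this]; group
  choose r hr using ex
  refine ⟨MonoidHom.mk' r fun c d => uq _ _ fun a => ?_, hr, fun a => uq _ _ fun b => ?_⟩
  · rw [← hr, map_mul, MulAut.mul_apply, hr, hr]; group
  · rw [MonoidHom.mk'_apply, ← hr,
      show A.normalizerMonoidHom ⟨a, le_normalizer a.2⟩ b = a * b * a⁻¹ from Subtype.ext rfl]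
    simp

theorem rho : RhoStmt.{u} := by
  intro G _ _ A hA hZ ⟨e⟩
  classical
  obtain ⟨ρ, h1, h2⟩ := exists_hom (by simp) (by simp) A e
  have hp : commutator A = ⊤ := hA.1.commutator_eq_top
  have ev : ∀ c (hc : c ∈ normalizer (A : Set G)),
      (if h : c ∈ normalizer (A : Set G) then ρ ⟨c, h⟩ else 1) = ρ ⟨c, hc⟩ := fun c hc => dif_pos hc
  have k : ∀ a : A, (e a : Perm (Fin 7)) = 1 ↔ a ∈ center A := fun a => by
    rw [OneMemClass.coe_eq_one, map_eq_one_iff e e.injective, QuotientGroup.eq_one_iff]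
  refine ⟨fun c => if h : c ∈ normalizer (A : Set G) then ρ ⟨c, h⟩ else 1, le_normalizer, le_rfl,
    ?_, fun c hc d hd => ?_, fun c hc => ?_, fun a ha => ?_, fun σ hσ => ?_, fun a ha h => ?_⟩
  · rw [← map_subtype_commutator, hp, ← MonoidHom.range_eq_map, range_subtype]
  · rw [ev c hc, ev d hd, ev _ (mul_mem hc hd), ← map_mul]; rfl
  · rw [ev c hc]
    set φ := A.normalizerMonoidHom ⟨c, hc⟩ with hφ
    have : c ∈ centralizer (A : Set G) ↔ φ = 1 := by
      rw [hφ, ← MonoidHom.mem_ker, normalizerMonoidHom_ker, mem_subgroupOf]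
    rw [this]
    refine ⟨fun h => ?_, fun h => H95.AutAlt.eq_one_of_comm (by simp) fun g hg => ?_⟩
    · have z : ∀ a : A, ∃ z ∈ center A, φ a = a * z := fun a => ⟨a⁻¹ * φ a, (k _).1 (by
        rw [QuotientGroup.mk_mul, QuotientGroup.mk_inv, map_mul, map_inv, Subgroup.coe_mul,
          Subgroup.coe_inv, hφ, h1, h]; simp), by group⟩
      have : commutator A ≤ (φ : A →* A).eqLocus (MonoidHom.id A) := by
        rw [commutator_def, commutator_le]
        intro a _ b _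
        obtain ⟨y, hy, ha⟩ := z a
        obtain ⟨w, hw, hb⟩ := z b
        show φ ⁅a, b⁆ = ⁅a, b⁆
        rw [map_commutatorElement, ha, hb]
        have c1 : ∀ g, g * y = y * g := mem_center_iff.1 hy
        have c2 : ∀ g, g * w = w * g := mem_center_iff.1 hw
        calc ⁅a * y, b * w⁆ = a * (y * (b * w)) * y⁻¹ * (a⁻¹ * w⁻¹) * b⁻¹ := by
              rw [commutatorElement_def]; group
          _ = a * (b * (w * a⁻¹)) * w⁻¹ * b⁻¹ := by rw [← c1]; group
          _ = ⁅a, b⁆ := by rw [← c2, commutatorElement_def]; group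
      exact MulEquiv.ext fun a => this (hp ▸ mem_top a)
    · obtain ⟨q, hq⟩ := e.surjective ⟨g, hg⟩
      obtain ⟨a, rfl⟩ := QuotientGroup.mk_surjective q
      have := h1 ⟨c, hc⟩ a
      rw [← hφ, h, MulAut.one_apply, hq] at this
      exact this.symm
  · rw [ev a (le_normalizer ha), h2 ⟨a, ha⟩]
    exact Perm.mem_alternatingGroup.1 (e _).2
  · obtain ⟨q, hq⟩ := e.surjective ⟨σ, Perm.mem_alternatingGroup.2 hσ⟩
    obtain ⟨a, rfl⟩ := QuotientGroup.mk_surjective q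
    exact ⟨a, a.2, by rw [ev _ (le_normalizer a.2), h2, hq]⟩
  · rw [ev a (le_normalizer ha), h2 ⟨a, ha⟩, k] at h
    rw [← orderOf_mk a ha, ← orderOf_mk _ h]
    exact hZ.of_dvd_nat (orderOf_dvd_natCard _)

theorem frob : FrobStmt.{u} := by
  intro G _ _ A N ρ h
  let r : N →* Perm (Fin 7) := MonoidHom.mk' (fun c => ρ c) fun c d => h.mul c c.2 d d.2
  obtain ⟨x, hx, e1⟩ := h.srj (swap 0 1 * swap 1 2 * swap 2 3 * swap 3 4 * swap 4 5 * swap 5 6)
    (by simp)
  obtain ⟨g, hg, e2⟩ := h.srj (swap 1 4 * swap 4 2 * (swap 3 5 * swap 5 6)) (by simp)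
  have k : ∀ c : N, r c = 1 → ∀ a ∈ A, Commute a c := fun c hc a ha =>
    mem_centralizer_iff.1 ((h.ker c c.2).1 hc) a ha
  have f1 : r ⟨x, h.AN hx⟩ = _ := e1
  have f2 : r ⟨g, h.AN hg⟩ = _ := e2
  have z := k ((⟨x, h.AN hx⟩ ^ 2)⁻¹ * (⟨g, h.AN hg⟩⁻¹ * ⟨x, h.AN hx⟩ * ⟨g, h.AN hg⟩)) (by
    simp only [map_mul, map_inv, map_pow, f1, f2]; decide +kernel)
  have z3 := k (⟨g, h.AN hg⟩ ^ 3) (by simp only [map_pow, f2]; decide +kernel)
  have r1 : r (⟨x, h.AN hx⟩ *
      ((⟨x, h.AN hx⟩ ^ 2)⁻¹ * (⟨g, h.AN hg⟩⁻¹ * ⟨x, h.AN hx⟩ * ⟨g, h.AN hg⟩))) ≠ 1 := by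
    simp only [map_mul, map_inv, map_pow, f1, f2]; decide +kernel
  simp only [Subgroup.coe_mul, Subgroup.coe_inv, Subgroup.coe_pow] at z z3
  have hz : (x ^ 2)⁻¹ * (g⁻¹ * x * g) ∈ A :=
    mul_mem (inv_mem (pow_mem hx 2)) (mul_mem (mul_mem (inv_mem hg) hx) hg)
  have y1 : x * ((x ^ 2)⁻¹ * (g⁻¹ * x * g)) ≠ 1 := fun e =>
    r1 ((congrArg r (Subtype.ext e)).trans (map_one r))
  have e3 : g⁻¹ * x * g = x ^ 2 * ((x ^ 2)⁻¹ * (g⁻¹ * x * g)) := by group
  generalize (x ^ 2)⁻¹ * (g⁻¹ * x * g) = ζ at z hz y1 e3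
  have e4 : cn (x * ζ) g = (x * ζ) ^ 2 := by
    rw [(z x hx).mul_pow, pow_two ζ, ← mul_assoc, ← e3, cn, mul_assoc _ g ζ, (z g hg).eq]; group
  have hy := mul_mem hx hz
  generalize x * ζ = y at y1 e4 hy
  refine ⟨y, hy, g, hg, ?_, e4⟩
  haveI : Fact (Nat.Prime 7) := ⟨by norm_num⟩
  refine orderOf_eq_prime ?_ y1
  have e5 : ∀ n : ℕ, g⁻¹ * y ^ n * g = y ^ (2 * n) := fun n => by
    rw [pow_mul, ← e4]; simpa using (conj_pow (a := g⁻¹) (b := y) (i := n)).symm
  have e6 : (g ^ 3)⁻¹ * y * g ^ 3 = y ^ 8 := by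
    rw [show (g ^ 3)⁻¹ * y * g ^ 3 = g⁻¹ * (g⁻¹ * (g⁻¹ * y ^ 1 * g) * g) * g by
      simp only [pow_succ, pow_zero, one_mul, mul_inv_rev, mul_assoc], e5, e5, e5]
  rw [mul_assoc, (z3 y hy).eq, inv_mul_cancel_left, pow_succ y 7] at e6
  exact right_eq_mul.1 e6

theorem s9 : S9Stmt.{u} := by
  intro G _ _ X A t x g hX hC ⟨e0⟩ ht hAX hZ hx hg ho hxg
  have z0 : center X = ⊥ := by
    rw [eq_bot_iff]
    intro a ha
    have : (a : G) ∈ centralizer (X : Set G) := mem_centralizer_iff.2 fun b hb =>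
      congrArg Subtype.val (mem_center_iff.1 ha ⟨b, hb⟩)
    rw [hC] at this
    exact mem_bot.2 (Subtype.ext (mem_bot.1 this))
  let e := ((QuotientGroup.quotientMulEquivOfEq z0).trans QuotientGroup.quotientBot).trans e0
  have he : ∀ a : X, e a = e0 a := fun _ => rfl
  obtain ⟨ρ0, h1, h2⟩ := exists_hom (by simp) (by simp) X e
  have hN : ∀ c, c ∈ normalizer (X : Set G) := fun c => normalizer_eq_top X ▸ mem_top c
  let ρ : G →* Perm (Fin 9) := ρ0.comp ((MonoidHom.id G).codRestrict _ hN)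
  have r1 : ∀ a : X, ρ a = e0 a := h2
  have inj : Function.Injective ρ := by
    rw [injective_iff_map_eq_one]
    intro c hc
    have hc' : ρ0 ⟨c, hN c⟩ = 1 := hc
    refine mem_bot.1 (hC ▸ mem_centralizer_iff.2 fun a ha => ?_)
    have := h1 ⟨c, hN c⟩ ⟨a, ha⟩
    rw [hc', one_mul, inv_one, mul_one, he, he] at this
    exact (mul_inv_eq_iff_eq_mul.1 (congrArg Subtype.val (e0.injective (Subtype.ext this)))).symm
  have hm : X.map ρ = alternatingGroup (Fin 9) := by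
    refine le_antisymm ?_ fun σ hσ => ?_
    · rintro _ ⟨a, ha, rfl⟩
      exact r1 ⟨a, ha⟩ ▸ (e0 _).2
    · obtain ⟨a, ha⟩ := e0.surjective ⟨σ, hσ⟩
      exact ⟨a, a.2, by rw [r1, ha]⟩
  have t1 : ρ t ∉ alternatingGroup (Fin 9) := fun h => by
    obtain ⟨a, ha, e⟩ := hm.ge h
    exact ht (inj e ▸ ha)
  have srj : Function.Surjective ρ := fun σ => by
    by_cases h : σ ∈ alternatingGroup (Fin 9)
    · obtain ⟨a, -, e⟩ := hm.ge h
      exact ⟨a, e⟩
    · obtain ⟨a, -, e⟩ := hm.ge (show σ * (ρ t)⁻¹ ∈ alternatingGroup (Fin 9) by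
        rw [mul_mem_iff_of_index_two alternatingGroup.index_eq_two, inv_mem_iff]; tauto)
      exact ⟨a * t, by rw [map_mul, e]; group⟩
  refine ⟨⟨MulEquiv.ofBijective ρ ⟨inj, srj⟩⟩, map_injective inj ?_, ?_⟩
  · rw [hm, commutator_def, map_commutator, map_top_of_surjective ρ srj, ← commutator_def,
      alternatingGroup.commutator_perm_eq (by simp)]
  rw [eq_bot_iff]
  intro w hw
  have wx : ∀ a ∈ A, a * (w : G) = w * a := fun a ha =>
    congrArg Subtype.val (mem_center_iff.1 hw ⟨a, ha⟩)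
  have wo : Odd (orderOf (w : G)) := by
    rw [orderOf_coe, ← orderOf_mk _ hw]
    exact hZ.of_dvd_nat (orderOf_dvd_natCard _)
  have o7 : orderOf (ρ x) = 7 := by rw [orderOf_injective ρ inj, ho]
  have cyc : (ρ x).IsCycle := Perm.isCycle_of_prime_order' (by rw [o7]; norm_num) (by simp [o7])
  have ct : (ρ x).cycleType = {7} := by rw [cyc.cycleType, ← cyc.orderOf, o7]
  have c14 : Nat.card (centralizer {ρ x}) = 14 := by
    rw [Perm.nat_card_centralizer, ct]; simp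
  have le : zpowers (ρ x) ≤ centralizer {ρ x} :=
    zpowers_le.2 (mem_centralizer_singleton_iff.2 rfl)
  have i2 : ((zpowers (ρ x)).subgroupOf (centralizer {ρ x})).index = 2 := by
    have := ((zpowers (ρ x)).subgroupOf (centralizer {ρ x})).card_mul_index
    rw [c14, Nat.card_congr (subgroupOfEquivOfLe le).toEquiv, Nat.card_zpowers, o7] at this
    omega
  have w2 : w.1 ^ 2 ∈ zpowers x := by
    have := sq_mem_of_index_two i2 ⟨ρ w, mem_centralizer_singleton_iff.2 (by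
      rw [← map_mul, ← map_mul, wx x hx])⟩
    obtain ⟨k, hk⟩ := mem_subgroupOf.1 this
    exact ⟨k, inj (by simpa using hk)⟩
  obtain ⟨k, hk⟩ := w2
  have hk' : x ^ k = w.1 ^ 2 := hk
  have e1 : g⁻¹ * x ^ k * g = (x ^ k) ^ 2 := by
    rw [← zpow_natCast, ← zpow_mul, mul_comm k, zpow_mul, zpow_natCast, ← hxg]
    simpa using (conj_zpow (a := g⁻¹) (b := x) (i := k)).symm
  have cg : Commute g w.1 := wx g hg
  rw [hk', mul_assoc, ← (cg.pow_right 2).eq, inv_mul_cancel_left, pow_two (w.1 ^ 2)] at e1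
  have := Nat.Coprime.eq_one_of_dvd (Nat.coprime_two_right.2 wo)
    (orderOf_dvd_of_pow_eq_one (left_eq_mul.1 e1))
  exact mem_bot.2 (Subtype.ext (orderOf_eq_one_iff.1 this))

end Cfsg.Agent.H67.N7Rho
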