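import Cfsg.Agent.H54.O84Defs
import Cfsg.Agent.H30.OrthBridge

/-! The structure of `Ω₈⁺(4)` over its torus `5⁴`. -/

set_option autoImplicit false

namespace Cfsg.Agent.H67.O84Xf

open Cfsg.Agent.H54.O84 Multiplicative
open scoped Matrix

universe u

theorem XF.equiv {X Y : Type*} [Group X] [Group Y] (e : X ≃* Y) {b : MV →* X} (h : XF b) :
    XF (e.toMonoidHom.comp b) where
  inj := e.injective.comp h.inj
  refl k := by
    obtain ⟨n, hn⟩ := h.refl k
    refine ⟨e n, fun x => ?_⟩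
    have := congrArg e (hn x)
    rwa [map_mul, map_mul, map_inv] at this
  gen := by
    have h1 : (⨆ k, Cz b k).map e.toMonoidHom = ⊤ := by
      rw [h.gen, ← MonoidHom.range_eq_map]
      exact MonoidHom.range_eq_top.2 e.surjective
    rw [eq_top_iff, ← h1, Subgroup.map_iSup]
    refine iSup_mono fun k => ?_
    rintro _ ⟨g, hg, rfl⟩ _ ⟨x, hx, rfl⟩
    have := congrArg e (hg _ ⟨x, hx, rfl⟩)
    rwa [map_mul, map_mul] at this

theorem xf_sub {X : Type*} [Group X] (b : MV →* X) (D : Subgroup X) (hi : Function.Injective b)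
    (h2 : ∀ k, Cz b k ≤ D)
    (h6 : ∀ k, ∃ n, ∀ x : V, n * b (ofAdd x) * n⁻¹ = b (ofAdd (x - (x ⬝ᵥ lam k) • lam k)))
    (h7 : D ≤ ⨆ k, Cz b k) : ∃ b' : MV →* D, XF b' := by
  have hb : ∀ x, b x ∈ D := fun x => h2 0 (by
    rintro _ ⟨y, -, rfl⟩
    rw [← map_mul, ← map_mul, mul_comm])
  refine ⟨b.codRestrict D hb, fun x y h => hi (congrArg Subtype.val h), fun k => ?_, ?_⟩
  · obtain ⟨n, hn⟩ := h6 k
    have hD : n ∈ D := h2 k (by
      rintro _ ⟨x, hx, rfl⟩
      have := hn x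
      rw [hx, zero_smul, sub_zero, mul_inv_eq_iff_eq_mul] at this
      exact this.symm)
    exact ⟨⟨n, hD⟩, fun x => Subtype.ext (hn x)⟩
  · refine Subgroup.map_injective D.subtype_injective ?_
    rw [← MonoidHom.range_eq_map, Subgroup.range_subtype]
    refine le_antisymm (Subgroup.map_subtype_le _) (h7.trans ?_)
    rw [Subgroup.map_iSup]
    refine iSup_mono fun k g hg => ⟨⟨g, h2 k hg⟩, ?_, rfl⟩
    rintro _ ⟨x, hx, rfl⟩
    exact Subtype.ext (hg _ ⟨x, hx, rfl⟩)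

theorem exists_o (F : Type u) [Field F] [Fintype F] (hF : Fintype.card F = 4) :
    ∃ o : F, o ^ 2 + o + 1 = 0 := by
  classical
  obtain ⟨o, -, ho⟩ := Finset.exists_mem_notMem_of_card_lt_card (s := ({0, 1} : Finset F))
    (t := Finset.univ) (by
      have := Finset.card_le_two (a := (0 : F)) (b := 1)
      rw [Finset.card_univ]
      omega)
  simp only [Finset.mem_insert, Finset.mem_singleton, not_or] at ho
  have h := FiniteField.pow_card o
  rw [hF] at h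
  refine ⟨o, mul_left_cancel₀ (mul_ne_zero ho.1 (sub_ne_zero.2 ho.2)) ?_⟩
  linear_combination h

theorem xf (h0 : X0Stmt.{u}) (h1 : X1Stmt.{u}) (h2 : X2Stmt.{u}) (h6 : X6Stmt.{u})
    (h7 : X7Stmt.{u}) : XfStmt.{u} := by
  intro F _ _ hF
  obtain ⟨o, ho⟩ := exists_o F hF
  obtain ⟨-, -, ⟨e⟩⟩ := h0 F o hF ho
  obtain ⟨ζ, b, hd, hi⟩ := h1 F o hF ho
  obtain ⟨b', hb'⟩ := xf_sub b _ hi (h2 F o hF ho ζ b hd) (h6 F o hF ho ζ b hd)
    (h7 F o hF ho ζ b hd)
  exact ⟨_, XF.equiv ((H28.commutatorEquiv (H30.OCongr e)).trans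
    (H30.omegaEquivO (H30.qPlus F 4)).symm) hb'⟩

end Cfsg.Agent.H67.O84Xf
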