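import Cfsg.Agent.H79.R3Defs
import Cfsg.Agent.H77.CkA

/-! Project R3, piece CE2: double transitivity on the points of a line. -/

set_option autoImplicit false

namespace Cfsg.Agent.H67.R3Ce2

open Cfsg Module Cfsg.Agent.H79.R3 Cfsg.Agent.H77.Ck
open scoped Pointwise

universe u

variable {F V : Type u} [Field F] [Finite F] [AddCommGroup V] [Module F V] [Finite V]

omit [Finite F] [Finite V] in
theorem mem_cov {L y : Submodule F V} : y ∈ Cov ⊥ L ↔ dm y = 1 ∧ y ≤ L := by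
  simp [Cov, dm, and_comm]

/-- a `p`-element fixing a point fixes its vectors -/
theorem fix_pt {g : V ≃ₗ[F] V} {k : ℕ} (hg : g ^ ringChar F ^ k = 1) {z : Submodule F V}
    (hz : dm z = 1) (h : g • z = z) : ∀ x ∈ z, g x = x := by
  intro x hx
  by_cases h0 : x = 0
  · rw [h0, map_zero]
  have e : (F ∙ x) = z := Submodule.eq_of_le_of_finrank_eq (sp1_le hx)
    (by rw [finrank_span_singleton h0]; exact hz.symm)
  have h1 : g x ∈ F ∙ x := by rw [e, ← h]; exact smul_mem_smul.2 hx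
  obtain ⟨c, hc⟩ := mem_sp1.1 h1
  have h2 : ∀ n : ℕ, (g ^ n) x = c ^ n • x := fun n => by
    induction n with
    | zero => simp
    | succ n ih => rw [pow_succ', LinearEquiv.mul_apply, ih, map_smul, ← hc, smul_smul, pow_succ]
  have h3 := h2 (ringChar F ^ k)
  rw [hg] at h3
  have h4 : c ^ ringChar F ^ k = 1 := by
    refine smul_left_injective F h0 ?_
    simpa using h3.symm
  have := Fact.mk (pF F)
  have h5 : (c - 1) ^ ringChar F ^ k = 0 := by rw [sub_pow_char_pow, h4, one_pow, sub_self]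
  rw [← hc, sub_eq_zero.1 (pow_eq_zero_iff (pow_ne_zero _ (pF F).ne_zero) |>.1 h5), one_smul]

/-- a `p`-element fixing two points of a line fixes all its points -/
theorem fix_two {g : V ≃ₗ[F] V} {k : ℕ} (hg : g ^ ringChar F ^ k = 1) {L z v t : Submodule F V}
    (hL : dm L = 2) (hz : dm z = 1) (hv : dm v = 1) (zL : z ≤ L) (vL : v ≤ L) (hne : v ≠ z)
    (h : g • z = z) (h' : g • v = v) (tL : t ≤ L) : g • t = t := by
  have e : z ⊔ v = L := Submodule.eq_of_le_of_finrank_le (sup_le zL vL) (by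
    have : z < z ⊔ v := left_lt_sup.2 fun l =>
      hne (Submodule.eq_of_le_of_finrank_eq l (hv.trans hz.symm))
    have := Submodule.finrank_lt_finrank_of_lt this
    simp only [dm] at hL hz
    omega)
  have key : ∀ x ∈ L, g x = x := fun x hx => by
    rw [← e] at hx
    obtain ⟨a, ha, b, hb, rfl⟩ := Submodule.mem_sup.1 hx
    rw [map_add, fix_pt hg hz h a ha, fix_pt hg hv h' b hb]
  refine Submodule.eq_of_le_of_finrank_eq ?_ (dm_smul g t)
  rintro _ ⟨x, hx, rfl⟩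
  exact (key x (tL hx)).symm ▸ hx

omit [Finite F] [Finite V] in
theorem two_of_one {K : Subgroup (V ≃ₗ[F] V)} {L y₀ : Submodule F V} (hK : Tr2 K 1 2)
    (hL : dm L = 2) (h0 : dm y₀ = 1) (l0 : y₀ ≤ L)
    (h : ∀ z z', dm z = 1 → dm z' = 1 → z ≤ L → z' ≤ L → z ≠ y₀ → z' ≠ y₀ →
      ∃ g ∈ K, g • y₀ = y₀ ∧ g • z = z') : Two K L := by
  intro y z z' hy hz hz' yL zL zL' n n'
  obtain ⟨k, hk, e1, e2⟩ := hK y L y₀ L yL hy hL l0 h0 hL
  obtain ⟨g, hg, e3, e4⟩ := h (k • z) (k • z') ((dm_smul _ _).trans hz) ((dm_smul _ _).trans hz')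
    (e2 ▸ smul_le_smul.2 zL) (e2 ▸ smul_le_smul.2 zL')
    (fun e => n (MulAction.injective k (e.trans e1.symm)))
    (fun e => n' (MulAction.injective k (e.trans e1.symm)))
  refine ⟨k⁻¹ * g * k, mul_mem (mul_mem (inv_mem hk) hg) hk, ?_, ?_⟩
  · rw [mul_smul, mul_smul, e1, e3, ← e1, inv_smul_smul]
  · rw [mul_smul, mul_smul, e4, inv_smul_smul]

/-- **CE2** -/
theorem ce2 (cov : CovStmt.{u}) : Ce2Stmt.{u} := by
  intro F V _ _ _ _ _ K Γ L s hK hΓ sp hd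
  have : Finite (Submodule F V) := Finite.of_injective _ SetLike.coe_injective
  have : Finite (V ≃ₗ[F] V) := Finite.of_injective _ DFunLike.coe_injective
  have hp := pF F
  obtain ⟨f, hf⟩ := card_pF F
  obtain ⟨j, -, hj⟩ := (Nat.dvd_prime_pow hp).1 (hf ▸ hd)
  set S := {P | P ∈ Cov ⊥ L ∧ s P} with hS
  set N := {P | P ∈ Cov ⊥ L ∧ ¬ s P} with hN
  have hSj : S.ncard = ringChar F ^ j := hj
  have hsum : S.ncard + N.ncard = Nat.card F + 1 := by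
    have e := cov F V ⊥ L bot_le
    rw [sp.dim, show dm (⊥ : Submodule F V) = 0 from finrank_bot F V] at e
    rw [← Set.ncard_union_eq (Set.disjoint_left.2 fun P a b => b.2 a.2),
      show S ∪ N = Cov ⊥ L from by ext P; simp only [hS, hN, Set.mem_union, Set.mem_setOf]; tauto, e]
    simp [br, Finset.sum_range_succ, add_comm]
  have cv : ∀ g : V ≃ₗ[F] V, g • L = L → ∀ y ∈ Cov ⊥ L, g • y ∈ Cov ⊥ L := fun g hg y hy =>
    mem_cov.2 ⟨(dm_smul _ _).trans (mem_cov.1 hy).1, hg ▸ smul_le_smul.2 (mem_cov.1 hy).2⟩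
  have iS : ∀ g ∈ Γ, ∀ y ∈ S, g • y ∈ S := fun g hg y hy =>
    ⟨cv g (sp.fix g hg) y hy.1, (sp.inv g hg y (mem_cov.1 hy.1).1 (mem_cov.1 hy.1).2).2 hy.2⟩
  have iN : ∀ g ∈ Γ, ∀ y ∈ N, g • y ∈ N := fun g hg y hy =>
    ⟨cv g (sp.fix g hg) y hy.1,
      fun h => hy.2 ((sp.inv g hg y (mem_cov.1 hy.1).1 (mem_cov.1 hy.1).2).1 h)⟩
  have tS : ∀ a ∈ S, ∀ c ∈ S, ∃ g ∈ Γ, g • a = c := fun a ha c hc =>
    sp.tr a c (mem_cov.1 ha.1).1 (mem_cov.1 ha.1).2 (mem_cov.1 hc.1).1 (mem_cov.1 hc.1).2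
      (iff_of_true ha.2 hc.2)
  have tN : ∀ a ∈ N, ∀ c ∈ N, ∃ g ∈ Γ, g • a = c := fun a ha c hc =>
    sp.tr a c (mem_cov.1 ha.1).1 (mem_cov.1 ha.1).2 (mem_cov.1 hc.1).1 (mem_cov.1 hc.1).2
      (iff_of_false ha.2 hc.2)
  obtain ⟨y, hy⟩ : S.Nonempty :=
    (Set.ncard_pos (Set.toFinite _)).1 (hSj ▸ pow_pos hp.pos j)
  refine two_of_one hK sp.dim (mem_cov.1 hy.1).1 (mem_cov.1 hy.1).2 ?_
  rcases j with _ | j
  · obtain ⟨y', e⟩ := Set.ncard_eq_one.1 hSj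
    have u : ∀ t ∈ S, t = y := fun t ht => by
      rw [e] at ht hy; exact ht.trans hy.symm
    intro z z' hz hz' zL zL' n n'
    obtain ⟨g, hg, e⟩ := tN z ⟨mem_cov.2 ⟨hz, zL⟩, fun h => n (u z ⟨mem_cov.2 ⟨hz, zL⟩, h⟩)⟩
      z' ⟨mem_cov.2 ⟨hz', zL'⟩, fun h => n' (u z' ⟨mem_cov.2 ⟨hz', zL'⟩, h⟩)⟩
    exact ⟨g, hΓ hg, u _ (iS g hg y hy), e⟩
  obtain ⟨P, hP⟩ := exists_syl hp Γ
  have tP := hP.tr hp hSj iS tS
  obtain ⟨z, hz, fz⟩ := fix_np hp hP.2.1 (X := N) (fun h => by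
    have h1 : ringChar F ∣ S.ncard + N.ncard := dvd_add (hSj ▸ dvd_pow_self _ j.succ_ne_zero) h
    rw [hsum, hf, Nat.dvd_add_right (dvd_pow_self _ f.succ_ne_zero)] at h1
    exact hp.one_lt.ne' (Nat.dvd_one.1 h1)) fun g hg => iN g (hP.1 hg)
  -- every point other than `y` is moved to `z`'s class by the stabiliser of `y`
  have toN : ∀ w, dm w = 1 → w ≤ L → w ≠ y → ∃ g ∈ K, g • y = y ∧ g • w ∈ N := by
    intro w hw wL n
    obtain ⟨g, hg, e1, e2⟩ := hK z L y L (mem_cov.1 hz.1).2 (mem_cov.1 hz.1).1 sp.dim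
      (mem_cov.1 hy.1).2 (mem_cov.1 hy.1).1 sp.dim
    have hv : g⁻¹ • w ∈ Cov ⊥ L := cv _ (by rw [inv_smul_eq_iff, e2]) _ (mem_cov.2 ⟨hw, wL⟩)
    have nv : g⁻¹ • w ≠ z := fun e => n (by rw [← e1, ← e, smul_inv_smul])
    choose! u hu eu using tP y hy
    by_contra hc
    have mp : ∀ t ∈ S, g • u t • g⁻¹ • w ∈ S := fun t ht => by
      have c := cv g e2 _ (cv _ (sp.fix _ (hP.1 (hu t ht))) _ hv)
      by_contra h
      refine hc ⟨g * u t * g⁻¹, mul_mem (mul_mem hg (hΓ (hP.1 (hu t ht)))) (inv_mem hg), ?_, ?_⟩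
      · rw [mul_smul, mul_smul, ← e1, inv_smul_smul, fz _ (hu t ht)]
      · rw [mul_smul, mul_smul]
        exact ⟨c, fun h' => h ⟨c, h'⟩⟩
    have inj : Set.InjOn (fun t => g • u t • g⁻¹ • w) S := fun t ht t' ht' e => by
      have m := mul_mem (inv_mem (hu t' ht')) (hu t ht)
      obtain ⟨k, hk⟩ := hP.2.1 ⟨_, m⟩
      have := fix_two (k := k) (congrArg Subtype.val hk) sp.dim (mem_cov.1 hz.1).1
        (mem_cov.1 hv).1 (mem_cov.1 hz.1).2 (mem_cov.1 hv).2 nv (fz _ m)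
        (by rw [mul_smul, MulAction.injective g e, inv_smul_smul]) (mem_cov.1 hy.1).2
      rw [mul_smul, inv_smul_eq_iff, eu t ht, eu t' ht'] at this
      exact this
    obtain ⟨t, ht, e⟩ := ((Set.toFinite S).injOn_iff_bijOn_of_mapsTo mp).1 inj |>.surjOn hy
    have e' : u t • g⁻¹ • w = u t • z := by
      rw [fz _ (hu t ht)]
      exact MulAction.injective g (e.trans e1.symm)
    exact nv (MulAction.injective _ e')
  have toz : ∀ w ∈ N, ∃ g ∈ K, ∃ t ∈ S, g • y = t ∧ g • w = z := fun w hw => by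
    obtain ⟨g, hg, e⟩ := tN w hw z hz
    exact ⟨g, hΓ hg, _, iS g hg y hy, rfl, e⟩
  intro w w' hw hw' wL wL' n n'
  obtain ⟨a, ha, a1, a2⟩ := toN w hw wL n
  obtain ⟨a', ha', a1', a2'⟩ := toN w' hw' wL' n'
  obtain ⟨b, hb, t, ht, b1, b2⟩ := toz _ a2
  obtain ⟨b', hb', t', ht', b1', b2'⟩ := toz _ a2'
  obtain ⟨u, hu, eu⟩ := tP t ht t' ht'
  refine ⟨(b' * a')⁻¹ * u * (b * a), mul_mem (mul_mem (inv_mem (mul_mem hb' ha'))
    (hΓ (hP.1 hu))) (mul_mem hb ha), ?_, ?_⟩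
  · rw [mul_smul, mul_smul, inv_smul_eq_iff, mul_smul, mul_smul, a1, a1', b1, b1', eu]
  · rw [mul_smul, mul_smul, inv_smul_eq_iff, mul_smul, mul_smul, b2, b2', fz u hu]

end Cfsg.Agent.H67.R3Ce2
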