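import Cfsg.Agent.H54.RfKitP

/-! # Standard subgroups of type `²F₄(q)`: the rank one relation of the doubled ray -/

set_option autoImplicit false
set_option linter.unusedSimpArgs false
set_option linter.unnecessarySeqFocus false
set_option linter.unusedSectionVars false

namespace Cfsg.Agent.H67.RfSl2

open Cfsg Cfsg.Agent.H15.O8 Cfsg.Agent.H39 Cfsg.Agent.H36.O8T Subgroup Cfsg.Agent.H54.RF
open scoped commutatorElement

universe u v

section Gen
variable {G : Type*} [Group G]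

theorem cj_mul {g a b a' b' : G} (h : g * a * g⁻¹ = a') (k : g * b * g⁻¹ = b') :
    g * (a * b) * g⁻¹ = a' * b' := by rw [← h, ← k]; group

theorem cj_comp {g g' a b c : G} (h : g * a * g⁻¹ = b) (k : g' * b * g'⁻¹ = c) :
    g' * g * a * (g' * g)⁻¹ = c := by rw [← k, ← h]; group

theorem sqrt_inv [Finite G] {t d : G} (tt : t * t = 1) (e : t * d * t = d⁻¹)
    (h : ∀ i ∈ zpowers d, i * i = 1 → Commute i t → i = 1) :
    ∃ f ∈ zpowers d, f * f = d ∧ t * f * t = f⁻¹ := by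
  have inv : ∀ i ∈ zpowers d, t * i * t = i⁻¹ := by
    rintro _ ⟨k, rfl⟩
    have := conj_zpow (i := k) (a := t) (b := d)
    rw [inv_eq_of_mul_eq_one_right tt, e] at this
    rw [← this, inv_zpow]
  rcases Nat.even_or_odd' (orderOf d) with ⟨k, hk | hk⟩
  · exfalso
    have i2 : d ^ k * d ^ k = 1 := by rw [← pow_add, ← two_mul, ← hk, pow_orderOf_eq_one]
    have := h _ (npow_mem_zpowers d k) i2 (by
      have e1 := inv _ (npow_mem_zpowers d k)
      rw [inv_eq_of_mul_eq_one_right i2] at e1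
      calc d ^ k * t = t * d ^ k * t * t := by rw [e1]
        _ = _ := by rw [mul_assoc, tt, mul_one])
    have h1 := orderOf_pos d
    have := Nat.le_of_dvd (by omega) (orderOf_dvd_of_pow_eq_one this)
    omega
  · refine ⟨d ^ (k + 1), npow_mem_zpowers d _, ?_, inv _ (npow_mem_zpowers d _)⟩
    rw [← pow_add, show k + 1 + (k + 1) = orderOf d + 1 by omega, pow_succ, pow_orderOf_eq_one,
      one_mul]

end Gen

variable {K : Type*} [Field K] {T : Tits K} {G : Type*} [Group G]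

/-- the elements of the doubled group `W` -/
def ww (M : FF T G) (p : K → G) (a b a' b' : K) : G :=
  M.φ (x4 T a) * p b * (M.φ (x6 T a') * P6 M p b')

/-- the group `Ψ` -/
def Ps (M : FF T G) (t : G) (p : K → G) : Subgroup G where
  carrier := {y | (∀ a b a' b', Commute y (ww M p a b a' b')) ∧ (∀ α, Commute y (M.h (α, α))) ∧
    ∀ k, Od M t k → Commute y k}
  one_mem' := ⟨fun _ _ _ _ => Commute.one_left _, fun _ => Commute.one_left _,
    fun _ _ => Commute.one_left _⟩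
  mul_mem' := fun h k => ⟨fun a b a' b' => (h.1 a b a' b').mul_left (k.1 a b a' b'),
    fun α => (h.2.1 α).mul_left (k.2.1 α), fun o ho => (h.2.2 o ho).mul_left (k.2.2 o ho)⟩
  inv_mem' := fun h => ⟨fun a b a' b' => (h.1 a b a' b').inv_left, fun α => (h.2.1 α).inv_left,
    fun o ho => (h.2.2 o ho).inv_left⟩

/-- centralising the torus and the elements of odd order -/
def Cm (M : FF T G) (t : G) : Subgroup G where
  carrier := {y | (∀ α, Commute y (M.h (α, α))) ∧ ∀ k, Od M t k → Commute y k}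
  one_mem' := ⟨fun _ => Commute.one_left _, fun _ _ => Commute.one_left _⟩
  mul_mem' := fun h k => ⟨fun α => (h.1 α).mul_left (k.1 α),
    fun o ho => (h.2 o ho).mul_left (k.2 o ho)⟩
  inv_mem' := fun h => ⟨fun α => (h.1 α).inv_left, fun o ho => (h.2 o ho).inv_left⟩

variable {M : FF T G} {t : G} {p r : K → G}

theorem nrm {g y : G} (gg : g * g = 1) (hg : g ∈ Cm M t)
    (hw : ∀ a b a' b', ∃ c d c' d', g * ww M p a b a' b' * g⁻¹ = ww M p c d c' d')
    (hy : y ∈ Ps M t p) : g * y * g ∈ Ps M t p := by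
  have gi := inv_eq_of_mul_eq_one_right gg
  refine ⟨fun a b a' b' => ?_, fun α => ((hg.1 α).mul_left (hy.2.1 α)).mul_left (hg.1 α),
    fun o ho => ((hg.2 o ho).mul_left (hy.2.2 o ho)).mul_left (hg.2 o ho)⟩
  obtain ⟨c, d, c', d', e⟩ := hw a b a' b'
  have := comm_conj' gg (hy.1 c d c' d')
  rwa [← e, gi, conj_conj' gg] at this

section
variable (c : Ctx M t) (h : HR M t p r)
include c h

theorem ww_shift (a b a' b' u v : K) : M.φ (x4 T a) * p b * (M.φ (x4 T u) * p v *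
    (M.φ (x6 T a') * P6 M p b')) = ww M p (a + u) (b + v) a' b' := by
  rw [ww, x4_add, map_mul, h.add, ← mul_assoc, (h.pφ b _).mul_mul_mul_comm]

theorem act_x1 (m a b a' b' : K) : M.φ (x1 T m) * ww M p a b a' b' * (M.φ (x1 T m))⁻¹ =
    ww M p (a + m * a') (b + m * b') a' b' := by
  have e1 : M.φ (x1 T m) * M.φ (x4 T a) * (M.φ (x1 T m))⁻¹ = M.φ (x4 T a) :=
    conj_eq_iff.2 ((φ_comm M).2 (by ext <;> o8s <;> o8ring T))
  have e3 : M.φ (x1 T m) * M.φ (x6 T a') * (M.φ (x1 T m))⁻¹ =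
      M.φ (x4 T (m * a')) * M.φ (x6 T a') := by
    rw [← cm16, ← map_inv, ← map_mul, ← map_mul, ← map_mul, commutatorElement_def]
    congr 1; group
  rw [ww, cj_mul (cj_mul e1 (conj_eq_iff.2 (h.pφ b _).symm)) (cj_mul e3 (h.line m b')),
    ← ww_shift c h, ← (h.c46 _ _).eq, mul_assoc (M.φ (x4 T (m * a'))),
    ← mul_assoc (M.φ (x6 T a')), ← (h.pφ (m * b') _).eq]
  group

theorem act_n1 (a b a' b' : K) :
    M.n1 * ww M p a b a' b' * M.n1⁻¹ = ww M p a' b' a b := by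
  have c1 : Commute (M.φ (x4 T a') * p b') (M.φ (x6 T a) * P6 M p b) :=
    (((φ_comm M).2 (by ext <;> o8s <;> o8ring T)).mul_right (h.cen6 b (by o8s)).symm).mul_left
      ((h.pφ _ _).mul_right (h.c46 _ _))
  rw [n1_inv, ww, ww, c1.eq]
  simp only [conj_mul' M.n1n1, n1_x4, n1_x6, n1_P6]
  rfl

theorem act_t (a b a' b' : K) :
    t * ww M p a b a' b' * t⁻¹ = ww M p (a + b) b (a' + b') b' := by
  rw [c.t_inv, ww, ww]
  simp only [conj_mul' c.tt, conj_fix' c.tt (c.tφ _), h.f4.tconj c, (h.f6 c).tconj c, x4_add,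
    x6_add, map_mul]
  rw [(h.pφ b _).eq, ((h.f6 c).cx _ _).eq]
  group

variable {e c' ε : K} (a1 : A1 M p r e) (g : Gm M p r e c' ε)
include a1 g

theorem act_P1 (n a b a' b' : K) : P1 M r n * ww M p a b a' b' * (P1 M r n)⁻¹ =
    ww M p (a + c' * n * b') (b + (n * a' + n * b')) a' b' := by
  have f1 := h.f1 c
  have e3 : P1 M r n * M.φ (x6 T a') * (P1 M r n)⁻¹ = p (n * a') * M.φ (x6 T a') := by
    have := HR.x6P1 a1 h.toH4 a' n
    calc _ = P1 M r n * (M.φ (x6 T a') * P1 M r n * (M.φ (x6 T a'))⁻¹) * M.φ (x6 T a') := by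
          rw [f1.inv]; group
      _ = _ := by rw [this, ← mul_assoc, f1.sq, one_mul]
  have e4 : P1 M r n * P6 M p b' * (P1 M r n)⁻¹ =
      P6 M p b' * (p (b' * n) * M.φ (x4 T (c' * b' * n))) := by
    rw [← h.g16 g, commutatorElement_def, (h.f6 c).inv, ← mul_assoc, ← mul_assoc, ← mul_assoc,
      (h.f6 c).sq, one_mul]
  have c1 : Commute (M.φ (x6 T a') * P6 M p b') (p (b' * n) * M.φ (x4 T (c' * b' * n))) :=
    ((h.pφ _ _).symm.mul_right ((φ_comm M).2 (by ext <;> o8s <;> o8ring T))).mul_left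
      ((h.c46 _ _).symm.mul_right (h.cen6 _ (by o8s)))
  rw [ww, cj_mul (cj_mul (conj_eq_iff.2 (h.cen1 n (by o8s) rfl rfl rfl rfl))
    (conj_eq_iff.2 (h.c14 _ _))) (cj_mul e3 e4), ← ww_shift c h, h.add,
    mul_assoc (p (n * a')), ← mul_assoc (M.φ (x6 T a')), c1.eq, mul_comm b' n, (h.pφ _ _).eq,
    ← mul_assoc (p (n * a')), ← mul_assoc (p (n * a')), (h.pφ (n * a') _).eq,
    mul_right_comm c' b' n]
  group

theorem act1 (m n a b a' b' : K) : xh1 M r m n * ww M p a b a' b' * (xh1 M r m n)⁻¹ =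
    ww M p (a + c' * n * b' + m * a') (b + (n * a' + n * b') + m * b') a' b' :=
  cj_comp (act_P1 c h a1 g n a b a' b') (act_x1 c h m _ _ _ _)

theorem act9 (m n a b a' b' : K) : xh9 M r m n * ww M p a b a' b' * (xh9 M r m n)⁻¹ =
    ww M p a b (a' + c' * n * b + m * a) (b' + (n * a + n * b) + m * b) := by
  rw [xh9, mul_assoc M.n1]
  exact cj_comp (cj_comp (act_n1 c h a b a' b') (act1 c h a1 g m n _ _ _ _)) (act_n1 c h _ _ _ _)

end

theorem Cm_x1 (m : K) : M.φ (x1 T m) ∈ Cm M t :=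
  ⟨fun α => (conj_eq_iff.1 (by rw [M.hφ, tor_x1]; simp [wt1])).symm, fun _ ho => (ho.φ _).symm⟩

theorem Cm_n1 : M.n1 ∈ Cm M t :=
  ⟨fun α => conj_eq_iff.1 (by rw [n1_inv, M.n1h]), fun _ ho => (ho.comm (n1X M)).symm⟩

theorem Cm_P1 (c : Ctx M t) (h : HR M t p r) (n : K) : P1 M r n ∈ Cm M t :=
  ⟨fun α => (conj_eq_iff.1 (by rw [h.tor1]; simp [wt1])).symm, fun o ho => (h.f1 c).odd n o ho⟩

theorem x1_sq (m : K) : M.φ (x1 T m) * M.φ (x1 T m) = 1 := by
  rw [← map_mul, ← x1_add, add_self (T := T), x1_zero, map_one]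

variable [Finite K] [Finite G] (c : Ctx2 M t) (h : HR M t p r)
include c h

theorem od_of_Ps {y : G} (hy : y ∈ Ps M t p) (ht : Commute y t) : Od M t y := by
  obtain ⟨e, he, o, ho, -, hd⟩ := c.cw ht fun w hw => by
    have := hy.1 w.a4 0 w.a6 0
    rwa [ww, h.f4.zero, (h.f6 c.toCtx).zero, mul_one, mul_one, ← map_mul, ← eq_x4_x6 hw] at this
  have e1 : e = 1 := by
    obtain ⟨k1, k2, k3, k4, k5, k6, k7, k8, k9, k10, k11⟩ :=
      H92.UL.fix1 c.q2 e fun a => c.dec_h hd ho (hy.2.1 a)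
    have k0 : e.a1 = 0 := he
    ext <;> assumption
  subst e1
  rcases hd with rfl | rfl
  · simpa using ho
  · exfalso
    have k := hy.1 0 1 0 0
    rw [ww, (h.f6 c.toCtx).zero, x4_zero, x6_zero, map_one, mul_one, mul_one, one_mul,
      one_mul] at k
    have k1 : Commute t (p 1) := by simpa using k.mul_left (h.odd 1 o ho).symm.inv_left
    have k2 := h.mov 1
    rw [conj_eq_iff.2 k1.symm] at k2
    exact x4_ne one_ne_zero (φ_eq_one M (by simpa using k2.symm))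

theorem t_nrm {y : G} (hy : y ∈ Ps M t p) : t * y * t ∈ Ps M t p :=
  nrm c.tt ⟨fun _ => (c.th _).symm, fun _ ho => ho.2.1.symm⟩
    (fun _ _ _ _ => ⟨_, _, _, _, act_t c.toCtx h _ _ _ _⟩) hy

theorem t_inv {y : G} (hy : y ∈ Ps M t p) : ∃ z, Commute z t ∧ (∀ g ∈ Cm M t, Commute g z) ∧
    t * y * t = y⁻¹ * z := by
  have hd : y * (t * y⁻¹ * t) ∈ Ps M t p := mul_mem hy (t_nrm c h (inv_mem hy))
  obtain ⟨f, hf, ff, ft⟩ := sqrt_inv c.tt (d := y * (t * y⁻¹ * t)) (by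
    rw [conj_mul' c.tt, conj_conj' c.tt, mul_inv_rev, ← conj_inv' c.tt, inv_inv])
    fun i hi ii it => eq_one_of_odd_sq (od_of_Ps c h (zpowers_le.2 hd hi) it).2.2 ii
  have fP := zpowers_le.2 hd hf
  have e1 : t * y * t = f⁻¹ * f⁻¹ * y := by
    rw [← mul_inv_rev, ff, mul_inv_rev, ← conj_inv' c.tt, inv_inv]; group
  have e2 : t * (f⁻¹ * y) * t = f⁻¹ * y := by
    rw [conj_mul' c.tt, conj_inv' c.tt, ft, e1]; group
  have ho := od_of_Ps c h (mul_mem (inv_mem fP) hy) (c.comm_of_tconj e2)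
  refine ⟨f⁻¹ * y * (f⁻¹ * y), ho.2.1.mul_left ho.2.1,
    fun g hg => (hg.2 _ ho).mul_right (hg.2 _ ho), ?_⟩
  have k := (hy.2.2 _ ho).eq
  have k' := (fP.2.2 _ ho).inv_left.eq
  rw [e1]
  calc f⁻¹ * f⁻¹ * y = y⁻¹ * (y * (f⁻¹ * y)) * y⁻¹ * (f⁻¹ * y) := by group
    _ = y⁻¹ * (f⁻¹ * y * y) * y⁻¹ * (f⁻¹ * y) := by rw [k]
    _ = _ := by group

theorem no_inv {y : G} (hy : y ∈ Ps M t p) (yy : y * y = 1) : y = 1 := by
  obtain ⟨z, zt, zc, e⟩ := t_inv c h hy
  rw [inv_eq_of_mul_eq_one_right yy] at e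
  have zP : z ∈ Ps M t p := by
    have := mul_mem (inv_mem hy) (t_nrm c h hy)
    rwa [e, inv_mul_cancel_left] at this
  have e2 := conj_conj' c.tt y
  rw [e, conj_mul' c.tt, e, conj_fix' c.tt zt, mul_assoc] at e2
  have z1 := eq_one_of_odd_sq (od_of_Ps c h zP zt).2.2 (by simpa using e2)
  rw [z1, mul_one] at e
  exact eq_one_of_odd_sq (od_of_Ps c h hy (c.comm_of_tconj e)).2.2 yy

variable {e c' ε : K} (a1 : A1 M p r e) (g : Gm M p r e c' ε)
include a1 g

theorem P1_nrm (n : K) {y : G} (hy : y ∈ Ps M t p) : P1 M r n * y * P1 M r n ∈ Ps M t p :=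
  nrm ((h.f1 c.toCtx).sq n) (Cm_P1 c.toCtx h n)
    (fun _ _ _ _ => ⟨_, _, _, _, act_P1 c.toCtx h a1 g _ _ _ _ _⟩) hy

theorem x1_cen (a : K) {y : G} (hy : y ∈ Ps M t p) : Commute (M.φ (x1 T a)) y := by
  have f1 := h.f1 c.toCtx
  have xx := x1_sq (M := M) a
  obtain ⟨z1, t1, c1, e1⟩ := t_inv c h (P1_nrm c h a1 g a hy)
  obtain ⟨z2, t2, c2, e2⟩ := t_inv c h hy
  have mv := f1.mov a
  rw [f1.inv] at mv
  have xP : M.φ (x1 T a) * y * M.φ (x1 T a) ∈ Ps M t p := nrm xx (Cm_x1 a)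
    (fun _ _ _ _ => ⟨_, _, _, _, act_x1 c.toCtx h _ _ _ _ _⟩) hy
  have xt := c.tφ (x1 T a)
  have xC := Cm_x1 (M := M) (t := t) a
  have pp := f1.sq a
  have pz := c1 _ (Cm_P1 c.toCtx h a)
  generalize M.φ (x1 T a) = x at xx mv xP xt xC
  generalize P1 M r a = P at e1 mv pp pz
  have e3 : t * x * y * (t * x) = y⁻¹ * z1 := by
    rw [← mv]
    calc P * t * P * y * (P * t * P) = P * (t * (P * y * P) * t) * P := by group
      _ = P * (P * y * P)⁻¹ * P * (P * z1 * P) := by rw [e1, conj_mul' pp]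
      _ = _ := by rw [← conj_inv' pp, conj_conj' pp, conj_fix' pp pz.symm]
  have e4 : x * y * x = y * (z2⁻¹ * z1) := by
    calc x * y * x = t * (t * x * y * (x * t)) * t := by
          rw [← conj_conj' c.tt (x * y * x)]; group
      _ = (t * y * t)⁻¹ * z1 := by
          rw [xt.eq, e3, conj_mul' c.tt, conj_inv' c.tt, conj_fix' c.tt t1]
      _ = _ := by
          rw [e2, mul_inv_rev, inv_inv, ← (c2 y hy.2).inv_right.eq, mul_assoc]
  have zP : z2⁻¹ * z1 ∈ Ps M t p := by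
    have := mul_mem (inv_mem hy) xP
    rwa [e4, inv_mul_cancel_left] at this
  have e5 := conj_conj' xx y
  rw [e4, conj_mul' xx, e4, conj_fix' xx ((c2 x xC).inv_right.mul_right (c1 x xC)).symm,
    mul_assoc] at e5
  rw [no_inv c h zP (by simpa using e5), mul_one] at e4
  calc x * y = x * y * x * x := by rw [mul_assoc (x * y), xx, mul_one]
    _ = _ := by rw [e4]

theorem main : SL M r c' := by
  intro m d a hd
  have f1 := h.f1 c.toCtx
  have C1 : ∀ m n, xh1 M r m n ∈ Cm M t := fun m n => mul_mem (Cm_x1 m) (Cm_P1 c.toCtx h n)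
  have C9 : ∀ m n, xh9 M r m n ∈ Cm M t := fun m n => mul_mem (mul_mem Cm_n1 (C1 m n)) Cm_n1
  have s9 : ∀ m n, xh9 M r m n * xh9 M r m n = 1 := fun m n => by
    rw [xh9, ← conj_mul' M.n1n1, xh1, (f1.cx n m).mul_mul_mul_comm, x1_sq, f1.sq, mul_one, mul_one,
      M.n1n1]
  have A1 := act1 c.toCtx h a1 g
  have A9 := act9 c.toCtx h a1 g
  have nC : xh1 M r ((m + 1) * d) d * xh9 M r m 1 * xh1 M r ((m + 1) * d) d ∈ Cm M t :=
    mul_mem (mul_mem (C1 _ _) (C9 _ _)) (C1 _ _)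
  have key : ∀ a4 b4 a6 b6, ∃ w,
      xh1 M r ((m + 1) * d) d * xh9 M r m 1 * xh1 M r ((m + 1) * d) d * M.φ (x1 T a) *
        ww M p a4 b4 a6 b6 * (xh1 M r ((m + 1) * d) d * xh9 M r m 1 * xh1 M r ((m + 1) * d) d *
          M.φ (x1 T a))⁻¹ = w ∧
      xh9 M r (a * (m ^ 2 + c')) a *
        (xh1 M r ((m + 1) * d) d * xh9 M r m 1 * xh1 M r ((m + 1) * d) d) * ww M p a4 b4 a6 b6 *
        (xh9 M r (a * (m ^ 2 + c')) a *
          (xh1 M r ((m + 1) * d) d * xh9 M r m 1 * xh1 M r ((m + 1) * d) d))⁻¹ = w := by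
    intro a4 b4 a6 b6
    have An : ∀ a4 b4 a6 b6, xh1 M r ((m + 1) * d) d * xh9 M r m 1 * xh1 M r ((m + 1) * d) d *
        ww M p a4 b4 a6 b6 * (xh1 M r ((m + 1) * d) d * xh9 M r m 1 * xh1 M r ((m + 1) * d) d)⁻¹ =
        ww M p (c' * d * b6 + (m + 1) * d * a6) (d * a6 + m * d * b6) (c' * b4 + m * a4)
          (a4 + b4 + m * b4) := fun a4 b4 a6 b6 => by
      rw [mul_assoc (xh1 M r _ d) (xh9 M r m 1),
        cj_comp (cj_comp (A1 _ _ a4 b4 a6 b6) (A9 _ _ _ _ _ _)) (A1 _ _ _ _ _ _)]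
      have := T.charP
      congr 1 <;> grind
    refine ⟨_, cj_comp (act_x1 c.toCtx h a _ _ _ _) (An _ _ _ _), ?_⟩
    rw [cj_comp (An a4 b4 a6 b6) (A9 _ _ _ _ _ _)]
    have := T.charP
    congr 1 <;> grind
  have xC := Cm_x1 (M := M) (t := t) a
  have X := fun y hy => x1_cen c h a1 g a (y := y) hy
  have xx := x1_sq (M := M) a
  have jj := s9 (a * (m ^ 2 + c')) a
  have jC := C9 (a * (m ^ 2 + c')) a
  generalize xh1 M r ((m + 1) * d) d * xh9 M r m 1 * xh1 M r ((m + 1) * d) d = n at nC key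
  generalize xh9 M r (a * (m ^ 2 + c')) a = j at key jj jC
  generalize M.φ (x1 T a) = x at key xC X xx
  have hψ : (j * n)⁻¹ * (n * x) ∈ Ps M t p := by
    have m := mul_mem (inv_mem (mul_mem jC nC)) (mul_mem nC xC)
    refine ⟨fun a4 b4 a6 b6 => conj_eq_iff.1 ?_, m.1, m.2⟩
    obtain ⟨w, e1, e2⟩ := key a4 b4 a6 b6
    calc _ = (j * n)⁻¹ * (n * x * ww M p a4 b4 a6 b6 * (n * x)⁻¹) * (j * n) := by group
      _ = _ := by rw [e1, ← e2]; group
  have k := (X _ hψ).eq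
  have := no_inv c h hψ (by
    calc _ = n⁻¹ * j⁻¹ * n * (x * ((j * n)⁻¹ * (n * x))) := by group
      _ = n⁻¹ * (j * j)⁻¹ * n * (x * x) := by rw [k]; group
      _ = 1 := by rw [jj, xx]; group)
  exact (inv_mul_eq_one.1 this).symm

omit c h a1 g [Finite K] [Finite G]

theorem sl2 : Sl2Stmt.{u, v} := fun _ _ c _ _ _ h a1 _ _ g => main c h a1 g

end Cfsg.Agent.H67.RfSl2
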