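import Cfsg.Agent.H4.SvDefs

/-! Project SV, piece CNT: class counts in the Sylow `2`-subgroup of `Sp₆(2)`. -/

set_option autoImplicit false

namespace Cfsg.Agent.H67.SvCnt

open Cfsg.Agent.H4.SV Finset

def c (n : ℕ) : ℕ := (tab >>> (4 * n)) % 16

def s (k n : ℕ) : ℤ :=
  if ((k.testBit 0 && n.testBit 0) ^^ (k.testBit 1 && n.testBit 2) ^^ (k.testBit 2 && n.testBit 8) ^^
    (k.testBit 3 && (n.testBit 6 ^^ n.testBit 7))) = true then -1 else 1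

theorem cls_eq (n : Fin 512) : cls (ofN n) = c n := by rw [cls, idx_ofN, c]

theorem chi_eq : ∀ k < 16, ∀ n : Fin 512, ((sg (lin k (ofN n)) : ℤˣ) : ℤ) = s k n := by decide +kernel

theorem c_lt : ∀ n < 512, c n < 12 := by decide +kernel

theorem inner : ∀ k < 16, ∀ j < 12, ∑ n ∈ range 512, (if c n = j then s k n else 0) = (cnt k).getD j 0 := by
  decide +kernel

theorem fib {N : ℕ} {c : ℕ → ℕ} (hc : ∀ n < N, c n < 12) (s τ : ℕ → ℤ) (w : ℕ → ℤ)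
    (h : ∀ j < 12, ∑ n ∈ range N, (if c n = j then s n else 0) = w j) :
    ∑ n : Fin N, s n * τ (c n) = ∑ j ∈ range 12, w j * τ j := by
  have h1 : ∀ j ∈ range 12, w j * τ j = ∑ n ∈ range N, (if c n = j then s n else 0) * τ j :=
    fun j hj => by rw [← h j (mem_range.1 hj), sum_mul]
  rw [Fin.sum_univ_eq_sum_range (fun n => s n * τ (c n)) N, sum_congr rfl h1, sum_comm]
  refine sum_congr rfl fun n hn => ?_
  rw [sum_eq_single (c n), if_pos rfl]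
  · intro j _ hj
    rw [if_neg hj.symm, zero_mul]
  · exact fun h => (h (mem_range.2 (hc n (mem_range.1 hn)))).elim

theorem card_T9 : Fintype.card T9 = 512 := (Fintype.card_congr eqv).symm.trans (Fintype.card_fin 512)

theorem cnt_ : CntStmt := by
  refine ⟨fun k hk τ => ?_, ?_, IsPGroup.of_card (n := 9) (by rw [Nat.card_eq_fintype_card, card_T9]; rfl),
    card_T9, ?_, ?_, ?_⟩
  · rw [sum_T9, H4.SV.val]
    have h1 : ∀ n : Fin 512, ((chi k (ofN n) : ℤˣ) : ℤ) * τ (cls (ofN n)) = s k n * τ (c n) := fun n => by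
      rw [cls_eq, ← chi_eq k hk]; rfl
    rw [sum_congr rfl fun n _ => h1 n]
    exact fib c_lt (s k) τ _ (inner k hk)
  · exact all_T9 (by decide +kernel)
  · simp only [List.forall_mem_cons, List.not_mem_nil, IsEmpty.forall_iff, implies_true, and_true]
    exact ⟨⟨⟨0, 0, 0, 1, 0, 0, 0, 0, 0⟩, by decide +kernel⟩, ⟨⟨1, 0, 0, 0, 0, 0, 0, 0, 0⟩, by decide +kernel⟩,
      ⟨⟨1, 0, 0, 1, 0, 0, 0, 0, 0⟩, by decide +kernel⟩, ⟨⟨0, 0, 1, 1, 0, 0, 0, 0, 0⟩, by decide +kernel⟩⟩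
  · simp only [List.forall_mem_cons, List.not_mem_nil, IsEmpty.forall_iff, implies_true, and_true]
    exact ⟨⟨⟨0, 1, 1, 0, 0, 1, 1, 0, 0⟩, by decide +kernel⟩, ⟨⟨1, 0, 1, 0, 0, 0, 0, 0, 0⟩, by decide +kernel⟩⟩
  · simp only [List.forall_mem_cons, List.not_mem_nil, IsEmpty.forall_iff, implies_true, and_true]
    exact ⟨⟨⟨1, 0, 0, 0, 0, 0, 1, 0, 0⟩, by decide +kernel⟩, ⟨⟨1, 0, 0, 1, 0, 0, 1, 0, 0⟩, by decide +kernel⟩,
      ⟨⟨1, 0, 1, 0, 0, 0, 1, 0, 0⟩, by decide +kernel⟩⟩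

end Cfsg.Agent.H67.SvCnt
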