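import Cfsg.Agent.H58.SWDefs

/-! Project SW (S3694), pieces BETA1 and BETA3. -/

set_option autoImplicit false
open Matrix Cfsg
open scoped commutatorElement

namespace Cfsg.Agent.H67.SwBeta

open Cfsg.Agent.H58.SW Equiv

section cj
variable {F : Type} [Field F] {n : ℕ}

theorem cj_mul (a b : Gl n F) (x : Mt n F) : cj (a * b) x = cj a (cj b x) := by
  simp only [cj, _root_.mul_inv_rev, Units.val_mul, Matrix.mul_assoc]

theorem cj_one (x : Mt n F) : cj (1 : Gl n F) x = x := by simp [cj]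

theorem cj_inv_cj (a : Gl n F) (x : Mt n F) : cj a⁻¹ (cj a x) = x := by
  rw [← cj_mul, inv_mul_cancel, cj_one]

theorem cj_inj (a : Gl n F) {x y : Mt n F} (h : cj a x = cj a y) : x = y := by
  rw [← cj_inv_cj a x, h, cj_inv_cj]

theorem cj_mul' (a : Gl n F) (x y : Mt n F) : cj a (x * y) = cj a x * cj a y := by
  simp only [cj, Matrix.mul_assoc, Units.inv_mul_cancel_left]

theorem cj_smul (a : Gl n F) (c : F) (x : Mt n F) : cj a (c • x) = c • cj a x := by
  simp only [cj, Matrix.mul_smul, Matrix.smul_mul]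

theorem cj_of_comm {a : Gl n F} {x : Mt n F} (h : (a : Mt n F) * x = x * a) : cj a x = x := by
  rw [cj, h, Matrix.mul_assoc, Units.mul_inv, Matrix.mul_one]

theorem cj_sub_one (a t : Gl n F) : ((a * t * a⁻¹ : Gl n F) : Mt n F) - 1 = cj a ((t : Mt n F) - 1) := by
  simp only [cj, Units.val_mul, Matrix.mul_sub, Matrix.sub_mul, Matrix.mul_one, Units.mul_inv]

end cj

theorem cj_Z {F : Type} [Field F] [Fintype F] [DecidableEq F] {n : ℕ} {c : Cl F n} (ka : KA c)
    {z : Gl n F} (hz : z ∈ c.Z) (x : Mt n F) : cj z x = x := by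
  obtain ⟨a, -, e⟩ := (ka.mem_Z z).1 hz
  exact cj_of_comm (by rw [e, Matrix.smul_mul, Matrix.mul_smul, Matrix.one_mul, Matrix.mul_one])

theorem beta1 (hKA : KAStmt) (hKT : KTStmt) (hKV : KVStmt) (hKW : KWStmt) (hS : StabStmt)
    (hE : EigStmt) : Beta1Stmt := by
  intro F _ _ _ n c r H Q L hr A E m x mq db nc
  have ka := hKA F n c
  have kt := hKT F n c
  have kv := hKV F n c
  have kw := hKW F n c
  have fam := db.blk.fam
  have xH := L.qh nc.mem
  have hAS : A ≤ c.St := fun a ha => ((ka.mem_hat H a).1 (L.qh (mq.le ha))).1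
  have h1 : ∀ e ∈ E, cj x e ∈ E := fun e he => kt.hatM H _ db.blk.inv x xH e he
  have h2 : ∀ e ∈ E, cj x e ≠ e := fun e he h => by
    obtain ⟨a, ha, hn⟩ := nc.nc
    obtain ⟨μ, -, hμ⟩ := (ka.mem_Z _).1 (mq.cen a ha x nc.mem)
    obtain ⟨lam, hl, e1⟩ := (hE F n c H A E m hAS db).1 a ha
    have e2 : (a : Mt n F) * e = lam e • e := by
      rw [e1, Finset.sum_mul, Finset.sum_eq_single e, Matrix.smul_mul, fam.idem e he]
      · intro f hf hfe
        rw [Matrix.smul_mul, fam.orth f hf e he hfe, smul_zero]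
      · exact fun h => (h he).elim
    have e3 : cj x (a : Mt n F) = μ • (a : Mt n F) := by
      have : x * a * x⁻¹ = ⁅x, a⁆ * a := by rw [commutatorElement_def, inv_mul_cancel_right]
      have h3 := congrArg Units.val this
      rw [Units.val_mul ⁅x, a⁆, hμ, Matrix.smul_mul, Matrix.one_mul] at h3
      exact h3
    have e4 := congrArg (cj x) e2
    rw [cj_mul', cj_smul, h, e3, Matrix.smul_mul, e2, smul_smul, ← sub_eq_zero, ← sub_smul] at e4
    have e5 : μ = 1 := by
      rcases smul_eq_zero.1 e4 with k | k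
      · exact mul_right_cancel₀ (hl e he).1 (by linear_combination k)
      · exact (fam.ne0 e he k).elim
    rw [e5, one_smul] at hμ
    exact hn (commutatorElement_eq_one_iff_commute.1 (Units.ext hμ))
  refine ⟨?_, fun e he => ⟨h1 e he, h2 e he⟩⟩
  obtain ⟨e, he⟩ : E.Nonempty := Finset.card_pos.1 (by have := db.blk.two; omega)
  have m0 : m ≠ 0 := fun h => fam.ne0 e he (by
    have := db.rk e he
    rw [h, Matrix.rank, Submodule.finrank_eq_zero, LinearMap.range_eq_bot] at this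
    exact Matrix.toLin'.map_eq_zero_iff.1 this)
  by_contra m1
  obtain ⟨t, tS, t1, tU, -, l, rr⟩ := kw.btv e (fun h => db.blk.sf h e he) (fam.idem e he)
    (by rw [db.rk e he]; omega)
  have tH : t ∈ c.hat H := hS F n c r H Q L E db.blk t tS fun f hf => by
    rw [cj_of_comm]
    · exact hf
    have : ((t : Mt n F) - 1) * f = f * ((t : Mt n F) - 1) := by
      by_cases k : f = e
      · rw [k, l, rr]
      · rw [← rr, Matrix.mul_assoc, fam.orth e he f hf (Ne.symm k), Matrix.mul_zero, rr, ← l,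
          ← Matrix.mul_assoc, fam.orth f hf e he k, Matrix.zero_mul]
    rwa [Matrix.sub_mul, Matrix.mul_sub, Matrix.one_mul, Matrix.mul_one, sub_left_inj] at this
  have hQ : t * (x * t⁻¹ * x⁻¹) ∈ Q := by
    have := mul_mem (kt.hatG H Q L.inv t tH x nc.mem) (inv_mem nc.mem)
    simpa only [mul_assoc] using this
  have i1 : ((t⁻¹ : Gl n F) : Mt n F) - 1 = -(((t⁻¹ : Gl n F) : Mt n F) * ((t : Mt n F) - 1)) := by
    rw [Matrix.mul_sub, Units.inv_mul, Matrix.mul_one, neg_sub]
  have i2 : ((t⁻¹ : Gl n F) : Mt n F) - 1 = -(((t : Mt n F) - 1) * ((t⁻¹ : Gl n F) : Mt n F)) := by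
    rw [Matrix.sub_mul, Units.mul_inv, Matrix.one_mul, neg_sub]
  have l' : cj x e * (((x * t⁻¹ * x⁻¹ : Gl n F) : Mt n F) - 1) = ((x * t⁻¹ * x⁻¹ : Gl n F) : Mt n F) - 1 := by
    rw [cj_sub_one, ← cj_mul', i2, Matrix.mul_neg, ← Matrix.mul_assoc, l]
  have r' : (((x * t⁻¹ * x⁻¹ : Gl n F) : Mt n F) - 1) * cj x e = ((x * t⁻¹ * x⁻¹ : Gl n F) : Mt n F) - 1 := by
    rw [cj_sub_one, ← cj_mul', i1, Matrix.neg_mul, Matrix.mul_assoc, rr]
  obtain ⟨k, hk⟩ := (kv.upow t).1 tU
  have hk' : (x * t⁻¹ * x⁻¹) ^ c.p ^ k = 1 := by rw [conj_pow, inv_pow, hk, inv_one, mul_one, mul_inv_cancel]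
  generalize x * t⁻¹ * x⁻¹ = s at hQ l' r' hk'
  have o1 := fam.orth e he _ (h1 e he) (h2 e he).symm
  have o2 := fam.orth _ (h1 e he) e he (h2 e he)
  have p1 : ((t : Mt n F) - 1) * ((s : Mt n F) - 1) = 0 := by
    rw [← rr, ← l', Matrix.mul_assoc, ← Matrix.mul_assoc e, o1, Matrix.zero_mul, Matrix.mul_zero]
  have p2 : ((s : Mt n F) - 1) * ((t : Mt n F) - 1) = 0 := by
    rw [← r', ← l, Matrix.mul_assoc, ← Matrix.mul_assoc _ e, o2, Matrix.zero_mul, Matrix.mul_zero]
  have cm : Commute t s := Units.ext (by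
    have := p1.trans p2.symm
    simp only [Matrix.mul_sub, Matrix.sub_mul, Matrix.mul_one, Matrix.one_mul] at this
    rw [Units.val_mul, Units.val_mul]
    linear_combination (norm := noncomm_ring) this)
  have h3 := kv.nouni r H Q L hr _ hQ ((kv.upow _).2 ⟨k, by rw [cm.mul_pow, hk, hk', mul_one]⟩)
  have h4 : (t : Mt n F) * s = 1 := congrArg Units.val h3
  have h5 : ((t : Mt n F) - 1) + ((s : Mt n F) - 1) = 0 := by
    simp only [Matrix.mul_sub, Matrix.sub_mul, Matrix.mul_one, Matrix.one_mul, h4] at p1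
    linear_combination (norm := noncomm_ring) -p1
  have h6 := congrArg (e * ·) h5
  simp only [Matrix.mul_add, Matrix.mul_zero] at h6
  rw [l, ← l', ← Matrix.mul_assoc, o1, Matrix.zero_mul, add_zero, sub_eq_zero] at h6
  exact t1 (Units.ext h6)

theorem ex5 {n : ℕ} (hn : 5 ≤ n) (a b c d : Fin n) : ∃ k, k ≠ a ∧ k ≠ b ∧ k ≠ c ∧ k ≠ d := by
  obtain ⟨k, -, hk⟩ := Finset.exists_mem_notMem_of_card_lt_card (s := ({a, b, c, d} : Finset (Fin n)))
    (t := Finset.univ) (Finset.card_le_four.trans_lt (by rw [Finset.card_univ, Fintype.card_fin]; omega))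
  exact ⟨k, by simpa using hk⟩

theorem per {α : Type} {τ : Perm α} {i : α} {s N : ℕ} (h : s.Coprime N) (h1 : τ ^ N = 1)
    (h2 : (τ ^ s) i = i) : τ i = i := by
  have a : Function.IsPeriodicPt τ s i := by rw [Function.IsPeriodicPt, Perm.iterate_eq_pow]; exact h2
  have b : Function.IsPeriodicPt τ N i := by rw [Function.IsPeriodicPt, Perm.iterate_eq_pow, h1]; rfl
  have := a.gcd b
  rwa [h] at this

theorem comb {n r : ℕ} (hn : 5 ≤ n) (hr : r = 2 ∨ r = 3) (π : Perm (Fin n)) (h1 : π ^ r = 1)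
    (h2 : ∀ i, π i ≠ i) : ∃ σ : Perm (Fin n), Perm.sign σ = 1 ∧ ∀ k, (σ * π * σ⁻¹ * π⁻¹) ^ r ^ k ≠ 1 := by
  have key : ∀ i j k : Fin n, swap i k * swap i j * π * (swap i k * swap i j)⁻¹ * π⁻¹ =
      swap i k * swap i j * (swap (π i) (π j) * swap (π i) (π k)) := fun i j k => by
    rw [swap_apply_apply, swap_apply_apply, _root_.mul_inv_rev, swap_inv, swap_inv]
    group
  have sg : ∀ i j k : Fin n, j ≠ i → k ≠ i → Perm.sign (swap i k * swap i j) = 1 := fun i j k a b => by
    rw [map_mul, Perm.sign_swap a.symm, Perm.sign_swap b.symm]; rfl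
  let i : Fin n := ⟨0, by omega⟩
  rcases hr with rfl | rfl
  · have inv : ∀ a, π (π a) = a := fun a => congrArg (fun f : Perm (Fin n) => f a) (pow_two π ▸ h1)
    have sw : ∀ {a b}, b ≠ π a → a ≠ π b := fun h e => h (by rw [e, inv])
    obtain ⟨j, a1, a2, -, -⟩ := ex5 hn i (π i) i i
    obtain ⟨k, b1, b2, b3, b4⟩ := ex5 hn i (π i) j (π j)
    have c1 := (h2 i).symm
    have c2 := (h2 j).symm
    have c3 := (h2 k).symm
    have c4 := sw a2
    have c5 := sw b2
    have c6 := sw b4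
    refine ⟨_, sg i j k a1 b1, fun N hN => ?_⟩
    rw [key] at hN
    generalize π i = i' at *
    generalize π j = j' at *
    generalize π k = k' at *
    have := per (s := 3) (i := i) (Nat.Coprime.pow_right N (by norm_num)) hN (by
      simp [pow_succ, swap_apply_def, *, a1.symm, b1.symm, b3.symm])
    simp [swap_apply_def, *, a1.symm, b1.symm, b3.symm] at this
  · have inv : ∀ a, π (π (π a)) = a := fun a =>
      congrArg (fun f : Perm (Fin n) => f a) (pow_three π ▸ h1)
    obtain ⟨k, b1, b2, b3, -⟩ := ex5 hn i (π i) (π (π i)) i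
    have c1 := h2 i
    have c2 := h2 (π i)
    have c3 : π (π i) ≠ i := fun e => c1 (by have := inv i; rwa [e] at this)
    have c4 := h2 k
    have c5 : π k ≠ i := fun e => b3 (by rw [← e, inv])
    have c6 : π k ≠ π i := fun e => b1 (π.injective e)
    have c7 : π k ≠ π (π i) := fun e => b2 (π.injective e)
    refine ⟨_, sg i (π i) k c1 b1, fun N hN => ?_⟩
    rw [key] at hN
    generalize π (π i) = i2 at *
    generalize π i = i1 at *
    generalize π k = k' at *
    have := per (s := 5) (i := i) (Nat.Coprime.pow_right N (by norm_num)) hN (by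
      simp [pow_succ, swap_apply_def, *, c1.symm, c2.symm, c3.symm, c4.symm, c5.symm, c6.symm, c7.symm,
        b1.symm, b2.symm, b3.symm])
    simp [swap_apply_def, *, c1.symm, c2.symm, c3.symm, c4.symm, c5.symm, c6.symm, c7.symm,
      b1.symm, b2.symm, b3.symm] at this

theorem beta3 (hKA : KAStmt) (hKT : KTStmt) (hF : FrameStmt) (hS : StabStmt) : Beta3Stmt := by
  intro F _ _ _ n c r H Q L E x blk rk xQ xr hx r3
  have ka := hKA F n c
  have kt := hKT F n c
  by_contra hn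
  obtain ⟨a, aS, β, hβ, fr⟩ := hF F n c E blk.fam blk.sf
  have sur : ∀ e ∈ E, ∃ i, β i = e := fun e he => by
    obtain ⟨i, hi⟩ := Finset.card_pos.1 (((fr e he).2.trans (rk e he)).symm ▸ one_pos)
    exact ⟨i, (Finset.mem_filter.1 hi).2⟩
  have inj : Function.Injective β := fun i j e =>
    Finset.card_le_one.1 ((fr _ (hβ j)).2.trans (rk _ (hβ j))).le i (by simpa using e) j (by simp)
  let Act : Gl n F → Perm (Fin n) → Prop := fun g ρ => ∀ i, cj g (β i) = β (ρ i)
  have amul : ∀ {g g' ρ ρ'}, Act g ρ → Act g' ρ' → Act (g * g') (ρ * ρ') := fun h h' i => by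
    rw [cj_mul, h', h]; rfl
  have ainv : ∀ {g ρ}, Act g ρ → Act g⁻¹ ρ⁻¹ := fun {g ρ} h i => by
    have := h (ρ⁻¹ i)
    rw [show ρ (ρ⁻¹ i) = i from ρ.apply_symm_apply i] at this
    rw [← this, cj_inv_cj]
  have apow : ∀ {g ρ}, Act g ρ → ∀ k : ℕ, Act (g ^ k) (ρ ^ k) := fun h k => by
    induction k with
    | zero => intro i; rw [pow_zero, cj_one]; rfl
    | succ k ih => rw [pow_succ, pow_succ]; exact amul ih h
  have aZ : ∀ {g ρ}, Act g ρ → g ∈ c.Z → ρ = 1 := fun h hz =>
    Equiv.ext fun i => inj ((h i).symm.trans (cj_Z ka hz _))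
  choose f hf using fun i => sur _ (hx _ (hβ i)).1
  have finj : Function.Injective f := fun i j e => inj (cj_inj x (by rw [← hf, ← hf, e]))
  let π : Perm (Fin n) := Equiv.ofBijective f (Finite.injective_iff_bijective.1 finj)
  have ax : Act x π := fun i => (hf i).symm
  obtain ⟨σ, sg, hσ⟩ := comb (by omega) (by have := L.prime.two_le; omega) π (aZ (apow ax r) xr)
    fun i e => (hx _ (hβ i)).2 ((ax i).trans (congrArg β e))
  let P : Gl n F := (Matrix.permMatrixHom (n := Fin n) (R := F)).toHomUnits σ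
  have P1 : (P : Mt n F) = σ⁻¹.permMatrix F := rfl
  have P2 : ((P⁻¹ : Gl n F) : Mt n F) = σ⁻¹⁻¹.permMatrix F := rfl
  have ay : Act (a * P * a⁻¹) σ := fun i => by
    rw [(fr _ (hβ i)).1, (fr _ (hβ (σ i))).1, ← cj_mul, inv_mul_cancel_right, cj_mul]
    congr 1
    rw [cj, P1, P2, PEquiv.toMatrix_toPEquiv_mul, PEquiv.mul_toMatrix_toPEquiv, Matrix.submatrix_submatrix]
    refine (Matrix.submatrix_diagonal_equiv _ σ⁻¹).trans ?_
    unfold dg
    congr 1
    funext j
    simp only [Function.comp, inj.eq_iff, Perm.inv_eq_iff_eq]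
  have PS : P ∈ c.St := (ka.mem_St P).2 fun _ => by
    have q0 : c.q ≠ 0 := by have := ka.two_le; omega
    have : (P : Mt n F).map (fun a => a ^ c.q) = P := by
      ext i j
      rw [Matrix.map_apply, P1, Perm.permMatrix, PEquiv.toMatrix_apply]
      split_ifs
      exacts [one_pow _, zero_pow q0]
    rw [Cl.st, this, P1, Matrix.transpose_permMatrix]
    exact P.inv_mul
  have yS : a * P * a⁻¹ ∈ c.S := (ka.mem_S _).2 ⟨mul_mem (mul_mem aS PS) (inv_mem aS), by
    rw [Units.val_mul, Units.val_mul, Matrix.det_units_conj, P1, Matrix.det_permutation, Perm.sign_inv, sg]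
    simp⟩
  have yH := hS F n c r H Q L E blk _ yS fun e he => by
    obtain ⟨i, rfl⟩ := sur e he
    rw [ay i]
    exact hβ _
  obtain ⟨k, hk⟩ := L.rgrp _ (mul_mem (kt.hatG H Q L.inv _ yH x xQ) (inv_mem xQ))
  exact hσ k (aZ (apow (amul (amul (amul ay ax) (ainv ay)) (ainv ax)) _) hk)

end Cfsg.Agent.H67.SwBeta
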