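import Cfsg.Agent.H97.U4Defs

/-! The images of `D` under the automizer of `Q` are opposite to `D`. -/

set_option autoImplicit false

namespace Cfsg.Agent.H67.U4W2

open Cfsg.Agent.H97 Cfsg.Agent.H97.U4 Subgroup
open Cfsg.Agent.H97.U5 (Hm)

universe u

variable {K : Type u} [Field K] {T : Hm K} {p : ℕ} {Γ : Subgroup (Equiv.Perm (W K))}

theorem ai (g : Equiv.Perm (W K)) (w : W K) : g (g⁻¹ w) = w := g.apply_symm_apply w

theorem fix_of {w : W K} {x : K} (hx : x ≠ 0) (e : Perp T w (0, x)) : ∃ l, T.σ l = l ∧ w.1 = l * x :=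
  T.exists_fix hx (by
    simp only [Perp, hm, map_zero] at e
    linear_combination e)

theorem perp_of {w : W K} {x l : K} (hl : T.σ l = l) (e : w.1 = l * x) : Perp T w (0, x) := by
  simp only [Perp, hm, map_zero, e, map_mul, hl]; ring

theorem basis (h2 : (2 : K) ≠ 0) (z : K) : ∃ s t, T.σ s = s ∧ T.σ t = t ∧ z = s + t * T.ep := by
  have := T.ep_ne
  refine ⟨(z + T.σ z) / 2, (z - T.σ z) / (2 * T.ep), ?_, ?_, ?_⟩ <;>
    (try simp only [map_div₀, map_add, map_sub, map_mul, map_ofNat, T.inv, T.σ_ep]) <;>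
    field_simp <;> ring

section
variable (h : WG T p Γ) {g : Equiv.Perm (W K)} (hg : g ∈ Γ)
include h hg

theorem map0 : g 0 = 0 := by
  have := h.add g hg 0 0
  rw [add_zero] at this
  exact left_eq_add.1 this

theorem msub (x y : W K) : g (x - y) = g x - g y := by
  rw [eq_sub_iff_add_eq, ← h.add g hg, sub_add_cancel]

theorem perp_inv {x y : W K} (e : Perp T x (g y)) : Perp T (g⁻¹ x) y := by
  simpa using h.perp _ (inv_mem hg) _ _ e

theorem perpD (x y : K) : Perp T (g (0, x)) (g (0, y)) := h.perp g hg _ _ (perp_D.2 rfl y)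

/-- `g D` is a space over the fixed field. -/
theorem smulD {l : K} (hl : T.σ l = l) (x : K) : (g⁻¹ (l • g (0, x))).1 = 0 :=
  perp_D.1 fun y => perp_inv h hg ((perpD h hg x y).smul hl)

theorem conj_app (b : K) (w : W K) : (g * uW b * g⁻¹) w = w - g (0, b * (g⁻¹ w).1) := by
  rw [Equiv.Perm.mul_apply, Equiv.Perm.mul_apply,
    show uW b (g⁻¹ w) = g⁻¹ w - (0, b * (g⁻¹ w).1) by ext <;> simp [uW_apply], msub h hg]
  simp

theorem conj_fix (b : K) {w : W K} (e : (g⁻¹ w).1 = 0) : (g * uW b * g⁻¹) w = w := by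
  rw [conj_app h hg, e, mul_zero, show ((0, 0) : W K) = 0 from rfl, map0 h hg, sub_zero]

end

/-- The stabilizer of the chain `W > (0, α)^⊥ > F (0, α) > 0`. -/
def chain (T : Hm K) (Γ : Subgroup (Equiv.Perm (W K))) (α : K) : Subgroup (Equiv.Perm (W K)) where
  carrier := {k | k ∈ Γ ∧ (∀ w, ∃ l, T.σ l = l ∧ (k w).1 = w.1 + l * α) ∧
    (∀ w l, T.σ l = l → w.1 = l * α → ∃ m, T.σ m = m ∧ k w = w + (0, m * α)) ∧
    ∀ l, T.σ l = l → k (0, l * α) = (0, l * α)}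
  one_mem' := ⟨one_mem _, fun _ => ⟨0, map_zero _, by simp⟩, fun _ _ _ _ => ⟨0, map_zero _, by
    ext <;> simp⟩, fun _ _ => rfl⟩
  mul_mem' := by
    rintro a b ⟨a0, a1, a2, a3⟩ ⟨b0, b1, b2, b3⟩
    refine ⟨mul_mem a0 b0, fun w => ?_, fun w l hl e => ?_, fun l hl => ?_⟩
    · obtain ⟨l, hl, e⟩ := b1 w
      obtain ⟨m, hm, e'⟩ := a1 (b w)
      exact ⟨l + m, by rw [map_add, hl, hm], by rw [Equiv.Perm.mul_apply, e', e]; ring⟩
    · obtain ⟨m, hm, e1⟩ := b2 w l hl e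
      obtain ⟨n, hn, e2⟩ := a2 (b w) l hl (by rw [e1, ← e]; simp)
      exact ⟨m + n, by rw [map_add, hm, hn], by
        rw [Equiv.Perm.mul_apply, e2, e1]; ext <;> simp [add_mul, add_assoc]⟩
    · rw [Equiv.Perm.mul_apply, b3 l hl, a3 l hl]
  inv_mem' := by
    rintro a ⟨a0, a1, a2, a3⟩
    have i1 : ∀ w, ∃ l, T.σ l = l ∧ (a⁻¹ w).1 = w.1 + l * α := fun w => by
      obtain ⟨l, hl, e⟩ := a1 (a⁻¹ w)
      rw [ai] at e
      exact ⟨-l, by rw [map_neg, hl], by rw [e]; ring⟩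
    refine ⟨inv_mem a0, i1, fun w l hl e => ?_, fun l hl => ?_⟩
    · obtain ⟨m, hm, e1⟩ := i1 w
      obtain ⟨n, hn, e2⟩ := a2 (a⁻¹ w) (l + m) (by rw [map_add, hl, hm]) (by rw [e1, e]; ring)
      rw [ai] at e2
      exact ⟨-n, by rw [map_neg, hn], by
        rw [← sub_eq_iff_eq_add.2 e2]; ext <;> simp [sub_eq_add_neg]⟩
    · rw [Equiv.Perm.inv_eq_iff_eq, a3 l hl]

theorem chain_p [Fact p.Prime] [CharP K p] (h : WG T p Γ) (h2 : (2 : K) = 0) (α : K) :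
    IsPGroup p (chain T Γ α) := by
  obtain rfl : p = 2 := (Nat.prime_dvd_prime_iff_eq Fact.out Nat.prime_two).1
    ((CharP.cast_eq_zero_iff K p 2).1 (by exact_mod_cast h2))
  rintro ⟨k, k0, k1, k2, k3⟩
  have a : ∀ x : W K, x + x = 0 := fun x => by rw [← two_smul K, h2, zero_smul]
  have s : ∀ w, ∃ m, T.σ m = m ∧ k (k w) = w + (0, m * α) := fun w => by
    obtain ⟨l, hl, e⟩ := k1 w
    obtain ⟨m, hm, e1⟩ := k2 (k w - w) l hl (by rw [Prod.fst_sub, e]; ring)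
    refine ⟨m, hm, ?_⟩
    rw [msub h k0, sub_eq_iff_eq_add] at e1
    rw [e1]
    linear_combination (exp := 1) a (k w) - a w
  refine ⟨2, Subtype.ext (Equiv.ext fun w => ?_)⟩
  obtain ⟨m, hm, e⟩ := s w
  change k (k (k (k w))) = w
  rw [e, h.add k k0, k3 m hm, h.add k k0, k3 m hm, e, add_assoc, a, add_zero]

theorem w2 [Fact p.Prime] [CharP K p] : W2Stmt T p := by
  intro Γ h B hc g hg hn x hx e0
  obtain ⟨α, ex⟩ : ∃ α, g (0, x) = (0, α) := ⟨_, Prod.ext e0 rfl⟩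
  have a0 : α ≠ 0 := by
    rintro rfl
    exact hx (congrArg Prod.snd (g.injective (ex.trans (map0 h hg).symm)))
  have ep := T.ep_ne
  have cm : ∀ b, b + T.σ b = 0 → g * uW b * g⁻¹ ∈ Γ := fun b hb =>
    mul_mem (mul_mem hg (h.le ⟨b, hb, rfl⟩)) (inv_mem hg)
  have f1 : ∀ z, ∃ l, T.σ l = l ∧ (g (0, z)).1 = l * α := fun z => fix_of a0 (ex ▸ perpD h hg z x)
  have f2 : ∀ w l, T.σ l = l → w.1 = l * α → ∃ m, T.σ m = m ∧ (g⁻¹ w).1 = m * x := fun w l hl e =>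
    fix_of hx (perp_inv h hg (ex ▸ perp_of hl e))
  have f3 : ∀ f, T.σ f = f → ∃ m, T.σ m = m ∧ g (0, f * x) = (0, m * α) := fun f hf => by
    obtain ⟨m, hm, e⟩ := B.sem g hg f hf
    exact ⟨m, hm, by simpa [ex] using e (0, x)⟩
  have f4 : ∀ l, T.σ l = l → (g⁻¹ (0, l * α)).1 = 0 := fun l hl => by
    simpa [ex] using smulD h hg hl x
  by_cases h2 : (2 : K) = 0
  · have one : (1 : K) + T.σ 1 = 0 := by rw [map_one, ← h2]; ring
    refine hn (h.ti g hg (uW 1) ⟨1, one, rfl⟩ (by simp [uW_eq_one]) (h.syl (chain T Γ α)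
      (fun _ k => k.1) (chain_p h h2 α) ?_ ⟨cm 1 one, fun w => ?_, fun w l hl e => ?_,
        fun l hl => conj_fix h hg 1 (f4 l hl)⟩))
    · rintro _ ⟨b, hb, rfl⟩
      refine ⟨h.le ⟨b, hb, rfl⟩, fun w => ⟨0, map_zero _, by simp [uW_apply]⟩,
        fun w l hl e => ⟨-(b * l), ?_, by ext <;> simp [uW_apply, e]; ring⟩,
        fun l _ => by simp [uW_apply]⟩
      rw [map_neg, map_mul, hl]
      linear_combination -l * hb + b * l * h2
    · obtain ⟨l, hl, e⟩ := f1 (1 * (g⁻¹ w).1)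
      exact ⟨-l, by rw [map_neg, hl], by rw [conj_app h hg, Prod.fst_sub, e]; ring⟩
    · obtain ⟨m, hm, e1⟩ := f2 w l hl e
      obtain ⟨n, hn, e2⟩ := f3 m hm
      exact ⟨-n, by rw [map_neg, hn], by
        rw [conj_app h hg, one_mul, e1, e2]; ext <;> simp [sub_eq_add_neg]⟩
  obtain ⟨big, sd⟩ := hc.resolve_left h2
  have lin : ∀ k ∈ Γ, (∀ l, T.σ l = l → k (0, l * α) = (0, l * α)) → ∀ f, T.σ f = f → ∀ w,
      k (f • w) = f • k w := fun k hk e f hf => by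
    obtain ⟨m, -, e1⟩ := B.sem k hk f hf
    have := e1 (0, 1 * α)
    rw [e 1 (map_one _), Prod.smul_mk, smul_zero, smul_eq_mul, one_mul, e f hf] at this
    obtain rfl : f = m := mul_right_cancel₀ a0 (congrArg Prod.snd this)
    exact e1
  have dec : ∀ z, ∃ s t, T.σ s = s ∧ T.σ t = t ∧
      ((0, z) : W K) = (0, s * α) + t • (0, T.ep * α) := fun z => by
    obtain ⟨s, t, hs, ht, e⟩ := basis (T := T) h2 (z / α)
    refine ⟨s, t, hs, ht, Prod.ext (by simp) ?_⟩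
    rw [div_eq_iff a0] at e
    simp [e]; ring
  obtain ⟨y, hy, y0⟩ : ∃ y : W K, y.1 = α ∧ ∀ t, T.σ t = t → (g⁻¹ (t • y)).1 = 0 := by
    obtain ⟨z, hz⟩ : ∃ z, (g (0, z)).1 ≠ 0 := by
      by_contra! k
      exact hn (B.s0 g hg k)
    obtain ⟨l, hl, e⟩ := f1 z
    have l0 : l ≠ 0 := by rintro rfl; exact hz (by rw [e, zero_mul])
    refine ⟨l⁻¹ • g (0, z), by rw [Prod.smul_fst, e, smul_eq_mul, inv_mul_cancel_left₀ l0],
      fun t ht => ?_⟩
    rw [smul_smul]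
    exact smulD h hg (by rw [map_mul, map_inv₀, ht, hl]) z
  obtain ⟨f, hf, ef⟩ := f2 (0, T.ep * α) 0 (map_zero _) (by simp)
  have f0 : f ≠ 0 := by
    rintro rfl
    refine hn (inv_mem_iff.1 (B.s0 _ (inv_mem hg) fun z => ?_))
    obtain ⟨s, t, hs, ht, e⟩ := dec z
    obtain ⟨m, -, e1⟩ := B.sem _ (inv_mem hg) t ht
    rw [e, h.add _ (inv_mem hg), e1, Prod.fst_add, f4 s hs, Prod.smul_fst, ef]
    simp
  have bt : ∀ t, T.σ t = t → ∃ k ∈ Γ, (∀ l, T.σ l = l → k (0, l * α) = (0, l * α)) ∧ k y = y ∧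
      ∃ s, T.σ s = s ∧ k (0, T.ep * α) = (0, T.ep * α) - t • y + (0, s * α) := fun t ht => by
    obtain ⟨s, r, hs, hr, e⟩ := basis (T := T) h2 ((g⁻¹ (t • y)).2 / x)
    obtain ⟨m, hm, e1⟩ := f3 s hs
    refine ⟨_, cm (r * T.ep / f) (by
      rw [map_div₀, map_mul, hr, hf, T.σ_ep]; ring), fun l hl => conj_fix h hg _ (f4 l hl),
      conj_fix h hg _ (by simpa using y0 1 (map_one _)), m, hm, ?_⟩
    rw [div_eq_iff hx] at e
    rw [conj_app h hg, ef, ← e1, ← ai g (t • y), sub_add, ← msub h hg]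
    congr 2
    refine Prod.ext (by rw [Prod.fst_sub, y0 t ht, sub_zero]) ?_
    simp only [Prod.snd_sub, e]
    field_simp
    ring
  obtain ⟨c, hc, c2⟩ := big.unit
  have c0 := c.ne_zero
  obtain ⟨k, hk, k1, k2, s, hs, k3⟩ := bt 1 (map_one _)
  obtain ⟨n, hn', n1, n2, r, hr, n3⟩ := bt (c : K)⁻¹ (by rw [map_inv₀, hc])
  have hv : n * uW ((1 - c) * T.ep) * k⁻¹ ∈ Γ := mul_mem (mul_mem hn' (h.le ⟨_, by
    rw [map_mul, map_sub, map_one, hc, T.σ_ep]; ring, rfl⟩)) (inv_mem hk)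
  have v1 : ∀ l, T.σ l = l → (n * uW ((1 - c) * T.ep) * k⁻¹) (0, l * α) = (0, l * α) :=
    fun l hl => by
      rw [Equiv.Perm.mul_apply, Equiv.Perm.mul_apply, Equiv.Perm.inv_eq_iff_eq.2 (k1 l hl).symm,
        uW_apply, mul_zero, sub_zero, n1 l hl]
  have v2 : (n * uW ((1 - c) * T.ep) * k⁻¹) (0, T.ep * α) = (0, (c * T.ep + (c * r - s)) * α) := by
    have e1 : k⁻¹ (0, T.ep * α) = (0, T.ep * α) + y - (0, s * α) := by
      rw [Equiv.Perm.inv_eq_iff_eq, msub h hk, h.add k hk, k1 s hs, k2, k3, one_smul]; abel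
    have e2 : uW ((1 - c) * T.ep) ((0, T.ep * α) + y - (0, s * α)) =
        (c : K) • (0, T.ep * α) + y - (0, s * α) := by
      ext <;> simp [uW_apply, hy]; ring
    rw [Equiv.Perm.mul_apply, Equiv.Perm.mul_apply, e1, e2, msub h hn', h.add n hn', n1 s hs, n2,
      lin n hn' n1 c hc, n3]
    ext <;> simp [mul_add, mul_sub]; ring
  obtain ⟨φ, hφ⟩ := sd _ hv (B.s0 _ hv fun z => by
    obtain ⟨s, t, hs, ht, e⟩ := dec z
    rw [e, h.add _ hv, lin _ hv v1 t ht, v1 s hs, v2]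
    simp)
  have v0 := v1 1 (map_one _)
  rw [one_mul] at v0
  have p1 := hφ T.ep α
  have p2 := hφ (T.ep * T.ep) α
  rw [v2, v0] at p1
  rw [v1 _ (by rw [map_mul, T.σ_ep]; ring), v0, map_mul] at p2
  replace p1 := mul_right_cancel₀ a0 (congrArg Prod.snd p1)
  replace p2 := mul_right_cancel₀ a0 (congrArg Prod.snd p2)
  have p3 := T.com φ T.ep
  rw [T.σ_ep, map_neg, ← p1, map_add, map_sub, map_mul, map_mul, hc, hr, hs, T.σ_ep] at p3
  have p4 : c * r - s = 0 := mul_left_cancel₀ h2 (by linear_combination -p3)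
  rw [← p1, p4] at p2
  exact c2 (mul_right_cancel₀ (mul_ne_zero ep ep) (by linear_combination -p2))

end Cfsg.Agent.H67.U4W2
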